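import Mathlib
import Cfsg.Agent.H10.Sig
import Cfsg.Agent.H10.Sig2
import Cfsg.Agent.H1.Chief
import Cfsg.Agent.H22.Dihedral

set_option autoImplicit false
set_option linter.all false
set_option maxHeartbeats 400000

/-!
# H10.Dihed: Thompson's dihedral lemma
-/

open Cfsg
open scoped commutatorElement

namespace Cfsg.Agent.H10

variable {G : Type*} [Group G]

/-- `x` is an eigenvector of `A` -/
def Eig (A : Subgroup G) (x : G) : Prop := ∀ a ∈ A, a * x * a⁻¹ = x ∨ a * x * a⁻¹ = x⁻¹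

theorem mem_of_sq_mem [Finite G] {W : Subgroup G} {x : G} (hx : Odd (orderOf x)) (h : x * x ∈ W) : x ∈ W := by
  obtain ⟨n, hn⟩ := hx
  have h1 : x = (x * x) ^ (n + 1) := by
    rw [← pow_two, ← pow_mul, show 2 * (n + 1) = orderOf x + 1 by omega, pow_succ, pow_orderOf_eq_one, one_mul]
  rw [h1]
  exact W.pow_mem h _

theorem exists_sqrt [Finite G] {x : G} (hx : Odd (orderOf x)) : ∃ n : ℕ, (x ^ n) * (x ^ n) = x := by
  obtain ⟨n, hn⟩ := hx
  refine ⟨n + 1, ?_⟩
  rw [← pow_add, show n + 1 + (n + 1) = orderOf x + 1 by omega, pow_succ, pow_orderOf_eq_one, one_mul]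

theorem odd_orderOf_mem [Finite G] {L : Subgroup G} (hL : Odd (Nat.card L)) {x : G} (hx : x ∈ L) : Odd (orderOf x) := by
  have h1 : orderOf x ∣ Nat.card L := by
    have := orderOf_dvd_natCard (⟨x, hx⟩ : L)
    rwa [Subgroup.orderOf_mk] at this
  exact Odd.of_dvd_nat hL h1

theorem elab_two_inv {A : Subgroup G} (hA : IsElementaryAbelian 2 A) {a : G} (ha : a ∈ A) : a⁻¹ = a := by
  have := hA.2 a ha
  rw [pow_two] at this
  exact inv_eq_of_mul_eq_one_left this

theorem cocyclic_cases {A B : Subgroup G} (hA : IsElementaryAbelian 2 A) (hB : B ≤ A) {a : G} (ha : a ∈ A)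
    (hsup : B ⊔ Subgroup.zpowers a = A) {x : G} (hx : x ∈ A) : x ∈ B ∨ ∃ b ∈ B, x = b * a := by
  rw [← hsup, H23.mem_sup_iff_of_le_normalizer (A := Subgroup.zpowers a) (by
    rw [Subgroup.zpowers_le]; exact elab_le_normalizer hA hB ha)] at hx
  obtain ⟨b, hb, c, hc, rfl⟩ := hx
  obtain ⟨n, rfl⟩ := Subgroup.mem_zpowers_iff.1 hc
  have h2 : a ^ (2 : ℤ) = 1 := by exact_mod_cast hA.2 a ha
  rcases Int.even_or_odd n with ⟨k, hk⟩ | ⟨k, hk⟩
  · left
    rw [hk, ← two_mul, zpow_mul, h2, one_zpow, mul_one]; exact hb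
  · right
    refine ⟨b, hb, ?_⟩
    rw [hk, zpow_add, zpow_mul, h2, one_zpow, one_mul, zpow_one]

/-- eigenvectors outside a subgroup -/
theorem exists_eig [Finite G] {A C E : Subgroup G} (hA : IsElementaryAbelian 2 A) (hC : Odd (Nat.card C))
    (hAC : A ≤ Subgroup.normalizer (C : Set G)) (hCE : ¬ C ≤ E) : ∃ x ∈ C, x ∉ E ∧ Eig A x := by
  haveI : Fact (Nat.Prime 2) := ⟨Nat.prime_two⟩
  have hcop : (Nat.card A).Coprime (Nat.card C) :=
    card_coprime_of_not_dvd (elab_isPGroup hA) (by rw [← even_iff_two_dvd, Nat.not_even_iff_odd]; exact hC)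
  have h1 := H23.iSup_cocyclic_centralizer hA.1 hAC hcop
  obtain ⟨B, ⟨hBA, a, ha, hsup⟩, hB⟩ : ∃ B ∈ H23.cocyclic A, ¬ C ⊓ Subgroup.centralizer (B : Set G) ≤ E := by
    by_contra hcon
    push Not at hcon
    apply hCE
    rw [← h1]
    exact iSup₂_le hcon
  obtain ⟨k, ⟨hkC, hkB⟩, hkE⟩ := SetLike.not_le_iff_exists.1 hB
  have ha1 := elab_two_inv hA ha
  have haa : a * a = 1 := by
    have := hA.2 a ha; rwa [pow_two] at this
  have hB' : ∀ b ∈ B, b * k * b⁻¹ = k := by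
    intro b hb
    rw [mul_inv_eq_iff_eq_mul]; exact (Subgroup.mem_centralizer_iff.1 hkB) b hb
  have hakC : a * k * a⁻¹ ∈ C := (Subgroup.mem_normalizer_iff.1 (hAC ha) k).1 hkC
  -- u
  obtain ⟨u, hu⟩ : ∃ u, u = a * k * a⁻¹ * k⁻¹ := ⟨_, rfl⟩
  have huC : u ∈ C := by rw [hu]; exact C.mul_mem hakC (C.inv_mem hkC)
  have hau : a * u * a⁻¹ = u⁻¹ := by
    rw [hu, ha1]
    calc a * (a * k * a * k⁻¹) * a = (a * a) * k * a * k⁻¹ * a := by group
      _ = k * a * k⁻¹ * a := by rw [haa, one_mul]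
      _ = (a⁻¹ * k * a⁻¹ * k⁻¹)⁻¹ := by group
      _ = (a * k * a * k⁻¹)⁻¹ := by rw [ha1]
  obtain ⟨n, hn⟩ := exists_sqrt (odd_orderOf_mem hC huC)
  obtain ⟨v, hv⟩ : ∃ v, v = u ^ n := ⟨_, rfl⟩
  rw [← hv] at hn
  have hvC : v ∈ C := by rw [hv]; exact C.pow_mem huC n
  have hav : a * v * a⁻¹ = v⁻¹ := by
    rw [hv, ← conj_pow, hau, inv_pow]
  have hBk' : ∀ b ∈ B, b * (a * k * a⁻¹) * b⁻¹ = a * k * a⁻¹ := by
    intro b hb
    have hab := elab_comm hA ha (hBA hb)
    calc b * (a * k * a⁻¹) * b⁻¹ = (b * a) * k * (b * a)⁻¹ := by group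
      _ = (a * b) * k * (a * b)⁻¹ := by rw [hab]
      _ = a * (b * k * b⁻¹) * a⁻¹ := by group
      _ = a * k * a⁻¹ := by rw [hB' b hb]
  have hBu : ∀ b ∈ B, b * u * b⁻¹ = u := by
    intro b hb
    rw [hu]
    calc b * (a * k * a⁻¹ * k⁻¹) * b⁻¹ = (b * (a * k * a⁻¹) * b⁻¹) * (b * k * b⁻¹)⁻¹ := by group
      _ = _ := by rw [hBk' b hb, hB' b hb]
  have hBv : ∀ b ∈ B, b * v * b⁻¹ = v := by
    intro b hb
    rw [hv, ← conj_pow, hBu b hb]
  -- c
  have hac : a * (v * k) * a⁻¹ = v * k := by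
    have h2 : a * k * a⁻¹ = u * k := by rw [hu]; group
    calc a * (v * k) * a⁻¹ = (a * v * a⁻¹) * (a * k * a⁻¹) := by group
      _ = v⁻¹ * (u * k) := by rw [hav, h2]
      _ = v⁻¹ * (v * v * k) := by rw [hn]
      _ = v * k := by group
  by_cases hc : v * k ∈ E
  · refine ⟨v, hvC, ?_, ?_⟩
    · intro hvE
      apply hkE
      have := E.mul_mem (E.inv_mem hvE) hc
      rwa [inv_mul_cancel_left] at this
    · intro x hx
      rcases cocyclic_cases hA hBA ha hsup hx with hx | ⟨b, hb, rfl⟩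
      · exact Or.inl (hBv x hx)
      · right
        calc b * a * v * (b * a)⁻¹ = b * (a * v * a⁻¹) * b⁻¹ := by group
          _ = (b * v * b⁻¹)⁻¹ := by rw [hav]; group
          _ = v⁻¹ := by rw [hBv b hb]
  · refine ⟨v * k, C.mul_mem hvC hkC, hc, ?_⟩
    intro x hx
    left
    have hBvk : ∀ b ∈ B, b * (v * k) * b⁻¹ = v * k := by
      intro b hb
      calc b * (v * k) * b⁻¹ = (b * v * b⁻¹) * (b * k * b⁻¹) := by group
        _ = _ := by rw [hBv b hb, hB' b hb]
    rcases cocyclic_cases hA hBA ha hsup hx with hx | ⟨b, hb, rfl⟩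
    · exact hBvk x hx
    · calc b * a * (v * k) * (b * a)⁻¹ = b * (a * (v * k) * a⁻¹) * b⁻¹ := by group
        _ = _ := by rw [hac, hBvk b hb]

/-- a maximal `A`-invariant abelian subgroup of an odd order group is self centralising -/
theorem exists_selfcent_inv [Finite G] {A L : Subgroup G} (hA : IsElementaryAbelian 2 A) (hL : Odd (Nat.card L))
    (hAL : A ≤ Subgroup.normalizer (L : Set G)) : ∃ E ≤ L, A ≤ Subgroup.normalizer (E : Set G) ∧
      (∀ x ∈ E, ∀ y ∈ E, x * y = y * x) ∧ L ⊓ Subgroup.centralizer (E : Set G) ≤ E := by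
  obtain ⟨E, ⟨hEL, hAE, hEc⟩, hmax⟩ := Set.Finite.exists_maximalFor (fun E : Subgroup G => E)
    {E : Subgroup G | E ≤ L ∧ A ≤ Subgroup.normalizer (E : Set G) ∧ (∀ x ∈ E, ∀ y ∈ E, x * y = y * x)} (Set.toFinite _)
    ⟨⊥, bot_le, by rw [Subgroup.normalizer_eq_top]; exact le_top, by
      intro x hx y hy; rw [Subgroup.mem_bot] at hx hy; rw [hx, hy]⟩
  refine ⟨E, hEL, hAE, hEc, ?_⟩
  by_contra hcon
  have hCodd : Odd (Nat.card ↥(L ⊓ Subgroup.centralizer (E : Set G))) :=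
    Odd.of_dvd_nat hL (Subgroup.card_dvd_of_le inf_le_left)
  have hAC : A ≤ Subgroup.normalizer ((L ⊓ Subgroup.centralizer (E : Set G) : Subgroup G) : Set G) := by
    intro a ha
    rw [Subgroup.mem_normalizer_iff]
    intro x
    rw [Subgroup.mem_inf, Subgroup.mem_inf, ← Subgroup.mem_normalizer_iff.1 (hAL ha) x]
    apply and_congr_right
    intro _
    have : a ∈ Subgroup.normalizer (Subgroup.centralizer (E : Set G) : Set G) :=
      normalizer_le_normalizer_centralizer E (hAE ha)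
    exact Subgroup.mem_normalizer_iff.1 this x
  obtain ⟨x, hxC, hxE, hx⟩ := exists_eig hA hCodd hAC hcon
  have hxcent : ∀ e ∈ E, e * x = x * e := fun e he => Subgroup.mem_centralizer_iff.1 hxC.2 e he
  have hmem : ∀ y ∈ E ⊔ Subgroup.zpowers x, ∃ e ∈ E, ∃ n : ℤ, y = e * x ^ n := by
    intro y hy
    rw [H23.mem_sup_iff_of_le_normalizer (A := Subgroup.zpowers x) (by
      rw [Subgroup.zpowers_le]; exact Subgroup.centralizer_le_normalizer _ hxC.2)] at hy
    obtain ⟨e, he, c, hc, rfl⟩ := hy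
    obtain ⟨n, rfl⟩ := Subgroup.mem_zpowers_iff.1 hc
    exact ⟨e, he, n, rfl⟩
  have h2 := hmax (j := E ⊔ Subgroup.zpowers x) ⟨?_, ?_, ?_⟩ le_sup_left
  · exact hxE (h2 ((le_sup_right : Subgroup.zpowers x ≤ _) (Subgroup.mem_zpowers x)))
  · exact sup_le hEL (by rw [Subgroup.zpowers_le]; exact hxC.1)
  · intro a ha
    have hmap : ∀ y ∈ E ⊔ Subgroup.zpowers x, a * y * a⁻¹ ∈ E ⊔ Subgroup.zpowers x := by
      intro y hy
      obtain ⟨e, he, n, rfl⟩ := hmem y hy
      have h3 : a * (e * x ^ n) * a⁻¹ = (a * e * a⁻¹) * (a * x * a⁻¹) ^ n := by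
        rw [conj_zpow]; group
      rw [h3]
      refine Subgroup.mul_mem _ ((le_sup_left : E ≤ _) ((Subgroup.mem_normalizer_iff.1 (hAE ha) e).1 he)) ?_
      apply Subgroup.zpow_mem
      rcases hx a ha with h4 | h4
      · rw [h4]; exact (le_sup_right : Subgroup.zpowers x ≤ _) (Subgroup.mem_zpowers x)
      · rw [h4]; exact (le_sup_right : Subgroup.zpowers x ≤ _) (Subgroup.inv_mem _ (Subgroup.mem_zpowers x))
    rw [Subgroup.mem_normalizer_iff]
    intro y
    refine ⟨hmap y, ?_⟩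
    intro hy
    have h5 := hmap _ hy
    have ha1 := elab_two_inv hA ha
    have haa : a * a = 1 := by
      have := hA.2 a ha; rwa [pow_two] at this
    have h6 : a * (a * y * a⁻¹) * a⁻¹ = y := by
      rw [ha1]
      calc a * (a * y * a) * a = (a * a) * y * (a * a) := by group
        _ = y := by rw [haa, one_mul, mul_one]
    rwa [h6] at h5
  · intro y hy z hz
    obtain ⟨e, he, n, rfl⟩ := hmem y hy
    obtain ⟨f, hf, m, rfl⟩ := hmem z hz
    have c1 : Commute e x := hxcent e he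
    have c2 : Commute f x := hxcent f hf
    have c3 : Commute e f := hEc e he f hf
    have c4 : Commute (e * x ^ n) (f * x ^ m) := by
      apply Commute.mul_left
      · exact Commute.mul_right c3 (c1.zpow_right m)
      · exact Commute.mul_right (c2.zpow_right n).symm ((Commute.refl x).zpow_zpow n m)
    exact c4

/-- stability -/
theorem stab_lemma [Finite G] {A D N : Subgroup G} (hcop : (Nat.card A).Coprime (Nat.card N))
    (hDN : N ≤ Subgroup.normalizer (D : Set G)) (hAN : A ≤ Subgroup.normalizer (N : Set G))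
    (hAD : A ≤ Subgroup.centralizer (D : Set G)) (hC : N ⊓ Subgroup.centralizer (D : Set G) ≤ D) :
    A ≤ Subgroup.centralizer (N : Set G) := by
  rw [Subgroup.le_centralizer_iff]
  refine H23.le_centralizer_of_commutator_le (N := D) hAN hcop ?_ (Subgroup.le_centralizer_iff.1 hAD)
  refine le_trans (le_inf ?_ ?_) hC
  · exact Subgroup.le_normalizer_iff_commutator_le_left.mp hAN
  · rw [Subgroup.commutator_le]
    intro n hn a ha
    rw [Subgroup.mem_centralizer_iff]
    intro d hd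
    have h1 : n⁻¹ * d * n ∈ D := by
      have := (Subgroup.mem_normalizer_iff.1 (hDN (N.inv_mem hn)) d).1 hd
      rwa [inv_inv] at this
    have h2 := (Subgroup.mem_centralizer_iff.1 (hAD ha)) d hd
    have h3 := (Subgroup.mem_centralizer_iff.1 (hAD ha)) _ h1
    rw [commutatorElement_def]
    -- d * (n a n⁻¹ a⁻¹) = (n a n⁻¹ a⁻¹) * d
    have h4 : a⁻¹ * d = d * a⁻¹ := by
      rw [inv_mul_eq_iff_eq_mul, ← mul_assoc, ← h2, mul_assoc, mul_inv_cancel, mul_one]
    calc d * (n * a * n⁻¹ * a⁻¹) = n * ((n⁻¹ * d * n) * a) * n⁻¹ * a⁻¹ := by group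
      _ = n * (a * (n⁻¹ * d * n)) * n⁻¹ * a⁻¹ := by rw [h3]
      _ = n * a * n⁻¹ * (d * a⁻¹) := by group
      _ = n * a * n⁻¹ * (a⁻¹ * d) := by rw [h4]
      _ = n * a * n⁻¹ * a⁻¹ * d := by group

theorem lt_inf_normalizer_nilp [Finite G] {Q D : Subgroup G}
    (hnil : Group.IsNilpotent Q) (hDQ : D < Q) : D < Subgroup.normalizer (D : Set G) ⊓ Q := by
  have h1 : D.subgroupOf Q < Subgroup.normalizer ((D.subgroupOf Q : Subgroup Q) : Set Q) := by
    apply Group.normalizerCondition_of_isNilpotent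
    rw [lt_top_iff_ne_top, Ne, Subgroup.subgroupOf_eq_top]
    exact fun h => (not_le_of_gt hDQ) h
  rw [normalizer_subgroupOf hDQ.le] at h1
  have h2 : D.subgroupOf Q ≤ (Subgroup.normalizer (D : Set G)).subgroupOf Q := h1.le
  refine lt_of_le_of_ne (le_inf Subgroup.le_normalizer hDQ.le) ?_
  intro h3
  apply h1.ne
  apply Subgroup.ext
  intro x
  rw [Subgroup.mem_subgroupOf, Subgroup.mem_subgroupOf]
  constructor
  · intro hx; exact h2 hx
  · intro hx
    rw [h3]
    exact ⟨hx, x.2⟩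

/-- acting trivially on a selfcentralising subgroup of a nilpotent group -/
theorem stab_nilp [Finite G] {A B E F : Subgroup G} (hF : Group.IsNilpotent F) (hBA : B ≤ A)
    (hcop : (Nat.card A).Coprime (Nat.card F))
    (hAF : A ≤ Subgroup.normalizer (F : Set G)) (hEF : E ≤ F) (hAE : A ≤ Subgroup.normalizer (E : Set G))
    (hC : F ⊓ Subgroup.centralizer (E : Set G) ≤ E) (hB : B ≤ Subgroup.centralizer (E : Set G)) :
    B ≤ Subgroup.centralizer (F : Set G) := by
  obtain ⟨D, ⟨hED, hDF, hAD, hBD⟩, hmax⟩ := Set.Finite.exists_maximalFor (fun E : Subgroup G => E)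
    {D : Subgroup G | E ≤ D ∧ D ≤ F ∧ A ≤ Subgroup.normalizer (D : Set G) ∧ B ≤ Subgroup.centralizer (D : Set G)} (Set.toFinite _)
    ⟨E, le_rfl, hEF, hAE, hB⟩
  by_cases hDF' : D = F
  · rw [← hDF']; exact hBD
  exfalso
  have hlt := lt_inf_normalizer_nilp hF (lt_of_le_of_ne hDF hDF')
  have hAN : A ≤ Subgroup.normalizer ((Subgroup.normalizer (D : Set G) ⊓ F : Subgroup G) : Set G) := by
    intro a ha
    rw [Subgroup.mem_normalizer_iff]
    intro x
    rw [Subgroup.mem_inf, Subgroup.mem_inf, ← Subgroup.mem_normalizer_iff.1 (hAF ha) x]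
    apply and_congr_left
    intro _
    exact Subgroup.mem_normalizer_iff.1 (Subgroup.le_normalizer (hAD ha)) x
  have hcop' : (Nat.card B).Coprime (Nat.card ↥(Subgroup.normalizer (D : Set G) ⊓ F)) :=
    (hcop.coprime_dvd_left (Subgroup.card_dvd_of_le hBA)).coprime_dvd_right (Subgroup.card_dvd_of_le inf_le_right)
  have h1 : B ≤ Subgroup.centralizer ((Subgroup.normalizer (D : Set G) ⊓ F : Subgroup G) : Set G) := by
    refine stab_lemma hcop' inf_le_left (hBA.trans hAN) hBD ?_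
    intro x hx
    exact hED (hC ⟨hx.1.2, Subgroup.centralizer_le hED hx.2⟩)
  have h2 := hmax (j := Subgroup.normalizer (D : Set G) ⊓ F) ⟨hED.trans hlt.le, inf_le_right, hAN, h1⟩ hlt.le
  exact not_le_of_gt hlt h2

end Cfsg.Agent.H10
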