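import Mathlib
import Cfsg.Agent.H10.Dihed

set_option autoImplicit false
set_option linter.all false
set_option maxHeartbeats 400000

/-!
# H10.Dihed2: Thompson's dihedral lemma, main part
-/

open Cfsg
open scoped commutatorElement

namespace Cfsg.Agent.H10

variable {G : Type*} [Group G]

theorem conj_inv_conj (a x : G) : a * x⁻¹ * a⁻¹ = (a * x * a⁻¹)⁻¹ := by group

theorem dih_abelian [Finite G] {A E : Subgroup G} (hA : IsElementaryAbelian 2 A) (hE : Odd (Nat.card E))
    (hAE : A ≤ Subgroup.normalizer (E : Set G)) (m : ℕ) : ∀ B ≤ A, Nat.card B = 2 ^ m →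
    B ⊓ Subgroup.centralizer (E : Set G) = ⊥ →
    ∃ (b x : Fin m → G), (∀ i, b i ∈ B) ∧ (∀ i, x i ∈ E ∧ Eig A (x i) ∧ b i * x i * (b i)⁻¹ = (x i)⁻¹ ∧ x i ≠ 1) ∧
      (∀ i j, i ≠ j → b i * x j * (b i)⁻¹ = x j) ∧ B ≤ Subgroup.closure (Set.range b) := by
  induction m with
  | zero =>
    intro B hB hcard _
    rw [pow_zero] at hcard
    have hB1 : B = ⊥ := Subgroup.eq_bot_of_card_eq B hcard
    refine ⟨Fin.elim0, Fin.elim0, fun i => i.elim0, fun i => i.elim0, fun i => i.elim0, ?_⟩
    rw [hB1]; exact bot_le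
  | succ m ih =>
    intro B hB hcard hfaith
    -- an eigenvector not centralised by B
    obtain ⟨x, hxE, hx, b₀, hb₀, hb₀x⟩ : ∃ x ∈ E, Eig A x ∧ ∃ b ∈ B, b * x * b⁻¹ ≠ x := by
      by_contra hcon
      push Not at hcon
      have hcent : ¬ E ≤ Subgroup.centralizer (B : Set G) := by
        intro h
        rw [Subgroup.le_centralizer_iff] at h
        rw [inf_eq_left.2 h] at hfaith
        rw [hfaith, Subgroup.card_bot] at hcard
        have : 1 < 2 ^ (m + 1) := Nat.one_lt_pow (by omega) (by norm_num)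
        omega
      obtain ⟨x, hxE, hxB, hx⟩ := exists_eig hA hE hAE hcent
      apply hxB
      rw [Subgroup.mem_centralizer_iff]
      intro b hb
      have := hcon x hxE hx b hb
      rw [mul_inv_eq_iff_eq_mul] at this
      exact this
    have hx1 : x ≠ 1 := by rintro rfl; apply hb₀x; group
    have hb₀inv : b₀ * x * b₀⁻¹ = x⁻¹ := (hx b₀ (hB hb₀)).resolve_left hb₀x
    obtain ⟨B₁, hB₁⟩ : ∃ B₁ : Subgroup G, B₁ = B ⊓ Subgroup.centralizer {x} := ⟨_, rfl⟩
    have hB₁B : B₁ ≤ B := by rw [hB₁]; exact inf_le_left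
    have hmemB₁ : ∀ b ∈ B, b * x * b⁻¹ = x → b ∈ B₁ := by
      intro b hb h
      rw [hB₁]
      refine Subgroup.mem_inf.2 ⟨hb, ?_⟩
      rw [Subgroup.mem_centralizer_iff]
      intro y hy
      rw [Set.mem_singleton_iff] at hy
      rw [mul_inv_eq_iff_eq_mul] at h
      rw [hy, h]
    have hB₁x : ∀ b ∈ B₁, b * x * b⁻¹ = x := by
      intro b hb
      rw [hB₁] at hb
      have := Subgroup.mem_centralizer_iff.1 hb.2 x rfl
      rw [mul_inv_eq_iff_eq_mul]; exact this.symm
    have hxx : x⁻¹ ≠ x := by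
      intro h
      have h2 : x * x = 1 := by rw [mul_eq_one_iff_eq_inv, h]
      have h3 := mem_of_sq_mem (W := (⊥ : Subgroup G)) (odd_orderOf_mem hE hxE) (by rw [h2]; exact Subgroup.one_mem _)
      exact hx1 (Subgroup.mem_bot.1 h3)
    have hb₀B₁ : b₀ ∉ B₁ := fun h => hb₀x (hB₁x b₀ h)
    have hmul : ∀ b ∈ B, b ∉ B₁ → ∀ c ∈ B, c ∉ B₁ → c * b ∈ B₁ := by
      intro b hb hb1 c hc hc1
      have e1 : b * x * b⁻¹ = x⁻¹ := (hx b (hB hb)).resolve_left (fun h => hb1 (hmemB₁ b hb h))
      have e2 : c * x * c⁻¹ = x⁻¹ := (hx c (hB hc)).resolve_left (fun h => hc1 (hmemB₁ c hc h))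
      apply hmemB₁ _ (B.mul_mem hc hb)
      calc c * b * x * (c * b)⁻¹ = c * (b * x * b⁻¹) * c⁻¹ := by group
        _ = (c * x * c⁻¹)⁻¹ := by rw [e1, conj_inv_conj]
        _ = x := by rw [e2, inv_inv]
    have hcard₁ : Nat.card B₁ = 2 ^ m := by
      have h1 := (B₁.subgroupOf B).card_mul_index
      have h2 : Nat.card (B₁.subgroupOf B) = Nat.card B₁ := Nat.card_congr (Subgroup.subgroupOfEquivOfLe hB₁B).toEquiv
      have h3 : (B₁.subgroupOf B).index = 2 := by
        rw [Subgroup.index_eq_two_iff']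
        refine ⟨⟨b₀, hb₀⟩, ?_⟩
        rintro ⟨c, hc⟩
        rw [Subgroup.mem_subgroupOf, Subgroup.mem_subgroupOf]
        by_cases hc1 : c ∈ B₁
        · right
          refine ⟨hc1, ?_⟩
          intro h
          apply hb₀B₁
          have h2 : b₀ * c ∈ B₁ := h
          exact (Subgroup.mul_mem_cancel_right B₁ hc1).1 h2
        · left
          exact ⟨hmul c hc hc1 b₀ hb₀ hb₀B₁, hc1⟩
      rw [h2, h3, hcard, pow_succ] at h1
      omega
    have hfaith₁ : B₁ ⊓ Subgroup.centralizer (E : Set G) = ⊥ := by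
      rw [← le_bot_iff, ← hfaith]
      exact inf_le_inf_right _ hB₁B
    obtain ⟨b, y, hb, hy, hby, hcl⟩ := ih B₁ (hB₁B.trans hB) hcard₁ hfaith₁
    -- adjust b₀
    have hadj : ∀ s : Finset (Fin m), ∃ c ∈ B, c ∉ B₁ ∧ ∀ i ∈ s, c * y i * c⁻¹ = y i := by
      intro s
      classical
      induction s using Finset.induction_on with
      | empty => exact ⟨b₀, hb₀, hb₀B₁, fun i hi => absurd hi (Finset.notMem_empty i)⟩
      | insert i s hi ih2 =>
        obtain ⟨c, hc, hc1, hcs⟩ := ih2
        by_cases h : c * y i * c⁻¹ = y i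
        · refine ⟨c, hc, hc1, fun j hj => ?_⟩
          rcases Finset.mem_insert.1 hj with rfl | hj
          · exact h
          · exact hcs j hj
        · have h' := ((hy i).2.1 c (hB hc)).resolve_left h
          refine ⟨c * b i, B.mul_mem hc (hB₁B (hb i)), ?_, fun j hj => ?_⟩
          · intro h2
            exact hc1 ((Subgroup.mul_mem_cancel_right B₁ (hb i)).1 h2)
          · rcases Finset.mem_insert.1 hj with rfl | hj
            · calc c * b j * y j * (c * b j)⁻¹ = c * (b j * y j * (b j)⁻¹) * c⁻¹ := by group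
                _ = (c * y j * c⁻¹)⁻¹ := by rw [(hy j).2.2.1, conj_inv_conj]
                _ = y j := by rw [h', inv_inv]
            · have hij : i ≠ j := fun h => hi (h ▸ hj)
              calc c * b i * y j * (c * b i)⁻¹ = c * (b i * y j * (b i)⁻¹) * c⁻¹ := by group
                _ = y j := by rw [hby i j hij, hcs j hj]
    obtain ⟨c, hc, hc1, hcs⟩ := hadj Finset.univ
    have hcx : c * x * c⁻¹ = x⁻¹ := (hx c (hB hc)).resolve_left (fun h => hc1 (hmemB₁ c hc h))
    refine ⟨Fin.cons c b, Fin.cons x y, ?_, ?_, ?_, ?_⟩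
    · intro i
      refine Fin.cases ?_ (fun i => ?_) i
      · exact hc
      · exact hB₁B (hb i)
    · intro i
      refine Fin.cases ?_ (fun i => ?_) i
      · exact ⟨hxE, hx, hcx, hx1⟩
      · exact hy i
    · intro i j
      refine Fin.cases ?_ (fun i => ?_) i <;> refine Fin.cases ?_ (fun j => ?_) j
      · intro h; exact absurd rfl h
      · intro _; exact hcs j (Finset.mem_univ _)
      · intro _; exact hB₁x _ (hb i)
      · intro h
        exact hby i j (fun h2 => h (by rw [h2]))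
    · have hcl' : B₁ ≤ Subgroup.closure (Set.range (Fin.cons c b : Fin (m + 1) → G)) := by
        refine hcl.trans (Subgroup.closure_mono ?_)
        rintro _ ⟨i, rfl⟩
        exact ⟨i.succ, rfl⟩
      have hcc : c ∈ Subgroup.closure (Set.range (Fin.cons c b : Fin (m + 1) → G)) :=
        Subgroup.subset_closure ⟨0, rfl⟩
      intro z hz
      by_cases hz1 : z ∈ B₁
      · exact hcl' hz1
      · have h1 := hcl' (hmul c hc hc1 z hz hz1)
        exact (Subgroup.mul_mem_cancel_right _ hcc).1 h1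

theorem fitting_stab [Finite G] {A L : Subgroup G} (hL : Group.IsSolvable L) (hcop : (Nat.card A).Coprime (Nat.card L))
    (hAL : A ≤ Subgroup.normalizer (L : Set G)) :
    Group.IsNilpotent ↥((fittingSubgroup L).map L.subtype) ∧ A ≤ Subgroup.normalizer (((fittingSubgroup L).map L.subtype : Subgroup G) : Set G) ∧
    ∀ B ≤ A, B ≤ Subgroup.centralizer (((fittingSubgroup L).map L.subtype : Subgroup G) : Set G) → B ≤ Subgroup.centralizer (L : Set G) := by
  have hnil : Group.IsNilpotent (fittingSubgroup L) := H1.fitting_isNilpotent L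
  have hF : Group.IsNilpotent ↥((fittingSubgroup L).map L.subtype) := by
    haveI := hnil
    exact Group.nilpotent_of_mulEquiv ((fittingSubgroup L).equivMapOfInjective L.subtype L.subtype_injective)
  have hAF : Subgroup.normalizer (L : Set G) ≤ Subgroup.normalizer (((fittingSubgroup L).map L.subtype : Subgroup G) : Set G) :=
    H23.normalizer_le_normalizer_map (fittingSubgroup L)
  refine ⟨hF, hAL.trans hAF, ?_⟩
  intro B hB hBF
  refine stab_lemma (hcop.coprime_dvd_left (Subgroup.card_dvd_of_le hB)) (Subgroup.le_normalizer.trans hAF) (hB.trans hAL) hBF ?_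
  rintro x ⟨hxL, hxC⟩
  refine ⟨⟨x, hxL⟩, ?_, rfl⟩
  apply H1.centralizer_fitting_le hL
  rw [Subgroup.mem_centralizer_iff]
  intro y hy
  apply Subtype.ext
  exact (Subgroup.mem_centralizer_iff.1 hxC) y ⟨y, hy, rfl⟩

end Cfsg.Agent.H10
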