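import Mathlib

set_option autoImplicit false

/-! Normal bases for Galois algebras -/

namespace Cfsg.Agent.H10.Fm

theorem normal_field (K D : Type*) [Field K] [Group D] [Finite D] [MulSemiringAction D K] [FaithfulSMul D K] :
    ∃ (θ : K) (B : Module.Basis D (FixedPoints.subfield D K) K), ∀ d, B d = d • θ := by
  let e := FixedPoints.toAlgAutMulEquiv D K
  refine ⟨IsGalois.normalBasis (FixedPoints.subfield D K) K 1,
    (IsGalois.normalBasis (FixedPoints.subfield D K) K).reindex e.symm.toEquiv, fun d => ?_⟩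
  rw [Module.Basis.reindex_apply]
  change IsGalois.normalBasis (FixedPoints.subfield D K) K (e d) = _
  rw [IsGalois.normalBasis_apply]
  rfl

theorem gal {k R H : Type*} [Field k] [CommRing R] [Algebra k R] [FiniteDimensional k R] [Nontrivial R]
    [Group H] [Finite H] (c : H →* (R ≃ₐ[k] R))
    (hirr : ∀ I : Ideal R, (∀ h, ∀ x ∈ I, c h x ∈ I) → I = ⊥ ∨ I = ⊤)
    {ι : Type*} [Fintype ι] (a b : ι → R) (hab1 : ∑ i, a i * b i = 1)
    (hab : ∀ h, h ≠ 1 → ∑ i, a i * c h (b i) = 0) :
    ∃ W : Submodule k R, (⨆ h : H, W.map (c h).toLinearMap) = ⊤ ∧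
      Nat.card H * Module.finrank k W ≤ Module.finrank k R := by
  classical
  haveI := Fintype.ofFinite H
  obtain ⟨M, hM⟩ := Ideal.exists_maximal R
  have hcm : ∀ g h x, c (g * h) x = c g (c h x) := fun g h x => by rw [map_mul]; rfl
  have hc1 : ∀ x, c 1 x = x := fun x => by rw [map_one]; rfl
  have hci : ∀ h x, c h⁻¹ (c h x) = x := fun h x => by rw [← hcm, inv_mul_cancel, hc1]
  have hci' : ∀ h x, c h (c h⁻¹ x) = x := fun h x => by rw [← hcm, mul_inv_cancel, hc1]
  let D : Subgroup H :=
    { carrier := {h | ∀ x, c h x ∈ M ↔ x ∈ M}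
      one_mem' := fun x => by rw [hc1]
      mul_mem' := fun {g h} hg hh x => by rw [hcm, hg, hh]
      inv_mem' := fun {h} hh x => by rw [← hh (c h⁻¹ x), hci'] }
  have hD : ∀ h, h ∈ D ↔ ∀ x, c h x ∈ M ↔ x ∈ M := fun h => Iff.rfl
  let J : Ideal R := ⨅ h ∈ Finset.univ.filter (fun h : H => h ∉ D), M.comap (c h)
  have hJ : ∀ x, x ∈ J ↔ ∀ h, h ∉ D → c h x ∈ M := by
    intro x
    simp only [J, Ideal.mem_iInf, Finset.mem_filter, Finset.mem_univ, true_and, Ideal.mem_comap]
  -- F1
  have F1 : ∀ x, x ∈ M → x ∈ J → x = 0 := by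
    intro x hx hxJ
    let I : Ideal R := ⨅ h : H, M.comap (c h)
    have hI : ∀ y, y ∈ I ↔ ∀ h, c h y ∈ M := by
      intro y
      simp only [I, Ideal.mem_iInf, Ideal.mem_comap]
    have h1 : I = ⊥ := by
      refine (hirr I (fun h y hy => ?_)).resolve_right (fun h => ?_)
      · rw [hI] at hy ⊢
        intro g
        rw [← hcm]; exact hy _
      · have h2 : (1 : R) ∈ I := by rw [h]; trivial
        rw [hI] at h2
        have h3 := h2 1
        rw [hc1] at h3
        exact hM.ne_top ((Ideal.eq_top_iff_one M).2 h3)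
    have h2 : x ∈ I := by
      rw [hI]
      intro h
      by_cases hh : h ∈ D
      · exact (hh x).2 hx
      · exact (hJ x).1 hxJ h hh
    rw [h1] at h2
    exact (Submodule.mem_bot R).1 h2
  -- F2
  obtain ⟨e, heJ, heM⟩ : ∃ e ∈ J, 1 - e ∈ M := by
    have h1 : M ⊔ J = ⊤ := by
      apply Ideal.sup_iInf_eq_top
      intro h hh
      have hh' := (Finset.mem_filter.1 hh).2
      haveI : (M.comap (c h)).IsMaximal := Ideal.comap_isMaximal_of_equiv (c h)
      apply Ideal.IsMaximal.coprime_of_ne hM this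
      intro heq
      apply hh'
      rw [hD]
      intro x
      rw [← Ideal.mem_comap, ← heq]
    have h2 : (1 : R) ∈ M ⊔ J := by rw [h1]; trivial
    obtain ⟨m, hm, e, he, h3⟩ := Submodule.mem_sup.1 h2
    exact ⟨e, he, by rw [← h3, add_sub_cancel_right]; exact hm⟩
  have F3 : ∀ x ∈ J, ∀ y ∈ M, x * y = 0 := fun x hx y hy =>
    F1 _ (M.mul_mem_left x hy) (J.mul_mem_right y hx)
  have F3e : ∀ x ∈ J, e * x = x := by
    intro x hx
    have := F3 x hx _ heM
    rw [mul_sub, mul_one, sub_eq_zero] at this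
    rw [mul_comm]; exact this.symm
  have hJD : ∀ d ∈ D, ∀ y ∈ J, c d y ∈ J := by
    intro d hd y hy
    rw [hJ] at hy ⊢
    intro h hh
    rw [← hcm]
    exact hy _ (fun h' => hh (by have := D.mul_mem h' (D.inv_mem hd); rwa [mul_inv_cancel_right] at this))
  -- the residue field
  letI : Field (R ⧸ M) := Ideal.Quotient.field M
  let q : R →+* R ⧸ M := Ideal.Quotient.mk M
  have hq0 : ∀ x, q x = 0 ↔ x ∈ M := fun x => Ideal.Quotient.eq_zero_iff_mem
  have qinj : ∀ x ∈ J, q x = 0 → x = 0 := fun x hx h => F1 x ((hq0 x).1 h) hx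
  have qsurj : ∀ z : R ⧸ M, ∃ x ∈ J, q x = z := by
    intro z
    obtain ⟨x, rfl⟩ := Ideal.Quotient.mk_surjective z
    refine ⟨x * e, J.mul_mem_left x heJ, ?_⟩
    rw [map_mul]
    have : q e = 1 := by
      have h := (hq0 _).2 heM
      rw [map_sub, map_one, sub_eq_zero] at h
      exact h.symm
    rw [this, mul_one]
  let sm : D → (R ⧸ M) →+* (R ⧸ M) := fun d => Ideal.Quotient.lift M (q.comp ((c d : R ≃ₐ[k] R) : R →+* R))
    (fun x hx => (hq0 _).2 ((d.2 x).2 hx))
  have hsm : ∀ d x, sm d (q x) = q (c d x) := fun d x => rfl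
  letI act : MulSemiringAction D (R ⧸ M) :=
    { smul := fun d z => sm d z
      one_smul := fun z => by
        obtain ⟨x, rfl⟩ := Ideal.Quotient.mk_surjective z
        change sm 1 (q x) = q x
        rw [hsm]; congr 1; exact hc1 x
      mul_smul := fun d d' z => by
        obtain ⟨x, rfl⟩ := Ideal.Quotient.mk_surjective z
        change sm (d * d') (q x) = sm d (sm d' (q x))
        rw [hsm, hsm, hsm]; congr 1; exact hcm _ _ x
      smul_zero := fun d => map_zero (sm d)
      smul_add := fun d x y => map_add (sm d) x y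
      smul_one := fun d => map_one (sm d)
      smul_mul := fun d x y => map_mul (sm d) x y }
  have hact : ∀ (d : D) x, d • (q x) = q (c d x) := fun d x => rfl
  haveI : FaithfulSMul D (R ⧸ M) := by
    refine ⟨fun {d d'} h => ?_⟩
    by_contra hne
    have hne' : ((d⁻¹ * d' : D) : H) ≠ 1 := fun h' => hne (inv_mul_eq_one.1 (Subtype.ext h'))
    have h1 := hab _ hne'
    have h2 : ∀ x, q (c (d⁻¹ * d' : D) x) = q x := by
      intro x
      rw [← hact, mul_smul, ← h, inv_smul_smul]
    have h3 := congrArg q h1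
    rw [map_sum, map_zero] at h3
    have h4 := congrArg q hab1
    rw [map_sum, map_one] at h4
    have h5 : ∑ i, q (a i * c (d⁻¹ * d' : D) (b i)) = ∑ i, q (a i * b i) := by
      apply Finset.sum_congr rfl
      intro i _
      rw [map_mul, map_mul, h2]
    rw [h5, h4] at h3
    exact one_ne_zero h3
  obtain ⟨θ, B, hB⟩ := normal_field (R ⧸ M) D
  haveI := Fintype.ofFinite D
  -- scalars are fixed
  have hscal : ∀ l : k, ∀ z : R, q (l • z) = q (algebraMap k R l) * q z := fun l z => by
    rw [Algebra.smul_def, map_mul]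
  have hl : ∀ l : k, q (algebraMap k R l) ∈ FixedPoints.subfield D (R ⧸ M) := by
    intro l d
    have h1 : c (d : H) (algebraMap k R l) = algebraMap k R l := AlgEquiv.commutes _ _
    change sm d (q _) = q _
    rw [hsm, h1]
  let W : Submodule k R :=
    { carrier := {x | x ∈ J ∧ ∃ u : FixedPoints.subfield D (R ⧸ M), q x = (u : R ⧸ M) * θ}
      add_mem' := by
        rintro x y ⟨hx, u, hu⟩ ⟨hy, v, hv⟩
        refine ⟨J.add_mem hx hy, u + v, ?_⟩
        rw [map_add, hu, hv]; push_cast; ring
      zero_mem' := ⟨J.zero_mem, 0, by rw [map_zero]; simp⟩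
      smul_mem' := by
        rintro l x ⟨hx, u, hu⟩
        refine ⟨?_, ⟨_, hl l⟩ * u, ?_⟩
        · rw [Algebra.smul_def]; exact J.mul_mem_left _ hx
        · rw [hscal, hu]
          change _ = q (algebraMap k R l) * (u : R ⧸ M) * θ
          ring }
  have hW : ∀ x, x ∈ W ↔ x ∈ J ∧ ∃ u : FixedPoints.subfield D (R ⧸ M), q x = (u : R ⧸ M) * θ := fun x => Iff.rfl
  have hdu : ∀ (d : D) (u : FixedPoints.subfield D (R ⧸ M)) (z : R ⧸ M),
      d • ((u : R ⧸ M) * z) = (u : R ⧸ M) * (d • z) := by
    intro d u z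
    rw [smul_mul']
    congr 1
    exact u.2 d
  set T : Submodule k R := ⨆ h : H, W.map (c h).toLinearMap with hT
  have hWT : ∀ h, ∀ w ∈ W, c h w ∈ T := fun h w hw =>
    Submodule.mem_iSup_of_mem h ⟨w, hw, rfl⟩
  have hTH : ∀ h, ∀ x ∈ T, c h x ∈ T := by
    intro h x hx
    have hle : T ≤ T.comap (c h).toLinearMap := by
      rw [hT]
      apply iSup_le
      intro g
      rintro _ ⟨w, hw, rfl⟩
      change c h (c g w) ∈ T
      rw [← hcm]
      exact hWT _ w hw
    exact hle hx
  have hJT : ∀ x ∈ J, x ∈ T := by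
    intro x hx
    have h1 : ∀ d : D, ∃ w ∈ J, q w = (B.repr (q x) d : R ⧸ M) * θ := fun d => qsurj _
    choose w hwJ hw using h1
    have h2 : x = ∑ d : D, c d (w d) := by
      have h3 : q (x - ∑ d : D, c d (w d)) = 0 := by
        rw [map_sub, map_sum, sub_eq_zero]
        conv_lhs => rw [← B.sum_repr (q x)]
        apply Finset.sum_congr rfl
        intro d _
        rw [← hact, hw, hdu, hB]
        rfl
      have h4 := qinj _ (J.sub_mem hx (J.sum_mem (fun d _ => hJD _ d.2 _ (hwJ d)))) h3
      exact sub_eq_zero.1 h4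
    rw [h2]
    exact Submodule.sum_mem _ (fun d _ => hWT _ _ ⟨hwJ d, _, hw d⟩)
  have hTtop : T = ⊤ := by
    let I : Ideal R := ⨆ h : H, J.comap (c h)
    have hI : I = ⊤ := by
      refine (hirr I (fun h x hx => ?_)).resolve_left (fun h => ?_)
      · have hle : I ≤ I.comap (c h) := by
          apply iSup_le
          intro g x hx
          rw [Ideal.mem_comap]
          apply Submodule.mem_iSup_of_mem (g * h⁻¹)
          rw [Ideal.mem_comap, ← hcm, inv_mul_cancel_right]
          exact hx
        exact hle hx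
      · have h1 : e ∈ I := Submodule.mem_iSup_of_mem (1 : H) (by rw [Ideal.mem_comap, hc1]; exact heJ)
        rw [h] at h1
        have h2 : e = 0 := (Submodule.mem_bot R).1 h1
        rw [h2, sub_zero] at heM
        exact hM.ne_top ((Ideal.eq_top_iff_one M).2 heM)
    rw [eq_top_iff]
    intro x _
    have hx : x ∈ I := by rw [hI]; trivial
    refine Submodule.iSup_induction (fun h : H => J.comap (c h)) (motive := fun x => x ∈ T) hx ?_ T.zero_mem
      (fun x y => T.add_mem)
    intro h y hy
    have := hTH h⁻¹ _ (hJT _ hy)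
    rwa [hci] at this
  refine ⟨W, hTtop, ?_⟩
  -- independence
  let f : (H → W) →ₗ[k] R := ∑ h : H, (c h).toLinearMap ∘ₗ W.subtype ∘ₗ LinearMap.proj h
  have hf : ∀ w, f w = ∑ h : H, c h (w h : R) := by
    intro w
    simp [f, LinearMap.sum_apply]
  have hfi : Function.Injective f := by
    rw [← LinearMap.ker_eq_bot, LinearMap.ker_eq_bot']
    intro w hw
    funext g
    have h0 : ∀ h, (w h : R) ∈ J := fun h => (w h).2.1
    have h1 : e * c g⁻¹ (f w) = 0 := by rw [hw, map_zero, mul_zero]
    rw [hf, map_sum, Finset.mul_sum] at h1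
    have h2 : ∑ h : H, e * c g⁻¹ (c h (w h : R)) = ∑ d : D, c d (w (g * d) : R) := by
      have h3 : ∑ h : H, e * c g⁻¹ (c h (w h : R)) = ∑ h : H, e * c h (w (g * h) : R) := by
        refine (Fintype.sum_equiv (Equiv.mulLeft g) _ _ (fun h => ?_)).symm
        change e * c h (w (g * h) : R) = e * c g⁻¹ (c (g * h) (w (g * h) : R))
        rw [← hcm, inv_mul_cancel_left]
      rw [h3]
      have h4 : ∀ h : H, e * c h (w (g * h) : R) = if h ∈ D then c h (w (g * h) : R) else 0 := by
        intro h
        by_cases hh : h ∈ D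
        · rw [if_pos hh]; exact F3e _ (hJD _ hh _ (h0 _))
        · rw [if_neg hh]; exact F3 e heJ _ ((hJ _).1 (h0 _) h hh)
      rw [Finset.sum_congr rfl (fun h _ => h4 h), ← Finset.sum_filter]
      refine (Finset.sum_subtype (Finset.univ.filter (fun h : H => h ∈ D)) (p := fun h => h ∈ D)
        (by intro x; simp) (fun h => c h (w (g * h) : R)))
    rw [h2] at h1
    have h5 : ∀ h, ∃ u : FixedPoints.subfield D (R ⧸ M), q (w h : R) = (u : R ⧸ M) * θ := fun h => (w h).2.2
    choose u hu using h5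
    have h6 := congrArg q h1
    rw [map_sum, map_zero] at h6
    have h7 : ∑ d : D, (u (g * d)) • B d = 0 := by
      rw [← h6]
      apply Finset.sum_congr rfl
      intro d _
      rw [← hact, hu, hdu, hB]
      rfl
    have h8 := Fintype.linearIndependent_iff.1 B.linearIndependent (fun d : D => u (g * d)) h7 1
    have h9 : q (w g : R) = 0 := by
      have h10 : u g = 0 := by
        have : g * ((1 : D) : H) = g := by simp
        rw [this] at h8
        exact h8
      rw [hu, h10]; simp
    exact Subtype.ext (qinj _ (h0 g) h9)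
  have h11 := LinearMap.finrank_le_finrank_of_injective hfi
  rw [Module.finrank_pi_fintype, Finset.sum_const, Finset.card_univ, smul_eq_mul, ← Nat.card_eq_fintype_card] at h11
  exact h11

end Cfsg.Agent.H10.Fm
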