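import Cfsg.Agent.H10.Fm1

set_option autoImplicit false

/-! Semilinear modules over Galois algebras -/

namespace Cfsg.Agent.H10.Fm

theorem gal_mod {k R H V : Type*} [Field k] [CommRing R] [Algebra k R] [FiniteDimensional k R] [Nontrivial R]
    [Group H] [Finite H] (c : H →* (R ≃ₐ[k] R))
    (hirr : ∀ I : Ideal R, (∀ h, ∀ x ∈ I, c h x ∈ I) → I = ⊥ ∨ I = ⊤)
    {ι : Type*} [Fintype ι] (a b : ι → R) (hab1 : ∑ i, a i * b i = 1)
    (hab : ∀ h, h ≠ 1 → ∑ i, a i * c h (b i) = 0)
    [AddCommGroup V] [Module k V] [FiniteDimensional k V] [Module R V] [IsScalarTower k R V]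
    (σ : H →* (V →ₗ[k] V)) (hσ : ∀ h (r : R) v, σ h (r • v) = c h r • σ h v) :
    ∃ W : Submodule k V, (⨆ h : H, W.map (σ h)) = ⊤ ∧
      Nat.card H * Module.finrank k W ≤ Module.finrank k V := by
  classical
  haveI := Fintype.ofFinite H
  obtain ⟨W, hW, hWr⟩ := gal c hirr a b hab1 hab
  have hgen : ∀ v : V, ∑ i, a i • (∑ h : H, σ h (b i • v)) = v := by
    intro v
    have : ∑ i, a i • (∑ h : H, σ h (b i • v)) = ∑ h : H, (∑ i, a i * c h (b i)) • σ h v := by
      simp_rw [Finset.smul_sum, hσ, smul_smul]
      rw [Finset.sum_comm]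
      simp_rw [Finset.sum_smul]
    rw [this, Finset.sum_eq_single 1]
    · rw [map_one, map_one]
      change (∑ i, a i * b i) • v = v
      rw [hab1, one_smul]
    · intro h _ hh; rw [hab h hh, zero_smul]
    · intro h; exact absurd (Finset.mem_univ _) h
  have hfix : ∀ v g, σ g (∑ h : H, σ h v) = ∑ h : H, σ h v := by
    intro v g
    rw [map_sum]
    exact Fintype.sum_equiv (Equiv.mulLeft g) _ _ (fun h => by rw [Equiv.coe_mulLeft, map_mul]; rfl)
  have hex : ∃ n, ∃ s : Finset V, s.card = n ∧ (∀ v ∈ s, ∀ h, σ h v = v) ∧ Submodule.span R (s : Set V) = ⊤ := by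
    haveI : Module.Finite R V := Module.Finite.of_restrictScalars_finite k R V
    obtain ⟨t, ht⟩ := (Module.finite_def.1 ‹Module.Finite R V› : (⊤ : Submodule R V).FG)
    let s : Finset V := (t ×ˢ (Finset.univ : Finset ι)).image (fun x => ∑ h : H, σ h (b x.2 • x.1))
    refine ⟨_, s, rfl, ?_, ?_⟩
    · intro v hv h
      obtain ⟨x, _, rfl⟩ := Finset.mem_image.1 hv
      exact hfix _ _
    · rw [eq_top_iff, ← ht, Submodule.span_le]
      intro v hv
      have h1 : ∑ i, a i • (∑ h : H, σ h (b i • v)) ∈ Submodule.span R (s : Set V) := by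
        refine Submodule.sum_mem _ (fun i _ => Submodule.smul_mem _ _ (Submodule.subset_span ?_))
        exact Finset.mem_coe.2 (Finset.mem_image.2 ⟨(v, i), Finset.mem_product.2 ⟨hv, Finset.mem_univ _⟩, rfl⟩)
      rw [hgen v] at h1
      exact h1
  obtain ⟨s, hsn, hsf, hst⟩ := Nat.find_spec hex
  have hmin : ∀ s' : Finset V, (∀ v ∈ s', ∀ h, σ h v = v) → Submodule.span R (s' : Set V) = ⊤ →
      s.card ≤ s'.card := by
    intro s' h1 h2
    rw [hsn]
    exact Nat.find_min' hex ⟨s', rfl, h1, h2⟩
  have hind : ∀ r : s → R, ∑ x : s, r x • (x : V) = 0 → ∀ x, r x = 0 := by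
    intro r hr x
    let S' : Submodule R V := Submodule.span R ((s.erase x : Finset V) : Set V)
    let I : Ideal R := S'.comap (LinearMap.toSpanSingleton R V (x : V))
    have hI : ∀ r, r ∈ I ↔ r • (x : V) ∈ S' := fun r => by
      simp only [I, Submodule.mem_comap, LinearMap.toSpanSingleton_apply]
    have hS'H : ∀ h, ∀ v ∈ S', σ h v ∈ S' := by
      intro h v hv
      refine Submodule.span_induction (p := fun v _ => σ h v ∈ S') ?_ ?_ ?_ ?_ hv
      · intro y hy; rw [hsf y (Finset.mem_of_mem_erase hy)]; exact Submodule.subset_span hy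
      · rw [map_zero]; exact S'.zero_mem
      · intro y z _ _ h1 h2; rw [map_add]; exact S'.add_mem h1 h2
      · intro r y _ h1; rw [hσ]; exact S'.smul_mem _ h1
    rcases hirr I (fun h r hr => by
      rw [hI] at hr ⊢
      have := hS'H h _ hr
      rwa [hσ, hsf x x.2] at this) with h | h
    · have : r x ∈ I := by
        rw [hI]
        have h1 : r x • (x:V) = - ∑ y ∈ Finset.univ.erase x, r y • (y : V) := by
          rw [← Finset.add_sum_erase _ _ (Finset.mem_univ x)] at hr
          exact eq_neg_of_add_eq_zero_left hr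
        rw [h1]
        refine S'.neg_mem (S'.sum_mem (fun y hy => S'.smul_mem _ (Submodule.subset_span ?_)))
        exact Finset.mem_coe.2 (Finset.mem_erase.2 ⟨fun h => (Finset.mem_erase.1 hy).1 (Subtype.ext h), y.2⟩)
      rw [h] at this; exact (Submodule.mem_bot R).1 this
    · exfalso
      have h1 : (x : V) ∈ S' := by
        have : (1 : R) ∈ I := by rw [h]; trivial
        rw [hI, one_smul] at this; exact this
      have h2 : S' = ⊤ := by
        rw [eq_top_iff, ← hst, Submodule.span_le]
        intro y hy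
        by_cases hyx : y = x
        · rw [hyx]; exact h1
        · exact Submodule.subset_span (Finset.mem_coe.2 (Finset.mem_erase.2 ⟨hyx, hy⟩))
      have h3 := hmin (s.erase x) (fun v hv => hsf v (Finset.mem_of_mem_erase hv)) h2
      rw [Finset.card_erase_of_mem x.2] at h3
      have h4 : 0 < s.card := Finset.card_pos.2 ⟨x, x.2⟩
      omega
  let f : (s → R) →ₗ[k] V :=
    ∑ x : s, ((LinearMap.toSpanSingleton R V (x : V)).restrictScalars k) ∘ₗ LinearMap.proj x
  have hf : ∀ r, f r = ∑ x : s, r x • (x : V) := by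
    intro r
    simp [f, LinearMap.sum_apply]
  have hfi : Function.Injective f := by
    rw [← LinearMap.ker_eq_bot, LinearMap.ker_eq_bot']
    intro r hr
    rw [hf] at hr
    exact funext (hind r hr)
  have hd : s.card * Module.finrank k R ≤ Module.finrank k V := by
    have := LinearMap.finrank_le_finrank_of_injective hfi
    rw [Module.finrank_pi_fintype, Finset.sum_const, Finset.card_univ, Fintype.card_coe, smul_eq_mul] at this
    exact this
  let g : (s → W) →ₗ[k] V :=
    ∑ x : s, ((LinearMap.toSpanSingleton R V (x : V)).restrictScalars k) ∘ₗ W.subtype ∘ₗ LinearMap.proj x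
  have hg : ∀ r, g r = ∑ x : s, (r x : R) • (x : V) := by
    intro r
    simp [g, LinearMap.sum_apply]
  refine ⟨LinearMap.range g, ?_, ?_⟩
  · set T : Submodule k V := ⨆ h : H, (LinearMap.range g).map (σ h) with hT
    have h1 : ∀ x ∈ s, ∀ r : R, r • x ∈ T := by
      intro x hx r
      have hle : (⊤ : Submodule k R) ≤ T.comap ((LinearMap.toSpanSingleton R V (x : V)).restrictScalars k) := by
        rw [← hW]
        apply iSup_le
        rintro h _ ⟨w, hw, rfl⟩
        change (c h w) • x ∈ T
        have h2 : (c h w) • x = σ h (w • x) := by rw [hσ, hsf x hx]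
        rw [h2]
        refine Submodule.mem_iSup_of_mem h ⟨w • x, ⟨Pi.single ⟨x, hx⟩ ⟨w, hw⟩, ?_⟩, rfl⟩
        rw [hg, Finset.sum_eq_single ⟨x, hx⟩]
        · rw [Pi.single_eq_same]
        · intro y _ hy; rw [Pi.single_eq_of_ne hy]; simp
        · intro h; exact absurd (Finset.mem_univ _) h
      exact hle (Submodule.mem_top : r ∈ _)
    rw [eq_top_iff]
    intro v _
    have hv : v ∈ Submodule.span R (s : Set V) := by rw [hst]; trivial
    have h2 : ∀ r : R, r • v ∈ T := by
      refine Submodule.span_induction (p := fun v _ => ∀ r : R, r • v ∈ T) ?_ ?_ ?_ ?_ hv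
      · exact fun x hx => h1 x hx
      · intro r; rw [smul_zero]; exact T.zero_mem
      · intro x y _ _ h2 h3 r; rw [smul_add]; exact T.add_mem (h2 r) (h3 r)
      · intro r' x _ h2 r; rw [smul_smul]; exact h2 _
    have := h2 1
    rwa [one_smul] at this
  · have h1 : Module.finrank k (LinearMap.range g) ≤ s.card * Module.finrank k W := by
      have := LinearMap.finrank_range_le g
      rw [Module.finrank_pi_fintype, Finset.sum_const, Finset.card_univ, Fintype.card_coe, smul_eq_mul] at this
      exact this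
    calc Nat.card H * Module.finrank k (LinearMap.range g)
        ≤ Nat.card H * (s.card * Module.finrank k W) := Nat.mul_le_mul_left _ h1
      _ = s.card * (Nat.card H * Module.finrank k W) := by ring
      _ ≤ s.card * Module.finrank k R := Nat.mul_le_mul_left _ hWr
      _ ≤ Module.finrank k V := hd

end Cfsg.Agent.H10.Fm
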