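import Cfsg.Agent.H10.Fm2

set_option autoImplicit false

/-! Free modules over complements: extensions and the irreducible case -/

namespace Cfsg.Agent.H10.Fm

universe u

theorem ext {k H U V Q : Type*} [Field k] [Group H] [Finite H]
    [AddCommGroup U] [Module k U] [AddCommGroup V] [Module k V] [FiniteDimensional k V]
    [AddCommGroup Q] [Module k Q] [FiniteDimensional k U] [FiniteDimensional k Q]
    (i : U →ₗ[k] V) (p : V →ₗ[k] Q) (hi : Function.Injective i) (hp : Function.Surjective p)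
    (hex : LinearMap.ker p = LinearMap.range i)
    (σU : H →* (U →ₗ[k] U)) (σ : H →* (V →ₗ[k] V)) (σQ : H →* (Q →ₗ[k] Q))
    (h1 : ∀ h u, i (σU h u) = σ h (i u)) (h2 : ∀ h v, p (σ h v) = σQ h (p v))
    (fU : ∃ W : Submodule k U, (⨆ h : H, W.map (σU h)) = ⊤ ∧
      Nat.card H * Module.finrank k W ≤ Module.finrank k U)
    (fQ : ∃ W : Submodule k Q, (⨆ h : H, W.map (σQ h)) = ⊤ ∧
      Nat.card H * Module.finrank k W ≤ Module.finrank k Q) :
    ∃ W : Submodule k V, (⨆ h : H, W.map (σ h)) = ⊤ ∧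
      Nat.card H * Module.finrank k W ≤ Module.finrank k V := by
  obtain ⟨WU, hU, hUr⟩ := fU
  obtain ⟨WQ, hQ, hQr⟩ := fQ
  obtain ⟨s, hs⟩ := p.exists_rightInverse_of_surjective (LinearMap.range_eq_top.2 hp)
  have hs' : ∀ q, p (s q) = q := fun q => LinearMap.congr_fun hs q
  refine ⟨WU.map i ⊔ WQ.map s, ?_, ?_⟩
  · set T : Submodule k V := ⨆ h : H, (WU.map i ⊔ WQ.map s).map (σ h) with hT
    have hi1 : ∀ u, i u ∈ T := by
      intro u
      have hle : (⊤ : Submodule k U) ≤ T.comap i := by
        rw [← hU]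
        apply iSup_le
        rintro h _ ⟨w, hw, rfl⟩
        change i (σU h w) ∈ T
        rw [h1]
        exact Submodule.mem_iSup_of_mem h ⟨i w, Submodule.mem_sup_left ⟨w, hw, rfl⟩, rfl⟩
      exact hle (Submodule.mem_top : u ∈ _)
    have hq1 : ∀ q, ∃ t ∈ T, p t = q := by
      intro q
      have hle : (⊤ : Submodule k Q) ≤ T.map p := by
        rw [← hQ]
        apply iSup_le
        rintro h _ ⟨w, hw, rfl⟩
        refine ⟨σ h (s w), Submodule.mem_iSup_of_mem h ⟨s w, Submodule.mem_sup_right ⟨w, hw, rfl⟩, rfl⟩, ?_⟩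
        rw [h2, hs']
      exact hle (Submodule.mem_top : q ∈ _)
    rw [eq_top_iff]
    intro v _
    obtain ⟨t, ht, htv⟩ := hq1 (p v)
    have h3 : v - t ∈ LinearMap.range i := by
      rw [← hex, LinearMap.mem_ker, map_sub, htv, sub_self]
    obtain ⟨u, hu⟩ := h3
    have h4 : v = i u + t := by rw [hu]; abel
    rw [h4]
    exact T.add_mem (hi1 u) ht
  · have h3 : Module.finrank k (WU.map i ⊔ WQ.map s : Submodule k V) ≤ Module.finrank k WU + Module.finrank k WQ :=
      (Submodule.finrank_add_le_finrank_add_finrank _ _).trans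
        (Nat.add_le_add (Submodule.finrank_map_le _ _) (Submodule.finrank_map_le _ _))
    have h4 : Module.finrank k V = Module.finrank k U + Module.finrank k Q := by
      rw [← LinearMap.finrank_range_add_finrank_ker p, hex, LinearMap.finrank_range_of_inj hi,
        LinearMap.range_eq_top.2 hp, finrank_top, add_comm]
    calc _ ≤ Nat.card H * (Module.finrank k WU + Module.finrank k WQ) := Nat.mul_le_mul_left _ h3
      _ = Nat.card H * Module.finrank k WU + Nat.card H * Module.finrank k WQ := Nat.mul_add _ _ _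
      _ ≤ Module.finrank k U + Module.finrank k Q := Nat.add_le_add hUr hQr
      _ = _ := h4.symm

theorem sub_rep {k V G : Type*} [Field k] [AddCommGroup V] [Module k V] [Group G] (ρ : G →* (V →ₗ[k] V))
    (U : Submodule k V) (hU : ∀ g, ∀ u ∈ U, ρ g u ∈ U) :
    ∃ σ : G →* (U →ₗ[k] U), ∀ g u, ((σ g u : U) : V) = ρ g u :=
  ⟨{ toFun := fun g => (ρ g).restrict (hU g)
     map_one' := by ext u; simp
     map_mul' := fun g h => by ext u; simp }, fun g u => rfl⟩

theorem quot_rep {k V G : Type*} [Field k] [AddCommGroup V] [Module k V] [Group G] (ρ : G →* (V →ₗ[k] V))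
    (U : Submodule k V) (hU : ∀ g, ∀ u ∈ U, ρ g u ∈ U) :
    ∃ σ : G →* ((V ⧸ U) →ₗ[k] (V ⧸ U)), ∀ g v, σ g (U.mkQ v) = U.mkQ (ρ g v) :=
  ⟨{ toFun := fun g => U.mapQ U (ρ g) (hU g)
     map_one' := by ext u; simp
     map_mul' := fun g h => by ext u; simp }, fun g u => rfl⟩

theorem comm_alg {k : Type*} {E : Type u} [Field k] [Ring E] [Algebra k E] (s : Set E)
    (h : ∀ a ∈ s, ∀ b ∈ s, a * b = b * a) :
    ∃ (R : Type u) (_ : CommRing R) (_ : Algebra k R) (ι : R →ₐ[k] E), Function.Injective ι ∧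
      ι.range = Algebra.adjoin k s := by
  letI : CommRing (Algebra.adjoin k s) := Algebra.adjoinCommRingOfComm k h
  exact ⟨Algebra.adjoin k s, inferInstance, inferInstance, (Algebra.adjoin k s).val,
    Subtype.coe_injective, Subalgebra.range_val _⟩

theorem irr {k V F H : Type*} [Field k] [AddCommGroup V] [Module k V] [FiniteDimensional k V] [Nontrivial V]
    [Group F] [Finite F] [Group H] [Finite H] (φ : H →* MulAut F)
    (hφ : ∀ h, h ≠ 1 → ∀ f, φ h f = f → f = 1)
    (hnil : Group.IsNilpotent F) (hcard : (Nat.card F : k) ≠ 0)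
    (ρ : F →* (V →ₗ[k] V)) (σ : H →* (V →ₗ[k] V)) (hc : ∀ h f, σ h * ρ f = ρ (φ h f) * σ h)
    (hF : ∀ v, (∀ f, ρ f v = v) → v = 0)
    (hirr : ∀ U : Submodule k V, (∀ f, ∀ u ∈ U, ρ f u ∈ U) → (∀ h, ∀ u ∈ U, σ h u ∈ U) →
      U = ⊥ ∨ U = ⊤) :
    ∃ W : Submodule k V, (⨆ h : H, W.map (σ h)) = ⊤ ∧
      Nat.card H * Module.finrank k W ≤ Module.finrank k V := by
  classical
  have hss : ∀ h, σ h * σ h⁻¹ = 1 := fun h => by rw [← map_mul, mul_inv_cancel, map_one]
  have hss' : ∀ h, σ h⁻¹ * σ h = 1 := fun h => by rw [← map_mul, inv_mul_cancel, map_one]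
  have hcv : ∀ h f v, σ h (ρ f v) = ρ (φ h f) (σ h v) := fun h f v => LinearMap.congr_fun (hc h f) v
  have hcc : ∀ h f, σ h * ρ f * σ h⁻¹ = ρ (φ h f) := fun h f => by rw [hc, mul_assoc, hss, mul_one]
  have hφi : ∀ h f, φ h (φ h⁻¹ f) = f := fun h f => by
    rw [← MulAut.mul_apply, ← map_mul, mul_inv_cancel, map_one]; rfl
  let N : Subgroup F :=
    { carrier := {n | ∀ f, ρ n * ρ f = ρ f * ρ n}
      mul_mem' := fun {a b} ha hb f => by
        rw [map_mul, mul_assoc, hb, ← mul_assoc, ha, mul_assoc]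
      one_mem' := fun f => by rw [map_one, one_mul, mul_one]
      inv_mem' := fun {a} ha f => by
        have h1 : ρ a⁻¹ * ρ a = 1 := by rw [← map_mul, inv_mul_cancel, map_one]
        have h2 : ρ a * ρ a⁻¹ = 1 := by rw [← map_mul, mul_inv_cancel, map_one]
        calc ρ a⁻¹ * ρ f = ρ a⁻¹ * ρ f * (ρ a * ρ a⁻¹) := by rw [h2, mul_one]
          _ = ρ a⁻¹ * (ρ f * ρ a) * ρ a⁻¹ := by noncomm_ring
          _ = ρ a⁻¹ * (ρ a * ρ f) * ρ a⁻¹ := by rw [ha f]
          _ = (ρ a⁻¹ * ρ a) * ρ f * ρ a⁻¹ := by noncomm_ring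
          _ = ρ f * ρ a⁻¹ := by rw [h1, one_mul] }
  have hN : ∀ n, n ∈ N ↔ ∀ f, ρ n * ρ f = ρ f * ρ n := fun n => Iff.rfl
  have hNφ : ∀ h, ∀ n ∈ N, φ h n ∈ N := by
    intro h n hn
    rw [hN] at hn ⊢
    intro f
    have h1 := hn (φ h⁻¹ f)
    rw [← map_mul, ← map_mul] at h1
    have h2 := congrArg (fun x => σ h * x * σ h⁻¹) h1
    simp only [hcc] at h2
    simp only [map_mul, hφi] at h2
    exact h2
  have hN0 : ∀ v, (∀ n ∈ N, ρ n v = v) → v = 0 := by
    let U : Submodule k V :=
      { carrier := {v | ∀ n ∈ N, ρ n v = v}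
        add_mem' := fun {a b} ha hb n hn => by rw [map_add, ha n hn, hb n hn]
        zero_mem' := fun n _ => map_zero _
        smul_mem' := fun c x hx n hn => by rw [map_smul, hx n hn] }
    have hU : ∀ v, v ∈ U ↔ ∀ n ∈ N, ρ n v = v := fun v => Iff.rfl
    have h1 : U = ⊥ := by
      refine (hirr U (fun f u hu => ?_) (fun h u hu => ?_)).resolve_right (fun htop => ?_)
      · rw [hU] at hu ⊢
        intro n hn
        have h2 : (ρ n * ρ f) u = (ρ f * ρ n) u := by rw [hn f]
        change ρ n (ρ f u) = ρ f (ρ n u) at h2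
        rw [h2, hu n hn]
      · rw [hU] at hu ⊢
        intro n hn
        have h2 := hcv h (φ h⁻¹ n) u
        rw [hφi, hu _ (hNφ _ _ hn)] at h2
        exact h2.symm
      · have hall : ∀ n ∈ N, ρ n = 1 := by
          intro n hn
          ext v
          have : v ∈ U := by rw [htop]; trivial
          exact this n hn
        have hker : ∀ f, ρ f = 1 := by
          by_contra hne
          push Not at hne
          obtain ⟨f0, hf0⟩ := hne
          haveI : Nontrivial (F ⧸ ρ.ker) := by
            refine ⟨⟨QuotientGroup.mk f0, 1, fun h => hf0 ?_⟩⟩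
            exact (QuotientGroup.eq_one_iff _).1 h
          haveI := hnil
          have h3 : Subgroup.center (F ⧸ ρ.ker) ≠ ⊥ := Group.IsNilpotent.center_ne_bot _
          apply h3
          rw [Subgroup.eq_bot_iff_forall]
          intro z hz
          obtain ⟨n, rfl⟩ := QuotientGroup.mk_surjective z
          have h4 : n ∈ N := by
            rw [hN]
            intro f
            have h5 := (Subgroup.mem_center_iff.1 hz) (QuotientGroup.mk f)
            rw [← QuotientGroup.mk_mul, ← QuotientGroup.mk_mul, QuotientGroup.eq, MonoidHom.mem_ker,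
              map_mul] at h5
            have h6 : ρ (f * n) * ρ (f * n)⁻¹ = 1 := by rw [← map_mul, mul_inv_cancel, map_one]
            have h7 : ρ (n * f) = ρ (f * n) := by
              calc ρ (n * f) = (ρ (f * n) * ρ (f * n)⁻¹) * ρ (n * f) := by rw [h6, one_mul]
                _ = ρ (f * n) * (ρ (f * n)⁻¹ * ρ (n * f)) := by rw [mul_assoc]
                _ = ρ (f * n) := by rw [h5, mul_one]
            rw [← map_mul, ← map_mul, h7]
          exact (QuotientGroup.eq_one_iff _).2 (hall n h4)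
        obtain ⟨v, hv⟩ := exists_ne (0 : V)
        exact hv (hF v (fun f => by rw [hker f]; rfl))
    intro v hv
    have : v ∈ U := hv
    rw [h1] at this
    exact (Submodule.mem_bot k).1 this
  have hNc : (Nat.card N : k) ≠ 0 := by
    intro h
    apply hcard
    obtain ⟨m, hm⟩ := Subgroup.card_subgroup_dvd_card N
    rw [hm, Nat.cast_mul, h, zero_mul]
  haveI := Fintype.ofFinite N
  have hsum : ∑ m : N, ρ m = 0 := by
    ext v
    change _ = (0 : V)
    apply hN0
    intro n hn
    rw [LinearMap.sum_apply, map_sum]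
    exact Fintype.sum_equiv (Equiv.mulLeft (⟨n, hn⟩ : N)) _ _ (fun m => by
      change ρ n (ρ m v) = ρ (n * m) v
      rw [map_mul]; rfl)
  obtain ⟨R, _, _, ι, hιi, hιr⟩ := comm_alg (k := k) (E := Module.End k V) (ρ '' (N : Set F)) (by
    rintro _ ⟨a, ha, rfl⟩ _ ⟨b, _, rfl⟩
    exact ha b)
  have hιm : ∀ r, ι r ∈ Algebra.adjoin k (ρ '' (N : Set F)) := fun r => by rw [← hιr]; exact ⟨r, rfl⟩
  have hιs : ∀ x ∈ Algebra.adjoin k (ρ '' (N : Set F)), ∃ r, ι r = x := fun x hx => by
    rw [← hιr] at hx; exact hx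
  have hcomm : ∀ r f, ι r * ρ f = ρ f * ι r := by
    intro r f
    have h1 : Algebra.adjoin k (ρ '' (N : Set F)) ≤ Subalgebra.centralizer k (Set.range ρ) := by
      apply Algebra.adjoin_le
      rintro _ ⟨n, hn, rfl⟩
      rw [SetLike.mem_coe, Subalgebra.mem_centralizer_iff]
      rintro _ ⟨f, rfl⟩
      exact (hn f).symm
    exact (Subalgebra.mem_centralizer_iff k |>.1 (h1 (hιm r)) _ ⟨f, rfl⟩).symm
  have hst : ∀ h r, ∃ r', ι r' = σ h * ι r * σ h⁻¹ := by
    intro h r
    apply hιs
    refine Algebra.adjoin_induction (p := fun x _ => σ h * x * σ h⁻¹ ∈ Algebra.adjoin k (ρ '' (N : Set F)))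
      ?_ ?_ ?_ ?_ (hιm r)
    · rintro _ ⟨n, hn, rfl⟩
      rw [hcc]
      exact Algebra.subset_adjoin ⟨_, hNφ h n hn, rfl⟩
    · intro l
      rw [← Algebra.commutes l (σ h), mul_assoc, hss, mul_one]
      exact Subalgebra.algebraMap_mem _ _
    · intro x y _ _ hx hy
      rw [mul_add, add_mul]; exact add_mem hx hy
    · intro x y _ _ hx hy
      have : σ h * (x * y) * σ h⁻¹ = (σ h * x * σ h⁻¹) * (σ h * y * σ h⁻¹) := by
        calc σ h * (x * y) * σ h⁻¹ = σ h * x * 1 * y * σ h⁻¹ := by noncomm_ring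
          _ = σ h * x * (σ h⁻¹ * σ h) * y * σ h⁻¹ := by rw [hss']
          _ = _ := by noncomm_ring
      rw [this]; exact mul_mem hx hy
  choose c0 hc0 using hst
  have hc0m : ∀ g h r, c0 (g * h) r = c0 g (c0 h r) := by
    intro g h r
    apply hιi
    rw [hc0, hc0, hc0, mul_inv_rev, map_mul, map_mul]
    noncomm_ring
  have hc01 : ∀ r, c0 1 r = r := by
    intro r
    apply hιi
    rw [hc0, inv_one, map_one, one_mul, mul_one]
  let c : H →* (R ≃ₐ[k] R) :=
    { toFun := fun h =>
        { toFun := c0 h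
          invFun := c0 h⁻¹
          left_inv := fun r => by rw [← hc0m, inv_mul_cancel, hc01]
          right_inv := fun r => by rw [← hc0m, mul_inv_cancel, hc01]
          map_mul' := fun x y => hιi (by
            rw [map_mul, hc0, hc0, hc0, map_mul]
            calc σ h * (ι x * ι y) * σ h⁻¹ = σ h * ι x * 1 * ι y * σ h⁻¹ := by noncomm_ring
              _ = σ h * ι x * (σ h⁻¹ * σ h) * ι y * σ h⁻¹ := by rw [hss']
              _ = _ := by noncomm_ring)
          map_add' := fun x y => hιi (by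
            rw [map_add, hc0, hc0, hc0, map_add, mul_add, add_mul])
          commutes' := fun l => hιi (by
            change ι (c0 h _) = _
            rw [hc0, AlgHom.commutes, ← Algebra.commutes l (σ h), mul_assoc, hss, mul_one]) }
      map_one' := AlgEquiv.ext (fun r => hc01 r)
      map_mul' := fun g h => AlgEquiv.ext (fun r => hc0m g h r) }
  have hcι : ∀ h r, ι (c h r) = σ h * ι r * σ h⁻¹ := hc0
  haveI : FiniteDimensional k R := FiniteDimensional.of_injective ι.toLinearMap hιi
  haveI : Nontrivial R := by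
    refine ⟨⟨0, 1, fun h => ?_⟩⟩
    have h1 := congrArg ι h
    rw [map_zero, map_one] at h1
    obtain ⟨v, hv⟩ := exists_ne (0 : V)
    exact hv (LinearMap.congr_fun h1 v).symm
  letI : Module R V := Module.compHom V ι.toRingHom
  have hsmul : ∀ (r : R) (v : V), r • v = ι r v := fun r v => rfl
  haveI : IsScalarTower k R V := ⟨fun a r v => by
    rw [hsmul, hsmul, map_smul]; rfl⟩
  have hσ : ∀ h (r : R) v, σ h (r • v) = c h r • σ h v := by
    intro h r v
    rw [hsmul, hsmul, hcι]
    change _ = σ h (ι r ((σ h⁻¹ * σ h) v))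
    rw [hss']; rfl
  have hirrR : ∀ I : Ideal R, (∀ h, ∀ x ∈ I, c h x ∈ I) → I = ⊥ ∨ I = ⊤ := by
    intro I hI
    have hA : ∀ f, ∀ u ∈ (I • (⊤ : Submodule R V)).restrictScalars k,
        ρ f u ∈ (I • (⊤ : Submodule R V)).restrictScalars k := by
      intro f u hu
      have hu' : u ∈ I • (⊤ : Submodule R V) := hu
      change ρ f u ∈ I • (⊤ : Submodule R V)
      refine Submodule.smul_induction_on (p := fun u => ρ f u ∈ I • (⊤ : Submodule R V)) hu' ?_ ?_
      · intro r hr v _
        have : ρ f (r • v) = r • ρ f v := by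
          rw [hsmul, hsmul]
          exact (LinearMap.congr_fun (hcomm r f) v).symm
        rw [this]
        exact Submodule.smul_mem_smul hr Submodule.mem_top
      · intro x y hx hy
        rw [map_add]; exact add_mem hx hy
    have hB : ∀ h, ∀ u ∈ (I • (⊤ : Submodule R V)).restrictScalars k,
        σ h u ∈ (I • (⊤ : Submodule R V)).restrictScalars k := by
      intro h u hu
      have hu' : u ∈ I • (⊤ : Submodule R V) := hu
      change σ h u ∈ I • (⊤ : Submodule R V)
      refine Submodule.smul_induction_on (p := fun u => σ h u ∈ I • (⊤ : Submodule R V)) hu' ?_ ?_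
      · intro r hr v _
        rw [hσ]
        exact Submodule.smul_mem_smul (hI h r hr) Submodule.mem_top
      · intro x y hx hy
        rw [map_add]; exact add_mem hx hy
    rcases hirr _ hA hB with h | h
    · left
      rw [Submodule.eq_bot_iff]
      intro r hr
      apply hιi
      rw [map_zero]
      ext v
      have h1 : r • v ∈ (I • (⊤ : Submodule R V)).restrictScalars k :=
        Submodule.smul_mem_smul hr Submodule.mem_top
      rw [h] at h1
      exact (Submodule.mem_bot k).1 h1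
    · right
      haveI : Module.Finite R V := Module.Finite.of_restrictScalars_finite k R V
      obtain ⟨r, hr1, hr2⟩ := Submodule.exists_sub_one_mem_and_smul_eq_zero_of_fg_of_le_smul I
        (⊤ : Submodule R V) (Module.finite_def.1 ‹Module.Finite R V›) (fun v _ => by
          have : v ∈ (I • (⊤ : Submodule R V)).restrictScalars k := by rw [h]; trivial
          exact this)
      have h2 : r = 0 := by
        apply hιi
        rw [map_zero]
        ext v
        exact hr2 v Submodule.mem_top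
      rw [h2, zero_sub] at hr1
      rw [Ideal.eq_top_iff_one]
      have := I.neg_mem hr1
      rwa [neg_neg] at this
  have ha : ∀ n : N, ∃ r, ι r = ρ n := fun n => hιs _ (Algebra.subset_adjoin ⟨n, n.2, rfl⟩)
  choose a ha using ha
  have hρi : ∀ n : N, ρ n * ρ ((n⁻¹ : N) : F) = 1 := fun n => by
    rw [← map_mul]; simp
  refine gal_mod c hirrR a (fun n => (Nat.card N : k)⁻¹ • a n⁻¹) ?_ ?_ σ hσ
  · apply hιi
    rw [map_sum, map_one]
    have : ∀ n : N, ι (a n * ((Nat.card N : k)⁻¹ • a n⁻¹)) = (Nat.card N : k)⁻¹ • (1 : Module.End k V) := by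
      intro n
      rw [map_mul, map_smul, ha, ha, mul_smul_comm, hρi]
    rw [Finset.sum_congr rfl (fun n _ => this n), Finset.sum_const, Finset.card_univ,
      ← Nat.card_eq_fintype_card, ← Nat.cast_smul_eq_nsmul k, smul_smul, mul_inv_cancel₀ hNc, one_smul]
  · intro h hh
    apply hιi
    rw [map_sum, map_zero]
    have h1 : ∀ n : N, ι (a n * c h ((Nat.card N : k)⁻¹ • a n⁻¹)) =
        (Nat.card N : k)⁻¹ • ρ (n * φ h ((n⁻¹ : N) : F)) := by
      intro n
      rw [map_mul, hcι, map_smul, ha, ha, mul_smul_comm, smul_mul_assoc, mul_smul_comm, hcc, ← map_mul]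
    rw [Finset.sum_congr rfl (fun n _ => h1 n), ← Finset.smul_sum]
    let τ : N → N := fun n => n * ⟨φ h ((n⁻¹ : N) : F), hNφ h _ (n⁻¹).2⟩
    have hτ : Function.Injective τ := by
      intro n m hnm
      have h2 : (n : F) * φ h (n : F)⁻¹ = m * φ h (m : F)⁻¹ := by
        have := congrArg Subtype.val hnm
        exact this
      have h3 : φ h ((m : F)⁻¹ * n) = (m : F)⁻¹ * n := by
        rw [map_inv, map_inv] at h2
        rw [map_mul, map_inv]
        have h4 : (n : F) = m * (φ h (m : F))⁻¹ * φ h n := by rw [← h2]; group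
        calc (φ h (m : F))⁻¹ * φ h n = (m : F)⁻¹ * (m * (φ h (m : F))⁻¹ * φ h n) := by group
          _ = (m : F)⁻¹ * n := by rw [← h4]
      have h5 := hφ h hh _ h3
      exact Subtype.ext (inv_mul_eq_one.1 h5).symm
    have hτb : Function.Bijective τ := Finite.injective_iff_bijective.1 hτ
    have h2 : ∑ n : N, ρ (n * φ h ((n⁻¹ : N) : F)) = ∑ m : N, ρ m :=
      Fintype.sum_bijective τ hτb _ _ (fun n => rfl)
    rw [h2, hsum, smul_zero]

end Cfsg.Agent.H10.Fm
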