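import Cfsg.Agent.H10.Fm3
import Cfsg.Agent.H1.NilHall

set_option autoImplicit false

/-! Free modules over complements: the general case -/

namespace Cfsg.Agent.H10.Fm

universe u

theorem internal {k V ι : Type*} [Field k] [AddCommGroup V] [Module k V] [FiniteDimensional k V]
    [DecidableEq ι] [Finite ι] (A : ι → Submodule k V) (h1 : (⨆ i, A i) = ⊤) (d : ℕ)
    (h2 : ∀ i, Module.finrank k (A i) ≤ d) (h3 : Nat.card ι * d ≤ Module.finrank k V) :
    DirectSum.IsInternal A := by
  haveI := Fintype.ofFinite ι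
  have hs : Function.Surjective (DirectSum.coeLinearMap A) := by
    rw [← LinearMap.range_eq_top, DirectSum.range_coeLinearMap, h1]
  haveI : FiniteDimensional k (DirectSum ι (fun i => A i)) :=
    Module.Finite.equiv (DirectSum.linearEquivFunOnFintype k ι (fun i => A i)).symm
  have h4 : Module.finrank k (DirectSum ι (fun i => A i)) ≤ Module.finrank k V := by
    rw [Module.finrank_directSum]
    calc ∑ i, Module.finrank k (A i) ≤ ∑ _i : ι, d := Finset.sum_le_sum (fun i _ => h2 i)
      _ = Nat.card ι * d := by rw [Finset.sum_const, Finset.card_univ, smul_eq_mul, Nat.card_eq_fintype_card]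
      _ ≤ _ := h3
  have h5 : Module.finrank k V ≤ Module.finrank k (DirectSum ι (fun i => A i)) :=
    LinearMap.finrank_le_finrank_of_surjective hs
  have hi : Function.Injective (DirectSum.coeLinearMap A) :=
    (LinearMap.injective_iff_surjective_of_finrank_eq_finrank (le_antisymm h4 h5)).2 hs
  exact ⟨hi, hs⟩

theorem main {k : Type*} {F H : Type*} [Field k] [Group F] [Finite F] [Group H] [Finite H]
    (φ : H →* MulAut F) (hφ : ∀ h, h ≠ 1 → ∀ f, φ h f = f → f = 1)
    (hnil : Group.IsNilpotent F) (hcard : (Nat.card F : k) ≠ 0) (n : ℕ) :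
    ∀ (V : Type u) [AddCommGroup V] [Module k V] [FiniteDimensional k V]
    (ρ : F →* (V →ₗ[k] V)) (σ : H →* (V →ₗ[k] V)), (∀ h f, σ h * ρ f = ρ (φ h f) * σ h) →
    (∀ v, (∀ f, ρ f v = v) → v = 0) → Module.finrank k V = n →
    ∃ W : Submodule k V, (⨆ h : H, W.map (σ h)) = ⊤ ∧
      Nat.card H * Module.finrank k W ≤ Module.finrank k V := by
  induction n using Nat.strong_induction_on with
  | _ n ih =>
    intro V _ _ _ ρ σ hc hF hn
    rcases subsingleton_or_nontrivial V with hs | hs
    · refine ⟨⊥, ?_, ?_⟩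
      · rw [eq_top_iff]
        intro v _
        rw [Subsingleton.elim v 0]; exact Submodule.zero_mem _
      · rw [finrank_bot, mul_zero]; exact Nat.zero_le _
    by_cases hU : ∃ U : Submodule k V, (∀ f, ∀ u ∈ U, ρ f u ∈ U) ∧ (∀ h, ∀ u ∈ U, σ h u ∈ U) ∧
        U ≠ ⊥ ∧ U ≠ ⊤
    · obtain ⟨U, hUf, hUh, hb, ht⟩ := hU
      obtain ⟨ρU, hρU⟩ := sub_rep ρ U hUf
      obtain ⟨σU, hσU⟩ := sub_rep σ U hUh
      obtain ⟨ρQ, hρQ⟩ := quot_rep ρ U hUf
      obtain ⟨σQ, hσQ⟩ := quot_rep σ U hUh
      have hcv : ∀ h f v, σ h (ρ f v) = ρ (φ h f) (σ h v) := fun h f v => LinearMap.congr_fun (hc h f) v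
      have hUlt : Module.finrank k U < Module.finrank k V := Submodule.finrank_lt ht
      have hQlt : Module.finrank k (V ⧸ U) < Module.finrank k V := by
        have h1 := Submodule.finrank_quotient_add_finrank U
        have h2 : Module.finrank k U ≠ 0 := fun h => hb (Submodule.finrank_eq_zero.1 h)
        omega
      have fU := ih _ (by rw [← hn]; exact hUlt) U ρU σU (fun h f => by
        ext u
        change ((σU h (ρU f u) : U) : V) = ((ρU (φ h f) (σU h u) : U) : V)
        rw [hσU, hρU, hρU, hσU, hcv]) (fun v hv => by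
        apply Subtype.ext
        apply hF
        intro f
        rw [← hρU, hv f]) rfl
      have fQ := ih _ (by rw [← hn]; exact hQlt) (V ⧸ U) ρQ σQ (fun h f => by
        apply LinearMap.ext
        intro q
        obtain ⟨v, rfl⟩ := U.mkQ_surjective q
        change σQ h (ρQ f (U.mkQ v)) = ρQ (φ h f) (σQ h (U.mkQ v))
        rw [hρQ, hσQ, hσQ, hρQ, hcv]) (fun q hq => by
        obtain ⟨v, rfl⟩ := U.mkQ_surjective q
        haveI := Fintype.ofFinite F
        have h1 : ∀ f, v - ρ f v ∈ U := by
          intro f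
          have h2 := hq f
          rw [hρQ] at h2
          have h3 : U.mkQ (v - ρ f v) = 0 := by rw [map_sub, h2, sub_self]
          exact (Submodule.Quotient.mk_eq_zero U).1 h3
        have hw : ∑ f, ρ f v = 0 := by
          apply hF
          intro g
          rw [map_sum]
          exact Fintype.sum_equiv (Equiv.mulLeft g) _ _ (fun m => by
            rw [Equiv.coe_mulLeft, map_mul]; rfl)
        have h4 : ∑ f, (v - ρ f v) ∈ U := U.sum_mem (fun f _ => h1 f)
        rw [Finset.sum_sub_distrib, hw, sub_zero, Finset.sum_const, Finset.card_univ,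
          ← Nat.card_eq_fintype_card, ← Nat.cast_smul_eq_nsmul k] at h4
        have h5 : v ∈ U := by
          have := U.smul_mem ((Nat.card F : k)⁻¹) h4
          rwa [smul_smul, inv_mul_cancel₀ hcard, one_smul] at this
        exact (Submodule.Quotient.mk_eq_zero U).2 h5) rfl
      exact ext U.subtype U.mkQ U.injective_subtype U.mkQ_surjective
        (by rw [Submodule.ker_mkQ, Submodule.range_subtype]) σU σ σQ (fun h u => hσU h u)
        (fun h v => (hσQ h v).symm) fU fQ
    · refine irr φ hφ hnil hcard ρ σ hc hF (fun U h1 h2 => ?_)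
      by_contra h3
      push Not at h3
      exact hU ⟨U, h1, h2, h3.1, h3.2⟩

theorem pfix {k V P : Type*} [Field k] {p : ℕ} [Fact p.Prime] (hp : (p : k) = 0) [AddCommGroup V]
    [Module k V] [Group P] [Finite P] (hP : IsPGroup p P)
    (ρ : P →* (V →ₗ[k] V)) (v : V) (hv : v ≠ 0) : ∃ w, w ≠ 0 ∧ (∀ g, ρ g w = w) := by
  let M : Submodule ℤ V := Submodule.span ℤ (Set.range (fun g => ρ g v))
  have hpv : ∀ x : V, p • x = 0 := fun x => by
    rw [← Nat.cast_smul_eq_nsmul k, hp, zero_smul]
  have hM : ∀ g, ∀ x ∈ M, ρ g x ∈ M := by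
    intro g x hx
    refine Submodule.span_induction (p := fun x _ => ρ g x ∈ M) ?_ ?_ ?_ ?_ hx
    · rintro _ ⟨h, rfl⟩
      apply Submodule.subset_span
      exact ⟨g * h, by change ρ (g * h) v = _; rw [map_mul]; rfl⟩
    · rw [map_zero]; exact M.zero_mem
    · intro x y _ _ h1 h2; rw [map_add]; exact M.add_mem h1 h2
    · intro a x _ h1; rw [map_zsmul]; exact M.smul_mem _ h1
  haveI : Module.Finite ℤ M := Module.Finite.span_of_finite ℤ (Set.finite_range _)
  haveI : Finite M := by
    apply Module.finite_of_fg_torsion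
    intro x
    refine ⟨⟨(p : ℤ), mem_nonZeroDivisors_of_ne_zero (by exact_mod_cast (Fact.out : p.Prime).ne_zero)⟩, ?_⟩
    change (p : ℤ) • x = 0
    apply Subtype.ext
    rw [natCast_zsmul]
    exact hpv x
  letI : MulAction P M :=
    { smul := fun g x => ⟨ρ g x, hM g x x.2⟩
      one_smul := fun x => Subtype.ext (by change ρ 1 (x : V) = x; rw [map_one]; rfl)
      mul_smul := fun g h x => Subtype.ext (by
        change ρ (g * h) (x : V) = ρ g (ρ h x); rw [map_mul]; rfl) }
  have hsm : ∀ (g : P) (x : M), ((g • x : M) : V) = ρ g x := fun g x => rfl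
  have hvM : v ∈ M := Submodule.subset_span ⟨1, by change ρ 1 v = v; rw [map_one]; rfl⟩
  have hdvd : p ∣ Nat.card M := by
    have h1 : addOrderOf (⟨v, hvM⟩ : M) = p :=
      addOrderOf_eq_prime (Subtype.ext (hpv v)) (fun h => hv (congrArg Subtype.val h))
    rw [← h1]; exact addOrderOf_dvd_natCard _
  have h0 : (0 : M) ∈ MulAction.fixedPoints P M := fun g => Subtype.ext (by
    rw [hsm]; exact map_zero _)
  obtain ⟨b, hb, hb0⟩ := hP.exists_fixed_point_of_prime_dvd_card_of_fixed_point M hdvd h0
  exact ⟨b, fun h => hb0 (Subtype.ext h.symm), fun g => by rw [← hsm, hb g]⟩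

end Cfsg.Agent.H10.Fm
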