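import Cfsg.Agent.H10.Fm4

set_option autoImplicit false

/-! Free modules over complements: no hypothesis on the characteristic -/

namespace Cfsg.Agent.H10.Fm

open Cfsg Cfsg.Agent.H1

universe u

theorem main' {k : Type*} {F H : Type*} {V : Type u} [Field k] [Group F] [Finite F] [Group H] [Finite H]
    (φ : H →* MulAut F) (hφ : ∀ h, h ≠ 1 → ∀ f, φ h f = f → f = 1)
    (hnil : Group.IsNilpotent F) [AddCommGroup V] [Module k V] [FiniteDimensional k V]
    (ρ : F →* (V →ₗ[k] V)) (σ : H →* (V →ₗ[k] V)) (hc : ∀ h f, σ h * ρ f = ρ (φ h f) * σ h)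
    (hF : ∀ v, (∀ f, ρ f v = v) → v = 0) :
    ∃ W : Submodule k V, (⨆ h : H, W.map (σ h)) = ⊤ ∧
      Nat.card H * Module.finrank k W ≤ Module.finrank k V := by
  obtain ⟨c, hchar⟩ := CharP.exists k
  rcases CharP.char_is_prime_or_zero k c with hp | h0
  · haveI := Fact.mk hp
    have hpk : (c : k) = 0 := CharP.cast_eq_zero k c
    let Q : Subgroup F := pPrimeCore c F
    haveI hQch : Q.Characteristic := pPrimeCore_characteristic c F
    have hQ : ∀ h, ∀ q ∈ Q, φ h q ∈ Q := fun h q hq => by
      have h1 := hQch.fixed (φ h)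
      have h2 : q ∈ Q.comap (φ h).toMonoidHom := by rw [h1]; exact hq
      exact h2
    have hφ1 : ∀ f, φ 1 f = f := fun f => by rw [map_one]; rfl
    have hφm : ∀ g h f, φ (g * h) f = φ g (φ h f) := fun g h f => by rw [map_mul]; rfl
    let φ' : H →* MulAut Q :=
      { toFun := fun h =>
          { toFun := fun q => ⟨φ h q, hQ h q q.2⟩
            invFun := fun q => ⟨φ h⁻¹ q, hQ _ q q.2⟩
            left_inv := fun q => Subtype.ext (by
              change φ h⁻¹ (φ h q) = q
              rw [← hφm, inv_mul_cancel, hφ1])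
            right_inv := fun q => Subtype.ext (by
              change φ h (φ h⁻¹ q) = q
              rw [← hφm, mul_inv_cancel, hφ1])
            map_mul' := fun x y => Subtype.ext (map_mul (φ h) (x : F) (y : F)) }
        map_one' := MulEquiv.ext (fun q => Subtype.ext (hφ1 q))
        map_mul' := fun g h => MulEquiv.ext (fun q => Subtype.ext (hφm g h q)) }
    have hφ' : ∀ h (q : Q), ((φ' h q : Q) : F) = φ h q := fun h q => rfl
    haveI := hnil
    haveI hQnil : Group.IsNilpotent Q := inferInstance
    have hQc : (Nat.card Q : k) ≠ 0 := by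
      intro h
      have h1 : (Nat.card Q).Coprime c := pPrimeCore_coprime c F
      obtain ⟨a, b, hab⟩ := Nat.isCoprime_iff_coprime.2 h1
      have h2 := congrArg (fun x : ℤ => (x : k)) hab
      simp only [Int.cast_add, Int.cast_mul, Int.cast_natCast, h, hpk, mul_zero, add_zero,
        Int.cast_one] at h2
      exact zero_ne_one h2
    refine main φ' (fun h hh q hq => Subtype.ext (hφ h hh q (congrArg Subtype.val hq))) hQnil hQc _ V
      (ρ.comp Q.subtype) σ (fun h q => hc h q) ?_ rfl
    intro v hv
    by_contra hv0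
    let P : Subgroup F := pCore c F
    have hPQ : P ≤ Subgroup.centralizer (Q : Set F) := pCore_commute_pPrimeCore c
    let U : Submodule k V :=
      { carrier := {v | ∀ q : Q, ρ q v = v}
        add_mem' := fun {a b} ha hb q => by rw [map_add, ha q, hb q]
        zero_mem' := fun q => map_zero _
        smul_mem' := fun c x hx q => by rw [map_smul, hx q] }
    have hU : ∀ v, v ∈ U ↔ ∀ q : Q, ρ q v = v := fun v => Iff.rfl
    obtain ⟨ρU, hρU⟩ := sub_rep (ρ.comp P.subtype) U (fun x u hu => by
      rw [hU] at hu ⊢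
      intro q
      have h1 : (q : F) * (x : F) = x * q := (Subgroup.mem_centralizer_iff.1 (hPQ x.2)) q q.2
      change (ρ q * ρ x) u = ρ x u
      rw [← map_mul, h1, map_mul]
      change ρ x (ρ q u) = ρ x u
      rw [hu q])
    obtain ⟨w, hw0, hw⟩ := pfix hpk (pCore_isPGroup c F) ρU ⟨v, fun q => hv q⟩
      (fun h => hv0 (congrArg Subtype.val h))
    apply hw0
    apply Subtype.ext
    apply hF
    let S : Subgroup F :=
      { carrier := {f | ρ f (w : V) = w}
        mul_mem' := fun {a b} ha hb => by
          change ρ (a * b) (w : V) = w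
          rw [map_mul]
          change ρ a (ρ b (w : V)) = w
          rw [show ρ b (w : V) = w from hb, show ρ a (w : V) = w from ha]
        one_mem' := by change ρ 1 (w : V) = w; rw [map_one]; rfl
        inv_mem' := fun {a} ha => by
          change ρ a⁻¹ (w : V) = w
          have h1 : (ρ a⁻¹ * ρ a) (w : V) = w := by rw [← map_mul, inv_mul_cancel, map_one]; rfl
          change ρ a⁻¹ (ρ a (w : V)) = w at h1
          rwa [show ρ a (w : V) = w from ha] at h1 }
    have hS : S = ⊤ := by
      rw [eq_top_iff, ← pCore_sup_pPrimeCore_of_nilpotent hnil c]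
      refine sup_le (fun x hx => ?_) (fun q hq => w.2 ⟨q, hq⟩)
      have h1 := congrArg Subtype.val (hw ⟨x, hx⟩)
      rw [hρU] at h1
      exact h1
    intro f
    have : f ∈ S := by rw [hS]; trivial
    exact this
  · subst h0
    haveI : CharZero k := CharP.charP_to_charZero k
    exact main φ hφ hnil (Nat.cast_ne_zero.2 Nat.card_pos.ne') _ V ρ σ hc hF rfl

end Cfsg.Agent.H10.Fm
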