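import Mathlib
import Cfsg.Agent.H9.SymSq
import Cfsg.Agent.H3.Perm

/-!
# Moments of the number of fixed points and of swapped points for 4-transitive groups
-/

set_option autoImplicit false

namespace Cfsg.Agent.H10.Mom

open Cfsg Cfsg.Agent.H3

universe u v

variable {G : Type u} {X : Type v} [Group G] [Fintype G] [MulAction G X] [Fintype X]

theorem avg {ι : Type*} [Fintype ι] (htr : ∀ e e' : ι ↪ X, ∃ g : G, ∀ i, g • e i = e' i)
    (e0 : ι ↪ X) (σ : Equiv.Perm ι) :
    ∑ g : G, Nat.card {e : ι ↪ X // ∀ i, g • e i = e (σ i)} = Nat.card G := by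
  classical
  set c := Nat.card {g : G // ∀ i, g • e0 i = e0 i} with hc
  have h1 : ∀ e e' : ι ↪ X, Nat.card {g : G // ∀ i, g • e i = e' i} = c := by
    intro e e'
    obtain ⟨h, hh⟩ := htr e0 e
    obtain ⟨k, hk⟩ := htr e0 e'
    apply Nat.card_congr
    refine ⟨fun g => ⟨k⁻¹ * g.1 * h, ?_⟩, fun g => ⟨k * g.1 * h⁻¹, ?_⟩, ?_, ?_⟩
    · intro i
      rw [mul_smul, mul_smul, hh i, g.2 i, ← hk i, inv_smul_smul]
    · intro i
      rw [mul_smul, mul_smul, ← hh i, inv_smul_smul, g.2 i, hk i]
    · intro g; apply Subtype.ext; simp [mul_assoc]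
    · intro g; apply Subtype.ext; simp [mul_assoc]
  have h2 : Nat.card G = Fintype.card (ι ↪ X) * c := by
    have e : G ≃ Σ e' : ι ↪ X, {g : G // ∀ i, g • e0 i = e' i} :=
      ⟨fun g => ⟨⟨fun i => g • e0 i, fun i j hij => e0.injective (smul_left_cancel g hij)⟩, g, fun i => rfl⟩,
        fun x => x.2.1, fun g => rfl, by
          rintro ⟨e', g, hg⟩
          have : (⟨fun i => g • e0 i, fun i j hij => e0.injective (smul_left_cancel g hij)⟩ : ι ↪ X) = e' := by
            ext i; exact hg i
          subst this
          rfl⟩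
    rw [Nat.card_congr e, Nat.card_sigma, Finset.sum_congr rfl (fun e' _ => h1 e0 e'), Finset.sum_const,
      Finset.card_univ, smul_eq_mul]
  have e3 : (Σ g : G, {e : ι ↪ X // ∀ i, g • e i = e (σ i)}) ≃
      Σ e : ι ↪ X, {g : G // ∀ i, g • e i = e (σ i)} :=
    ⟨fun x => ⟨x.2.1, x.1, x.2.2⟩, fun x => ⟨x.2.1, x.1, x.2.2⟩, fun x => rfl, fun x => rfl⟩
  have h4 : ∀ e : ι ↪ X, Nat.card {g : G // ∀ i, g • e i = e (σ i)} = c := fun e =>
    h1 e (σ.toEmbedding.trans e)
  rw [← Nat.card_sigma, Nat.card_congr e3, Nat.card_sigma,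
    Finset.sum_congr rfl (fun e _ => h4 e), Finset.sum_const,
      Finset.card_univ, smul_eq_mul, h2]

/-- number of fixed points -/
noncomputable def fx (X : Type v) [MulAction G X] (g : G) : ℕ := Nat.card (MulAction.fixedBy X g)

/-- the points swapped with another one -/
def Ts (X : Type v) [MulAction G X] (g : G) : Type v := {a : X // g • a ≠ a ∧ g • g • a = a}

instance (g : G) : Finite (Ts X g) := by unfold Ts; infer_instance

noncomputable def tw (X : Type v) [MulAction G X] (g : G) : ℕ := Nat.card (Ts X g)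

theorem card_fix (k : ℕ) (g : G) :
    Nat.card {e : Fin k ↪ X // ∀ i, g • e i = e ((Equiv.refl (Fin k)) i)} = (fx X g).descFactorial k := by
  classical
  haveI := Fintype.ofFinite (MulAction.fixedBy X g)
  have e : {e : Fin k ↪ X // ∀ i, g • e i = e ((Equiv.refl (Fin k)) i)} ≃ (Fin k ↪ MulAction.fixedBy X g) :=
    ⟨fun e => ⟨fun i => ⟨e.1 i, e.2 i⟩, fun i j hij => e.1.injective (congrArg Subtype.val hij)⟩,
      fun e => ⟨⟨fun i => (e i : X), fun i j hij => e.injective (Subtype.ext hij)⟩, fun i => (e i).2⟩,
      fun e => rfl, fun e => rfl⟩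
  rw [Nat.card_congr e, Nat.card_eq_fintype_card, Fintype.card_embedding_eq, fx, Nat.card_eq_fintype_card,
    Fintype.card_fin]

theorem card_swap_fix (k : ℕ) (g : G) :
    Nat.card {e : (Bool ⊕ Fin k) ↪ X // ∀ i, g • e i = e ((Equiv.boolNot.sumCongr (Equiv.refl (Fin k))) i)} =
      tw X g * (fx X g).descFactorial k := by
  classical
  rw [← card_fix, tw, ← Nat.card_prod]
  apply Nat.card_congr
  refine ⟨fun e => (⟨e.1 (Sum.inl true), ?_, ?_⟩, ⟨⟨fun i => e.1 (Sum.inr i), ?_⟩, ?_⟩), fun p =>
    ⟨⟨Sum.elim (fun b => if b then p.1.1 else g • p.1.1) (fun i => p.2.1 i), ?_⟩, ?_⟩, ?_, ?_⟩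
  · rw [e.2 (Sum.inl true)]
    intro h
    have := e.1.injective h
    simp at this
  · rw [e.2 (Sum.inl true)]
    exact e.2 (Sum.inl false)
  · intro i j hij
    exact Sum.inr_injective (e.1.injective hij)
  · intro i; exact e.2 (Sum.inr i)
  · obtain ⟨⟨a, ha1, ha2⟩, ⟨d, hd⟩⟩ := p
    have hfixne : ∀ i, d i ≠ a := by
      intro i h
      apply ha1
      rw [← h]; exact hd i
    have hfixne2 : ∀ i, d i ≠ g • a := by
      intro i h
      apply ha1
      have h1 := hd i
      rw [h, ha2] at h1
      exact (h1.trans h).symm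
    rintro (b | i) (b' | i') hij
    · simp only [Sum.elim_inl] at hij
      cases b <;> cases b'
      · rfl
      · exact absurd (by simpa using hij) ha1
      · exact absurd (by simpa using hij.symm) ha1
      · rfl
    · simp only [Sum.elim_inl, Sum.elim_inr] at hij
      cases b
      · exact absurd hij.symm (by simpa using hfixne2 i')
      · exact absurd hij.symm (by simpa using hfixne i')
    · simp only [Sum.elim_inl, Sum.elim_inr] at hij
      cases b'
      · exact absurd hij (by simpa using hfixne2 i)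
      · exact absurd hij (by simpa using hfixne i)
    · simp only [Sum.elim_inr] at hij
      rw [d.injective hij]
  · obtain ⟨⟨a, ha1, ha2⟩, ⟨d, hd⟩⟩ := p
    rintro (b | i)
    · cases b
      · simpa using ha2
      · simp
    · simpa using hd i
  · intro e
    apply Subtype.ext
    ext i
    rcases i with (b | i)
    · cases b
      · simpa using e.2 (Sum.inl true)
      · simp
    · rfl
  · intro p
    rfl

theorem card_swap_swap (g : G) :
    Nat.card {e : (Bool ⊕ Bool) ↪ X // ∀ i, g • e i = e ((Equiv.boolNot.sumCongr Equiv.boolNot) i)} +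
      2 * tw X g = tw X g * tw X g := by
  classical
  haveI := Fintype.ofFinite (Ts X g)
  have hgT : ∀ a : Ts X g, g • g • a.1 ≠ g • a.1 ∧ g • g • g • a.1 = g • a.1 := fun a =>
    ⟨fun h => a.2.1 (smul_left_cancel g h), by rw [a.2.2]⟩
  let gT : Ts X g → Ts X g := fun a => ⟨g • a.1, hgT a⟩
  have hgne : ∀ a : Ts X g, gT a ≠ a := fun a h => a.2.1 (congrArg Subtype.val h)
  have h1 : Nat.card {e : (Bool ⊕ Bool) ↪ X // ∀ i, g • e i = e ((Equiv.boolNot.sumCongr Equiv.boolNot) i)} =
      Nat.card (Σ a : Ts X g, {c : Ts X g // c ≠ a ∧ c ≠ gT a}) := by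
    apply Nat.card_congr
    refine ⟨fun e => ⟨⟨e.1 (Sum.inl true), ?_, ?_⟩, ⟨e.1 (Sum.inr true), ?_, ?_⟩, ?_, ?_⟩, fun p =>
      ⟨⟨Sum.elim (fun b => if b then p.1.1 else g • p.1.1) (fun b => if b then p.2.1.1 else g • p.2.1.1), ?_⟩, ?_⟩,
      ?_, ?_⟩
    · rw [e.2 (Sum.inl true)]
      intro h
      have := e.1.injective h
      simp at this
    · rw [e.2 (Sum.inl true)]
      exact e.2 (Sum.inl false)
    · rw [e.2 (Sum.inr true)]
      intro h
      have := e.1.injective h
      simp at this
    · rw [e.2 (Sum.inr true)]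
      exact e.2 (Sum.inr false)
    · intro h
      have := e.1.injective (congrArg Subtype.val h)
      simp at this
    · intro h
      have h2 : e.1 (Sum.inr true) = g • e.1 (Sum.inl true) := congrArg Subtype.val h
      rw [e.2 (Sum.inl true)] at h2
      have := e.1.injective h2
      simp at this
    · obtain ⟨⟨a, ha1, ha2⟩, ⟨⟨c, hc1, hc2⟩, hn1, hn2⟩⟩ := p
      have n1 : c ≠ a := fun h => hn1 (Subtype.ext h)
      have n2 : c ≠ g • a := fun h => hn2 (Subtype.ext h)
      have n3 : g • c ≠ a := by
        intro h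
        apply n2
        rw [← h, hc2]
      have n4 : g • c ≠ g • a := fun h => n1 (smul_left_cancel g h)
      rintro (b | i) (b' | i') hij
      · simp only [Sum.elim_inl] at hij
        cases b <;> cases b'
        · rfl
        · exact absurd (by simpa using hij) ha1
        · exact absurd (by simpa using hij.symm) ha1
        · rfl
      · simp only [Sum.elim_inl, Sum.elim_inr] at hij
        cases b <;> cases i'
        · exact absurd hij.symm (by simpa using n4)
        · exact absurd hij.symm (by simpa using n2)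
        · exact absurd hij.symm (by simpa using n3)
        · exact absurd hij.symm (by simpa using n1)
      · simp only [Sum.elim_inl, Sum.elim_inr] at hij
        cases b' <;> cases i
        · exact absurd hij (by simpa using n4)
        · exact absurd hij (by simpa using n2)
        · exact absurd hij (by simpa using n3)
        · exact absurd hij (by simpa using n1)
      · simp only [Sum.elim_inr] at hij
        cases i <;> cases i'
        · rfl
        · exact absurd (by simpa using hij) hc1
        · exact absurd (by simpa using hij.symm) hc1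
        · rfl
    · obtain ⟨⟨a, ha1, ha2⟩, ⟨⟨c, hc1, hc2⟩, hn1, hn2⟩⟩ := p
      rintro (b | b)
      · cases b
        · simpa using ha2
        · simp
      · cases b
        · simpa using hc2
        · simp
    · intro e
      apply Subtype.ext
      ext i
      rcases i with (b | b)
      · cases b
        · simpa using e.2 (Sum.inl true)
        · simp
      · cases b
        · simpa using e.2 (Sum.inr true)
        · simp
    · intro p
      rfl
  have h2 : ∀ a : Ts X g, Nat.card {c : Ts X g // c ≠ a ∧ c ≠ gT a} + 2 = tw X g := by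
    intro a
    have h3 : (Finset.univ.filter (fun c : Ts X g => c ≠ a ∧ c ≠ gT a)) = Finset.univ \ {a, gT a} := by
      ext c; simp
    rw [Nat.card_eq_fintype_card, Fintype.card_subtype, h3, Finset.card_sdiff_of_subset (Finset.subset_univ _),
      Finset.card_pair (hgne a).symm, Finset.card_univ, tw, Nat.card_eq_fintype_card]
    have h4 : ({a, gT a} : Finset (Ts X g)).card ≤ Fintype.card (Ts X g) := Finset.card_le_univ _
    rw [Finset.card_pair (hgne a).symm] at h4
    omega
  rw [h1, Nat.card_sigma]
  have h5 : ∑ a : Ts X g, (Nat.card {c : Ts X g // c ≠ a ∧ c ≠ gT a} + 2) = tw X g * tw X g := by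
    rw [Finset.sum_congr rfl (fun a _ => h2 a), Finset.sum_const, Finset.card_univ, smul_eq_mul, tw,
      Nat.card_eq_fintype_card]
  rw [Finset.sum_add_distrib, Finset.sum_const, Finset.card_univ, smul_eq_mul] at h5
  rw [← h5, tw, Nat.card_eq_fintype_card]
  ring

theorem desc_succ (f k : ℕ) : ((f.descFactorial (k + 1) : ℕ) : ℤ) = ((f : ℤ) - k) * (f.descFactorial k : ℕ) := by
  rw [Nat.descFactorial_succ]
  by_cases h : k ≤ f
  · push_cast [Nat.cast_sub h]; ring
  · have : f.descFactorial k = 0 := Nat.descFactorial_eq_zero_iff_lt.2 (by omega)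
    rw [this]; simp

theorem sq_fix (g : G) : fx X (g * g) = fx X g + tw X g := by
  classical
  have e : MulAction.fixedBy X (g * g) ≃ MulAction.fixedBy X g ⊕ Ts X g := by
    refine ⟨fun a => if h : g • a.1 = a.1 then Sum.inl ⟨a.1, h⟩ else Sum.inr ⟨a.1, h, by
        have := a.2; rw [MulAction.mem_fixedBy, mul_smul] at this; exact this⟩,
      Sum.elim (fun a => ⟨a.1, by
        have := a.2
        rw [MulAction.mem_fixedBy] at this ⊢
        rw [mul_smul, this, this]⟩) (fun a => ⟨a.1, by
        rw [MulAction.mem_fixedBy, mul_smul]; exact a.2.2⟩), ?_, ?_⟩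
    · intro a
      by_cases h : g • a.1 = a.1
      · simp only [dif_pos h]; rfl
      · simp only [dif_neg h]; rfl
    · rintro (a | a)
      · have := a.2
        rw [MulAction.mem_fixedBy] at this
        simp [this]
      · have h : ¬ (g • a.1 = a.1) := a.2.1
        simp only [Sum.elim_inr]
        exact dif_neg h
  rw [fx, Nat.card_congr e, Nat.card_sum]
  rfl

end Cfsg.Agent.H10.Mom
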