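import Cfsg.Agent.H10.Mom4

set_option autoImplicit false

namespace Cfsg.Agent.H10.Mom

open Cfsg Cfsg.Agent.H3

universe u v

variable {G : Type u} {X : Type v} [Group G] [Fintype G] [MulAction G X] [Fintype X]

theorem tr_of (h4 : MulAction.IsMultiplyPretransitive G X 4) (hX : 4 ≤ Nat.card X)
    {ι : Type*} [Fintype ι] (hι : Fintype.card ι ≤ 4) : ∀ e e' : ι ↪ X, ∃ g : G, ∀ i, g • e i = e' i := by
  intro e e'
  haveI := h4
  haveI := MulAction.isMultiplyPretransitive_of_le (G := G) (α := X) hι hX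
  let t := (Fintype.equivFin ι).symm.toEmbedding
  obtain ⟨g, hg⟩ := MulAction.exists_smul_eq G (t.trans e) (t.trans e')
  refine ⟨g, fun i => ?_⟩
  have h1 := DFunLike.congr_fun hg (Fintype.equivFin ι i)
  simpa [t, Function.Embedding.smul_apply] using h1

theorem avg' (h4 : MulAction.IsMultiplyPretransitive G X 4) (hX : 4 ≤ Nat.card X)
    {ι : Type*} [Fintype ι] (hι : Fintype.card ι ≤ 4) (σ : Equiv.Perm ι) :
    ∑ g : G, Nat.card {e : ι ↪ X // ∀ i, g • e i = e (σ i)} = Nat.card G := by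
  obtain ⟨e0⟩ : Nonempty (ι ↪ X) := Function.Embedding.nonempty_of_card_le (by
    rw [← Nat.card_eq_fintype_card (α := X)]; omega)
  exact avg (tr_of h4 hX hι) e0 σ

/-- falling factorial as an integer -/
noncomputable def dd (X : Type v) [MulAction G X] (k : ℕ) (g : G) : ℤ := ((fx X g).descFactorial k : ℕ)

theorem sum_dd (h4 : MulAction.IsMultiplyPretransitive G X 4) (hX : 4 ≤ Nat.card X) {k : ℕ} (hk : k ≤ 4) :
    ∑ g : G, dd X k g = Nat.card G := by
  have h := avg' h4 hX (ι := Fin k) (by simpa using hk) (Equiv.refl (Fin k))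
  simp only [card_fix] at h
  unfold dd
  exact_mod_cast h

theorem sum_tdd (h4 : MulAction.IsMultiplyPretransitive G X 4) (hX : 4 ≤ Nat.card X) {k : ℕ} (hk : k ≤ 2) :
    ∑ g : G, (tw X g : ℤ) * dd X k g = Nat.card G := by
  have h := avg' h4 hX (ι := Bool ⊕ Fin k) (by simp; omega) (Equiv.boolNot.sumCongr (Equiv.refl (Fin k)))
  simp only [card_swap_fix] at h
  unfold dd
  exact_mod_cast h

theorem sum_tt (h4 : MulAction.IsMultiplyPretransitive G X 4) (hX : 4 ≤ Nat.card X) :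
    ∑ g : G, ((tw X g : ℤ) * tw X g - 2 * tw X g) = Nat.card G := by
  have h := avg' h4 hX (ι := Bool ⊕ Bool) (by simp) (Equiv.boolNot.sumCongr Equiv.boolNot)
  have h1 : ∀ g : G, ((tw X g : ℤ) * tw X g - 2 * tw X g) =
      (Nat.card {e : (Bool ⊕ Bool) ↪ X // ∀ i, g • e i = e ((Equiv.boolNot.sumCongr Equiv.boolNot) i)} : ℤ) := by
    intro g
    have := card_swap_swap (X := X) g
    zify at this
    linarith
  rw [Finset.sum_congr rfl (fun g _ => h1 g)]
  exact_mod_cast h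

theorem dd0 (g : G) : dd X 0 g = 1 := by simp [dd]
theorem dd1 (g : G) : dd X 1 g = (fx X g : ℤ) := by simp [dd]
theorem dds (k : ℕ) (g : G) : dd X (k + 1) g = ((fx X g : ℤ) - k) * dd X k g := desc_succ _ _
theorem dd2 (g : G) : dd X 2 g = ((fx X g : ℤ) - 1) * fx X g := by
  rw [show (2 : ℕ) = 1 + 1 from rfl, dds, dd1]; push_cast; ring
theorem dd3 (g : G) : dd X 3 g = ((fx X g : ℤ) - 2) * (((fx X g : ℤ) - 1) * fx X g) := by
  rw [show (3 : ℕ) = 2 + 1 from rfl, dds, dd2]; push_cast; ring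
theorem dd4 (g : G) : dd X 4 g = ((fx X g : ℤ) - 3) * (((fx X g : ℤ) - 2) * (((fx X g : ℤ) - 1) * fx X g)) := by
  rw [show (4 : ℕ) = 3 + 1 from rfl, dds, dd3]; push_cast; ring

noncomputable def n1 (X : Type v) [MulAction G X] (g : G) : ℤ := (fx X g : ℤ) - 1
noncomputable def n2 (X : Type v) [MulAction G X] (g : G) : ℤ := (fx X g : ℤ) ^ 2 - 3 * fx X g + tw X g
noncomputable def n3 (X : Type v) [MulAction G X] (g : G) : ℤ := (fx X g : ℤ) ^ 2 - 3 * fx X g + 2 - tw X g

theorem sum_n1 (h4 : MulAction.IsMultiplyPretransitive G X 4) (hX : 4 ≤ Nat.card X) :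
    ∑ g : G, n1 X g * n1 X g = Nat.card G := by
  have h : ∀ g : G, n1 X g * n1 X g = dd X 2 g - dd X 1 g + dd X 0 g := by
    intro g; rw [dd2, dd1, dd0, n1]; ring
  rw [Finset.sum_congr rfl (fun g _ => h g), Finset.sum_add_distrib, Finset.sum_sub_distrib,
    sum_dd h4 hX (by norm_num), sum_dd h4 hX (by norm_num), sum_dd h4 hX (by norm_num)]
  ring

theorem sum_n2 (h4 : MulAction.IsMultiplyPretransitive G X 4) (hX : 4 ≤ Nat.card X) :
    ∑ g : G, n2 X g * n2 X g = 4 * Nat.card G := by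
  have h : ∀ g : G, n2 X g * n2 X g = dd X 4 g - 2 * dd X 2 g + 4 * dd X 1 g + 2 * (tw X g * dd X 2 g)
      - 4 * (tw X g * dd X 1 g) + ((tw X g : ℤ) * tw X g - 2 * tw X g) + 2 * (tw X g * dd X 0 g) := by
    intro g; rw [dd4, dd2, dd1, dd0, n2]; ring
  rw [Finset.sum_congr rfl (fun g _ => h g)]
  simp only [Finset.sum_add_distrib, Finset.sum_sub_distrib, ← Finset.mul_sum]
  have e1 := sum_tt h4 hX
  simp only [Finset.sum_sub_distrib, ← Finset.mul_sum] at e1
  rw [sum_dd h4 hX (by norm_num), sum_dd h4 hX (by norm_num), sum_dd h4 hX (by norm_num),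
    sum_tdd h4 hX (by norm_num), sum_tdd h4 hX (by norm_num), sum_tdd h4 hX (by norm_num)]
  linarith

theorem sum_n3 (h4 : MulAction.IsMultiplyPretransitive G X 4) (hX : 4 ≤ Nat.card X) :
    ∑ g : G, n3 X g * n3 X g = 4 * Nat.card G := by
  have h : ∀ g : G, n3 X g * n3 X g = dd X 4 g + 2 * dd X 2 g - 4 * dd X 1 g + 4 * dd X 0 g
      - 2 * (tw X g * dd X 2 g) + 4 * (tw X g * dd X 1 g) - 2 * (tw X g * dd X 0 g)
      + ((tw X g : ℤ) * tw X g - 2 * tw X g) := by
    intro g; rw [dd4, dd2, dd1, dd0, n3]; ring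
  rw [Finset.sum_congr rfl (fun g _ => h g)]
  simp only [Finset.sum_add_distrib, Finset.sum_sub_distrib, ← Finset.mul_sum]
  have e1 := sum_tt h4 hX
  simp only [Finset.sum_sub_distrib, ← Finset.mul_sum] at e1
  rw [sum_dd h4 hX (by norm_num), sum_dd h4 hX (by norm_num), sum_dd h4 hX (by norm_num),
    sum_dd h4 hX (by norm_num),
    sum_tdd h4 hX (by norm_num), sum_tdd h4 hX (by norm_num), sum_tdd h4 hX (by norm_num)]
  linarith

end Cfsg.Agent.H10.Mom
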