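import Cfsg.Agent.H10.Mom5

set_option autoImplicit false

namespace Cfsg.Agent.H10.Mom

open Cfsg Cfsg.Agent.H3
open scoped ComplexConjugate

universe u v

variable {G : Type u} {X : Type v} [Group G] [Fintype G] [MulAction G X] [Fintype X]

noncomputable def c1 (G : Type u) (X : Type v) [Group G] [MulAction G X] : G → ℂ := fun g => (n1 X g : ℂ)
noncomputable def c2 (G : Type u) (X : Type v) [Group G] [MulAction G X] : G → ℂ := fun g => (n2 X g : ℂ) / 2
noncomputable def c3 (G : Type u) (X : Type v) [Group G] [MulAction G X] : G → ℂ := fun g => (n3 X g : ℂ) / 2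

theorem gen1 : IsGeneralizedCharacter G (c1 G X) := by
  have h := isGen_sub (isGen_of_char (isChar_permChar (G := G) X)) isGen_one
  have e : c1 G X = permChar G X - (fun _ => 1) := by
    funext g
    simp [c1, n1, permChar, fx]
  rw [e]; exact h

theorem sq_eq (g : G) : permChar G X (g * g) = (fx X g : ℂ) + tw X g := by
  have h := sq_fix (X := X) g
  change ((fx X (g * g) : ℕ) : ℂ) = _
  rw [h]; push_cast; rfl

theorem gen2 : IsGeneralizedCharacter G (c2 G X) := by
  have h := isGen_sub (isGen_of_char (H9.isChar_symSq (isChar_permChar (G := G) X)))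
    (isGen_intCast_smul 2 (isGen_of_char (isChar_permChar (G := G) X)))
  have e : c2 G X = H9.symSq (permChar G X) - (((2 : ℤ) : ℂ) • permChar G X) := by
    funext g
    simp only [Pi.sub_apply, Pi.smul_apply, H9.symSq, sq_eq, smul_eq_mul]
    change (n2 X g : ℂ) / 2 = (((fx X g : ℕ) : ℂ) ^ 2 + _) / 2 - _ * ((fx X g : ℕ) : ℂ)
    rw [n2]; push_cast; ring
  rw [e]; exact h

theorem gen3 : IsGeneralizedCharacter G (c3 G X) := by
  have h := isGen_add (isGen_sub (isGen_of_char (H9.isChar_altSq (isChar_permChar (G := G) X)))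
    (isGen_of_char (isChar_permChar (G := G) X))) isGen_one
  have e : c3 G X = H9.altSq (permChar G X) - permChar G X + (fun _ => 1) := by
    funext g
    simp only [Pi.sub_apply, Pi.add_apply, H9.altSq, sq_eq]
    change (n3 X g : ℂ) / 2 = (((fx X g : ℕ) : ℂ) ^ 2 - _) / 2 - ((fx X g : ℕ) : ℂ) + 1
    rw [n3]; push_cast; ring
  rw [e]; exact h

theorem inner_int (f : G → ℤ) (d : ℕ) (hd : d ≠ 0) (h : ∑ g : G, f g * f g = (d : ℤ) * d * Nat.card G) :
    classInner (fun g => (f g : ℂ) / d) (fun g => (f g : ℂ) / d) = 1 := by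
  unfold classInner
  have e : ∀ g : G, ((f g : ℂ) / d) * conj ((f g : ℂ) / d) = ((f g * f g : ℤ) : ℂ) / (d * d) := by
    intro g
    rw [map_div₀, map_natCast, map_intCast]
    push_cast; ring
  rw [Finset.sum_congr rfl (fun g _ => e g), ← Finset.sum_div, ← Int.cast_sum, h]
  have hN : (Nat.card G : ℂ) ≠ 0 := by exact_mod_cast Nat.card_pos.ne'
  have hd' : (d : ℂ) ≠ 0 := by exact_mod_cast hd
  push_cast
  field_simp

theorem irr1 (h4 : MulAction.IsMultiplyPretransitive G X 4) (hX : 4 ≤ Nat.card X) :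
    IsIrrCharacter G (c1 G X) := by
  have h1 : classInner (c1 G X) (c1 G X) = 1 := by
    have h := inner_int (n1 X) 1 one_ne_zero (by rw [sum_n1 h4 hX]; simp)
    have e : c1 G X = fun g => (n1 X g : ℂ) / ((1 : ℕ) : ℂ) := by funext g; simp [c1]
    rw [e]; exact h
  apply isIrr_of_gen gen1 h1
  have : fx X (1 : G) = Nat.card X := by
    unfold fx; rw [MulAction.fixedBy_one_eq_univ, Nat.card_univ]
  unfold c1 n1
  rw [this]
  have h5 : (4 : ℝ) ≤ Nat.card X := by exact_mod_cast hX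
  have e : (((((Nat.card X : ℕ) : ℤ) - 1 : ℤ) : ℂ)) = (((Nat.card X : ℝ) - 1 : ℝ) : ℂ) := by push_cast; ring
  rw [e, Complex.ofReal_re]
  linarith

theorem fx_one : fx X (1 : G) = Nat.card X := by
  unfold fx; rw [MulAction.fixedBy_one_eq_univ, Nat.card_univ]

theorem tw_one : tw X (1 : G) = 0 := by
  unfold tw
  haveI : IsEmpty (Ts X (1 : G)) := ⟨fun a => a.2.1 (one_smul _ _)⟩
  exact Nat.card_of_isEmpty

theorem irr2 (h4 : MulAction.IsMultiplyPretransitive G X 4) (hX : 4 ≤ Nat.card X) :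
    IsIrrCharacter G (c2 G X) := by
  have h1 : classInner (c2 G X) (c2 G X) = 1 := by
    have h := inner_int (n2 X) 2 two_ne_zero (by rw [sum_n2 h4 hX]; push_cast; ring)
    have e : c2 G X = fun g => (n2 X g : ℂ) / ((2 : ℕ) : ℂ) := by funext g; simp [c2]
    rw [e]; exact h
  apply isIrr_of_gen gen2 h1
  unfold c2 n2
  rw [fx_one, tw_one]
  have h5 : (4 : ℝ) ≤ Nat.card X := by exact_mod_cast hX
  have e : (((((Nat.card X : ℕ) : ℤ) ^ 2 - 3 * ((Nat.card X : ℕ) : ℤ) + ((0 : ℕ) : ℤ) : ℤ) : ℂ) / 2) =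
      (((Nat.card X : ℝ) ^ 2 - 3 * (Nat.card X : ℝ)) / 2 : ℝ) := by push_cast; ring
  rw [e, Complex.ofReal_re]
  nlinarith

theorem irr3 (h4 : MulAction.IsMultiplyPretransitive G X 4) (hX : 4 ≤ Nat.card X) :
    IsIrrCharacter G (c3 G X) := by
  have h1 : classInner (c3 G X) (c3 G X) = 1 := by
    have h := inner_int (n3 X) 2 two_ne_zero (by rw [sum_n3 h4 hX]; push_cast; ring)
    have e : c3 G X = fun g => (n3 X g : ℂ) / ((2 : ℕ) : ℂ) := by funext g; simp [c3]
    rw [e]; exact h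
  apply isIrr_of_gen gen3 h1
  unfold c3 n3
  rw [fx_one, tw_one]
  have h5 : (4 : ℝ) ≤ Nat.card X := by exact_mod_cast hX
  have e : (((((Nat.card X : ℕ) : ℤ) ^ 2 - 3 * ((Nat.card X : ℕ) : ℤ) + 2 - ((0 : ℕ) : ℤ) : ℤ) : ℂ) / 2) =
      (((Nat.card X : ℝ) ^ 2 - 3 * (Nat.card X : ℝ) + 2) / 2 : ℝ) := by push_cast; ring
  rw [e, Complex.ofReal_re]
  nlinarith

end Cfsg.Agent.H10.Mom
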