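import Mathlib
import Cfsg.Agent.H10.Perm19
import Cfsg.Agent.H10.Perm5
import Cfsg.Agent.S0675

set_option autoImplicit false
set_option linter.all false
set_option maxHeartbeats 400000

/-!
# H10.Perm20: transitive groups of prime degree: Sylow normalizers
-/

namespace Cfsg.Agent.H10

open MulAction
open scoped Pointwise

section
variable {α : Type*} [Fintype α] [DecidableEq α]

theorem prime_sylow {p : ℕ} [hp : Fact p.Prime] (hα : Fintype.card α = p) (G : Subgroup (Equiv.Perm α))
    [IsPretransitive G α] (P : Sylow p G) :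
    (∀ a ∈ (P : Subgroup G), ∀ b ∈ (P : Subgroup G), a * b = b * a) ∧
    Subgroup.centralizer ((P : Subgroup G) : Set G) = (P : Subgroup G) ∧
    ∃ d, d ∣ p - 1 ∧ Nat.card (Subgroup.normalizer ((P : Subgroup G) : Set G)) = p * d ∧
      Nat.card (Sylow p G) * (p * d) = Nat.card G ∧ Nat.card (Sylow p G) % p = 1 := by
  have hPc : Nat.card P = p := card_sylow_eq hα G P
  have hPt : IsPretransitive (P : Subgroup G) α := ⟨fun a b => by
    obtain ⟨g, hg, hgab⟩ := sylow_transitive (f := 1) (by rw [Nat.card_eq_fintype_card, hα, pow_one]) P a b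
    exact ⟨⟨g, hg⟩, hgab⟩⟩
  haveI hcyc : IsCyclic (P : Subgroup G) := isCyclic_of_prime_card hPc
  have hPcomm : ∀ a ∈ (P : Subgroup G), ∀ b ∈ (P : Subgroup G), a * b = b * a := by
    intro a ha b hb
    obtain ⟨⟨x, hx⟩, hgen⟩ := hcyc.exists_generator
    obtain ⟨i, hi⟩ := hgen ⟨a, ha⟩
    obtain ⟨j, hj⟩ := hgen ⟨b, hb⟩
    have hi' : x ^ i = a := congrArg Subtype.val hi
    have hj' : x ^ j = b := congrArg Subtype.val hj
    rw [← hi', ← hj', ← zpow_add, ← zpow_add, add_comm]
  have hne : Nonempty α := by rw [← Fintype.card_pos_iff, hα]; exact hp.out.pos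
  obtain ⟨a₀⟩ := hne
  have hC : Subgroup.centralizer ((P : Subgroup G) : Set G) ≤ P := by
    intro c hc
    rw [Subgroup.mem_centralizer_iff] at hc
    obtain ⟨⟨m, hm⟩, hma⟩ := hPt.exists_smul_eq a₀ (c • a₀)
    have hma' : m • a₀ = c • a₀ := hma
    have h1 : m⁻¹ * c = 1 := by
      refine Cfsg.Agent.H21.eq_one_of_centralizes (Ω := α) hPt (x := m⁻¹ * c) (fun n hn => ?_) (ω := a₀) ?_
      · rw [← mul_assoc, hPcomm n hn m⁻¹ (inv_mem hm), mul_assoc, mul_assoc, hc n hn]
      · rw [mul_smul, ← hma', inv_smul_smul]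
    rw [inv_mul_eq_one] at h1
    rw [← h1]; exact hm
  have hCe : (Subgroup.centralizer ((P : Subgroup G) : Set G)) = (P : Subgroup G) := by
    apply le_antisymm hC
    intro x hx
    rw [Subgroup.mem_centralizer_iff]
    intro y hy
    exact hPcomm y hy x hx
  refine ⟨hPcomm, hCe, ?_⟩
  have hNc : ∃ d, d ∣ p - 1 ∧ Nat.card (Subgroup.normalizer ((P : Subgroup G) : Set G)) = p * d := by
    let f := Subgroup.normalizerMonoidHom (P : Subgroup G)
    have hker : Nat.card f.ker = p := by
      rw [Subgroup.normalizerMonoidHom_ker, hCe]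
      rw [Nat.card_congr (Subgroup.subgroupOfEquivOfLe Subgroup.le_normalizer).toEquiv]
      exact hPc
    refine ⟨Nat.card f.range, ?_, ?_⟩
    · have h2 : Nat.card f.range ∣ Nat.card (MulAut (P : Subgroup G)) := Subgroup.card_subgroup_dvd_card _
      have h3 : Nat.card (MulAut (P : Subgroup G)) = p - 1 := by
        rw [IsCyclic.card_mulAut, hPc, Nat.totient_prime hp.out]
      rwa [h3] at h2
    · rw [← Subgroup.card_mul_index f.ker, Subgroup.index_ker, hker]
  obtain ⟨d, hd, hNd⟩ := hNc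
  have hn1 := card_sylow_modEq_one p G
  have hn2 : Nat.card (Sylow p G) = (Subgroup.normalizer ((P : Subgroup G) : Set G)).index := P.card_eq_index_normalizer
  have hn3 := Subgroup.card_mul_index (Subgroup.normalizer ((P : Subgroup G) : Set G))
  refine ⟨d, hd, hNd, ?_, ?_⟩
  · rw [← hNd, hn2, mul_comm, hn3]
  · have h4 : Nat.card (Sylow p G) % p = 1 % p := hn1
    rw [h4, Nat.mod_eq_of_lt hp.out.one_lt]

theorem prime_sylow_ne_one {p : ℕ} [hp : Fact p.Prime] (hα : Fintype.card α = p) (G : Subgroup (Equiv.Perm α))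
    [IsPretransitive G α] (hG : ¬ Group.IsSolvable G) (P : Sylow p G) :
    Nat.card (Subgroup.normalizer ((P : Subgroup G) : Set G)) ≠ p := by
  intro h
  obtain ⟨hcomm, hCe, -⟩ := prime_sylow hα G P
  have hPc : Nat.card P = p := card_sylow_eq hα G P
  have hNP : Subgroup.normalizer ((P : Subgroup G) : Set G) = (P : Subgroup G) := by
    symm
    apply Subgroup.eq_of_le_of_card_ge Subgroup.le_normalizer
    rw [h]; exact hPc.ge
  have hle : Subgroup.normalizer (P : Set G) ≤ Subgroup.centralizer (P : Set G) := by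
    have h1 : Subgroup.normalizer ((P : Subgroup G) : Set G) ≤ Subgroup.centralizer ((P : Subgroup G) : Set G) := by
      rw [hNP, hCe]
    exact h1
  have hcompl := MonoidHom.ker_transferSylow_isComplement' P hle
  have hnd := MonoidHom.not_dvd_card_ker_transferSylow P hle
  obtain ⟨K, hK⟩ : ∃ K, K = (MonoidHom.transferSylow P hle).ker := ⟨_, rfl⟩
  have hKn : K.Normal := by rw [hK]; infer_instance
  rw [← hK] at hcompl hnd
  by_cases hKb : K = ⊥
  · apply hG
    have h1 := hcompl.card_mul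
    rw [hKb, Subgroup.card_bot, one_mul] at h1
    have h2 : Nat.card G = p := by rw [← h1]; exact hPc
    haveI : IsCyclic G := isCyclic_of_prime_card h2
    letI : CommGroup G := IsCyclic.commGroup
    infer_instance
  · haveI : IsPreprimitive G α := IsPreprimitive.of_prime_card (by rw [Nat.card_eq_fintype_card, hα]; exact hp.out)
    have ht := Cfsg.Agent.H22.isPretransitive_of_normal_of_primitive (G := G) (Ω := α) inferInstance K hKn hKb
    apply hnd
    obtain ⟨a₀⟩ : Nonempty α := by rw [← Fintype.card_pos_iff, hα]; exact hp.out.pos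
    have h1 := card_orb_mul (H := K) a₀
    rw [orbit_eq_univ, Nat.card_coe_set_eq, Set.ncard_univ, Nat.card_eq_fintype_card, hα] at h1
    exact ⟨_, h1.symm⟩

theorem conj_mem_of_full_sylow {q k : ℕ} [hq : Fact q.Prime] (G : Subgroup (Equiv.Perm α))
    (h1 : q ^ k ∣ Nat.card G) (h2 : ¬ q ^ (k + 1) ∣ Nat.card (Equiv.Perm α)) {x : Equiv.Perm α}
    (hx : orderOf x = q) : ∃ y : Equiv.Perm α, y * x * y⁻¹ ∈ G := by
  obtain ⟨Q⟩ : Nonempty (Sylow q G) := inferInstance
  obtain ⟨R, hR⟩ := (Q.isPGroup'.map G.subtype).exists_le_sylow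
  obtain ⟨S, hS⟩ := (IsPGroup.of_card (n := 1) (by rw [Nat.card_zpowers, hx, pow_one]) :
    IsPGroup q (Subgroup.zpowers x)).exists_le_sylow
  obtain ⟨y, hy⟩ := MulAction.exists_smul_eq (Equiv.Perm α) S R
  have hRQ : (Q : Subgroup G).map G.subtype = R := by
    apply Subgroup.eq_of_le_of_card_ge hR
    obtain ⟨n, hn⟩ := IsPGroup.iff_card.1 R.isPGroup'
    have h3 : Nat.card R ∣ Nat.card (Equiv.Perm α) := Subgroup.card_subgroup_dvd_card _
    have hn' : Nat.card R = q ^ n := hn
    have h4 : n ≤ k := by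
      by_contra hcon
      push Not at hcon
      exact h2 ((pow_dvd_pow q hcon).trans (hn' ▸ h3))
    have h5 : q ^ k ∣ Nat.card Q := Q.pow_dvd_card_of_pow_dvd_card h1
    rw [← Nat.card_congr (Subgroup.equivMapOfInjective (Q : Subgroup G) G.subtype G.subtype_injective).toEquiv]
    show Nat.card R ≤ Nat.card Q
    rw [hn']
    calc q ^ n ≤ q ^ k := Nat.pow_le_pow_right hq.out.pos h4
      _ ≤ _ := Nat.le_of_dvd Nat.card_pos h5
  refine ⟨y, ?_⟩
  have h3 : y * x * y⁻¹ ∈ (R : Subgroup (Equiv.Perm α)) := by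
    rw [← hy, Sylow.smul_def]
    exact ⟨x, hS (Subgroup.mem_zpowers x), rfl⟩
  rw [← hRQ] at h3
  obtain ⟨z, _, hz⟩ := h3
  rw [← hz]; exact z.2

theorem two_trans_dvd {G : Type*} [Group G] [MulAction G α] (h : IsMultiplyPretransitive G α 2) (h2 : 2 ≤ Fintype.card α) :
    Fintype.card α * (Fintype.card α - 1) ∣ Nat.card G := by
  obtain ⟨a, b, hab⟩ := Fintype.exists_pair_of_one_lt_card (show 1 < Fintype.card α by omega)
  let x : Fin 2 ↪ α := ⟨![a, b], by
      intro i j hij
      fin_cases i <;> fin_cases j <;> first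
        | rfl
        | exact absurd hij hab
        | exact absurd hij.symm hab⟩
  have h1 := card_orb_mul (H := G) x
  rw [orbit_eq_univ, Nat.card_coe_set_eq, Set.ncard_univ, Nat.card_eq_fintype_card, Fintype.card_embedding_eq,
    Fintype.card_fin] at h1
  refine ⟨Nat.card (stabilizer G x), ?_⟩
  rw [← h1]
  congr 1
  simp [Nat.descFactorial_succ, mul_comm]

end

end Cfsg.Agent.H10
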