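import Mathlib
import Cfsg.Agent.H10.Perm19
import Cfsg.Agent.H20.ZPsl7

set_option autoImplicit false
set_option linter.all false
set_option maxHeartbeats 400000

/-!
# H10.Perm23: sharply triply transitive groups are Zassenhaus groups
-/

namespace Cfsg.Agent.H10

open MulAction
open Cfsg.Agent.H20

section
variable {α : Type*} [Fintype α] [DecidableEq α] {G : Subgroup (Equiv.Perm α)}

/-- three points fixed imply identity -/
theorem sharp3_eq_one (hsharp : ∀ x : Fin 3 ↪ α, MulAction.stabilizer G x = ⊥) {g : G} {a b c : α}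
    (hab : a ≠ b) (hac : a ≠ c) (hbc : b ≠ c) (ha : g • a = a) (hb : g • b = b) (hc : g • c = c) : g = 1 := by
  let x : Fin 3 ↪ α := ⟨![a, b, c], inj3 hab hac hbc⟩
  have h1 : g ∈ MulAction.stabilizer G x := by
    rw [mem_stabilizer_iff]
    apply DFunLike.ext
    intro i
    fin_cases i
    · exact ha
    · exact hb
    · exact hc
  rw [hsharp x, Subgroup.mem_bot] at h1
  exact h1

/-- three-transitivity elementwise -/
theorem sharp3_trans (h3 : MulAction.IsMultiplyPretransitive G α 3) {a b c a' b' c' : α}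
    (hab : a ≠ b) (hac : a ≠ c) (hbc : b ≠ c) (hab' : a' ≠ b') (hac' : a' ≠ c') (hbc' : b' ≠ c') :
    ∃ g : G, g • a = a' ∧ g • b = b' ∧ g • c = c' := by
  let x : Fin 3 ↪ α := ⟨![a, b, c], inj3 hab hac hbc⟩
  let y : Fin 3 ↪ α := ⟨![a', b', c'], inj3 hab' hac' hbc'⟩
  obtain ⟨g, hg⟩ := h3.exists_smul_eq x y
  refine ⟨g, ?_, ?_, ?_⟩
  · exact congrArg (fun z : Fin 3 ↪ α => z 0) hg
  · exact congrArg (fun z : Fin 3 ↪ α => z 1) hg
  · exact congrArg (fun z : Fin 3 ↪ α => z 2) hg

theorem sharp3_card_two (h3 : MulAction.IsMultiplyPretransitive G α 3)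
    (hsharp : ∀ x : Fin 3 ↪ α, MulAction.stabilizer G x = ⊥) {a b : α} (hab : a ≠ b) (hc3 : 3 ≤ Nat.card α) :
    Nat.card ↥(stabilizer G a ⊓ stabilizer G b : Subgroup G) + 2 = Nat.card α := by
  classical
  obtain ⟨c, hca, hcb⟩ : ∃ c : α, c ≠ a ∧ c ≠ b := by
    by_contra hcon
    push Not at hcon
    have h1 : (Finset.univ : Finset α) ⊆ {a, b} := by
      intro c _
      by_cases h : c = a
      · simp [h]
      · simp [hcon c h]
    have h2 := Finset.card_le_card h1
    have h3 : ({a, b} : Finset α).card ≤ 2 := Finset.card_le_two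
    rw [Finset.card_univ, ← Nat.card_eq_fintype_card] at h2
    omega
  have h1 : Nat.card ↥(stabilizer G a ⊓ stabilizer G b : Subgroup G) = Nat.card {x : α // x ≠ a ∧ x ≠ b} := by
    refine Nat.card_congr (Equiv.ofBijective (fun h => ⟨(h : G) • c, ?_, ?_⟩) ⟨?_, ?_⟩)
    · intro h1
      have h2 : (h : G) • a = a := h.2.1
      exact hca (MulAction.injective (h : G) (h1.trans h2.symm))
    · intro h1
      have h2 : (h : G) • b = b := h.2.2
      exact hcb (MulAction.injective (h : G) (h1.trans h2.symm))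
    · intro h k hhk
      have h1 : (h : G) • c = (k : G) • c := congrArg Subtype.val hhk
      have h2 : (k : G)⁻¹ * (h : G) = 1 := by
        apply sharp3_eq_one hsharp hab hca.symm hcb.symm
        · rw [mul_smul, show (h : G) • a = a from h.2.1, inv_smul_eq_iff]; exact (show (k : G) • a = a from k.2.1).symm
        · rw [mul_smul, show (h : G) • b = b from h.2.2, inv_smul_eq_iff]; exact (show (k : G) • b = b from k.2.2).symm
        · rw [mul_smul, h1, inv_smul_smul]
      rw [inv_mul_eq_one] at h2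
      exact Subtype.ext h2.symm
    · rintro ⟨x, hxa, hxb⟩
      obtain ⟨g, hga, hgb, hgc⟩ := sharp3_trans h3 hab hca.symm hcb.symm hab hxa.symm hxb.symm
      exact ⟨⟨g, hga, hgb⟩, Subtype.ext hgc⟩
  rw [h1]
  have h2 : Nat.card {x : α // x ≠ a ∧ x ≠ b} = (Finset.univ \ {a, b} : Finset α).card := by
    rw [Nat.card_eq_fintype_card, Fintype.card_subtype]
    congr 1
    ext x
    simp
  rw [h2, Finset.card_sdiff_of_subset (Finset.subset_univ _), Finset.card_pair hab, Finset.card_univ, Nat.card_eq_fintype_card]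
  rw [Nat.card_eq_fintype_card] at hc3
  omega

theorem sharp3_no_reg (h3 : MulAction.IsMultiplyPretransitive G α 3)
    (hsharp : ∀ x : Fin 3 ↪ α, MulAction.stabilizer G x = ⊥) (h5 : 5 ≤ Nat.card α)
    (N : Subgroup G) (hN : N.Normal) (htr : MulAction.IsPretransitive N α) : ∃ a : α, MulAction.stabilizer N a ≠ ⊥ := by
  classical
  by_contra hcon
  push Not at hcon
  have h2 : IsMultiplyPreprimitive G α 2 := isMultiplyPreprimitive_of_isMultiplyPretransitive_succ G α (by
    rw [ENat.card_eq_coe_natCard]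
    have : 3 ≤ Nat.card α := by omega
    exact_mod_cast this)
  rcases two_prim_reg h2 (by omega) htr hcon with h | ⟨hcomm, hsq, m, hm⟩
  · omega
  obtain ⟨x₀, y₀, hxy⟩ : ∃ x y : α, x ≠ y := by
    haveI : Nontrivial α := Finite.one_lt_card_iff_nontrivial.1 (by omega)
    exact exists_pair_ne α
  have hH := sharp3_card_two h3 hsharp hxy (by omega)
  have heven : 2 ∣ Nat.card ↥(stabilizer G x₀ ⊓ stabilizer G y₀ : Subgroup G) := by
    have hm1 : 1 ≤ m := by
      rcases Nat.eq_zero_or_pos m with h | h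
      · rw [h] at hm; omega
      · exact h
    obtain ⟨k, rfl⟩ : ∃ k, m = k + 1 := ⟨m - 1, by omega⟩
    rw [pow_succ] at hm
    omega
  obtain ⟨z, hz⟩ := exists_prime_orderOf_dvd_card' (p := 2) heven
  have hz1 : (z : G) ≠ 1 := by
    intro h
    have : z = 1 := Subtype.ext h
    rw [this, orderOf_one] at hz
    omega
  have hz2 : (z : G) * (z : G) = 1 := by
    have := pow_orderOf_eq_one z
    rw [hz, pow_two] at this
    exact congrArg Subtype.val this
  have hzx : (z : G) • x₀ = x₀ := z.2.1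
  have hzy : (z : G) • y₀ = y₀ := z.2.2
  -- the map n ↦ n * z n z⁻¹
  let C : Set N := {n | (z : G) * n * (z : G)⁻¹ = n}
  have hfix : ∀ x : α, (z : G) • x = x → x = x₀ ∨ x = y₀ := by
    intro x hx
    by_contra hh
    push Not at hh
    exact hz1 (sharp3_eq_one hsharp hxy (Ne.symm hh.1) (Ne.symm hh.2) hzx hzy hx)
  have hC : C.ncard ≤ 2 := by
    have h1 : (fun n : N => (n : G) • x₀) '' C ⊆ ({x₀, y₀} : Set α) := by
      rintro _ ⟨n, hn, rfl⟩
      apply hfix
      have hn' : (z : G) * n * (z : G)⁻¹ = n := hn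
      show (z : G) • (n : G) • x₀ = (n : G) • x₀
      rw [reg_smul hzx, hn']
    have h2 := Set.ncard_le_ncard h1 (Set.toFinite _)
    rw [Set.ncard_image_of_injective _ (fun m n h => Subtype.ext (reg_inj hcon m.2 n.2 h))] at h2
    exact h2.trans (Set.ncard_pair hxy).le
  -- count
  haveI : Finite G := inferInstance
  let φ : N → N := fun n => n * ⟨(z : G) * n * (z : G)⁻¹, hN.conj_mem _ n.2 _⟩
  have hφC : ∀ n, φ n ∈ C := by
    intro n
    show (z : G) * ((n : G) * ((z : G) * n * (z : G)⁻¹)) * (z : G)⁻¹ = (n : G) * ((z : G) * n * (z : G)⁻¹)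
    have hzi : (z : G)⁻¹ = (z : G) := inv_eq_of_mul_eq_one_right hz2
    have h1 : (z : G) * ((n : G) * ((z : G) * n * (z : G)⁻¹)) * (z : G)⁻¹ =
        ((z : G) * n * (z : G)⁻¹) * (((z : G) * (z : G)) * n * ((z : G) * (z : G))⁻¹) := by group
    rw [h1, hz2]
    have h2 := hcomm _ (hN.conj_mem _ n.2 (z : G)) _ n.2
    simp only [one_mul, inv_one, mul_one]
    exact h2
  have hfib : ∀ m n : N, φ m = φ n → m * n⁻¹ ∈ C := by
    intro m n h
    have h1 : (m : G) * ((z : G) * m * (z : G)⁻¹) = (n : G) * ((z : G) * n * (z : G)⁻¹) := congrArg Subtype.val h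
    show (z : G) * ((m : G) * (n : G)⁻¹) * (z : G)⁻¹ = (m : G) * (n : G)⁻¹
    have hinv : ∀ k ∈ N, k⁻¹ = k := fun k hk => inv_eq_of_mul_eq_one_right (by have := hsq k hk; rwa [pow_two] at this)
    have h2 : (z : G) * ((m : G) * (n : G)⁻¹) * (z : G)⁻¹ = ((z : G) * m * (z : G)⁻¹) * ((z : G) * n * (z : G)⁻¹)⁻¹ := by group
    rw [h2]
    have h3 : (z : G) * m * (z : G)⁻¹ = (m : G)⁻¹ * ((n : G) * ((z : G) * n * (z : G)⁻¹)) := by rw [← h1]; group
    rw [h3, hinv _ m.2]
    have h4 : (m : G) * ((n : G) * ((z : G) * n * (z : G)⁻¹)) * ((z : G) * n * (z : G)⁻¹)⁻¹ = (m : G) * (n : G) := by group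
    rw [h4, hinv _ n.2]
  have hcardN : Nat.card N ≤ 4 := by
    classical
    haveI : Fintype N := Fintype.ofFinite _
    have h1 : ∀ c ∈ (Finset.univ.image φ), (Finset.univ.filter (fun n : N => φ n = c)).card ≤ 2 := by
      intro c hc
      obtain ⟨m, -, hm⟩ := Finset.mem_image.1 hc
      have h2 : ((Finset.univ.filter (fun n : N => φ n = c)).image (fun n => n * m⁻¹) : Set N) ⊆ C := by
        intro x hx
        rw [Finset.mem_coe, Finset.mem_image] at hx
        obtain ⟨n, hn, rfl⟩ := hx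
        exact hfib n m ((Finset.mem_filter.1 hn).2.trans hm.symm)
      have h3 := Set.ncard_le_ncard h2 (Set.toFinite _)
      rw [Set.ncard_coe_finset, Finset.card_image_of_injective _ (mul_left_injective _)] at h3
      exact h3.trans hC
    have h4 : (Finset.univ.image φ).card ≤ 2 := by
      have h5 : ((Finset.univ.image φ : Finset N) : Set N) ⊆ C := by
        intro x hx
        rw [Finset.mem_coe, Finset.mem_image] at hx
        obtain ⟨n, -, rfl⟩ := hx
        exact hφC n
      have h6 := Set.ncard_le_ncard h5 (Set.toFinite _)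
      rw [Set.ncard_coe_finset] at h6
      exact h6.trans hC
    have h7 := Finset.card_le_mul_card_image (s := (Finset.univ : Finset N)) (f := φ) 2 h1
    rw [Finset.card_univ, ← Nat.card_eq_fintype_card] at h7
    omega
  have h8 := reg_card (N := N) htr hcon x₀
  omega

theorem sharp3_zass (h3 : MulAction.IsMultiplyPretransitive G α 3)
    (hsharp : ∀ x : Fin 3 ↪ α, MulAction.stabilizer G x = ⊥) (h5 : 5 ≤ Nat.card α) : IsZassenhausGroup G α := by
  classical
  refine ⟨inferInstance, ?_, ?_, ?_, ?_⟩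
  · exact MulAction.isMultiplyPretransitive_of_le (n := 3) (by norm_num) (by omega)
  · intro g a b c hab hbc hac ha hb hc
    exact sharp3_eq_one hsharp hab hac hbc ha hb hc
  · obtain ⟨a, b, hab⟩ : ∃ x y : α, x ≠ y := by
      haveI : Nontrivial α := Finite.one_lt_card_iff_nontrivial.1 (by omega)
      exact exists_pair_ne α
    have h := sharp3_card_two h3 hsharp hab (by omega)
    have h1 : (stabilizer G a ⊓ stabilizer G b : Subgroup G) ≠ ⊥ := by
      intro h2
      rw [h2, Subgroup.card_bot] at h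
      omega
    obtain ⟨⟨g, hg⟩, hg1⟩ := Subgroup.ne_bot_iff_exists_ne_one.1 h1
    exact ⟨g, fun h => hg1 (Subtype.ext h), a, b, hab, hg.1, hg.2⟩
  · exact sharp3_no_reg h3 hsharp h5

end

end Cfsg.Agent.H10
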