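import Mathlib
import Cfsg.Agent.H10.Perm23

set_option autoImplicit false
set_option linter.all false
set_option maxHeartbeats 400000

/-!
# H10.Perm25: PGL = PSL over fields where all elements are squares; structure of sharply 3-transitive groups
-/

namespace Cfsg.Agent.H10

open MulAction
open Cfsg.Agent.H20

theorem pgl_of_psl {F : Type*} [Field F] (hsq : ∀ x : F, x ≠ 0 → ∃ l, l * l = x) :
    Nonempty (Matrix.ProjectiveSpecialLinearGroup (Fin 2) F ≃* Matrix.ProjGenLinGroup (Fin 2) F) := by
  classical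
  let φ : Matrix.SpecialLinearGroup (Fin 2) F →* Matrix.ProjGenLinGroup (Fin 2) F :=
    (QuotientGroup.mk' (Subgroup.center (Matrix.GeneralLinearGroup (Fin 2) F))).comp Matrix.SpecialLinearGroup.toGL
  have hker : φ.ker = Subgroup.center (Matrix.SpecialLinearGroup (Fin 2) F) := by
    ext A
    rw [MonoidHom.mem_ker]
    show (QuotientGroup.mk' (Subgroup.center (Matrix.GeneralLinearGroup (Fin 2) F))) (Matrix.SpecialLinearGroup.toGL A) = 1 ↔ _
    rw [QuotientGroup.mk'_apply, QuotientGroup.eq_one_iff]
    constructor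
    · intro h
      rw [Subgroup.mem_center_iff] at h ⊢
      intro B
      have h1 := h (Matrix.SpecialLinearGroup.toGL B)
      rw [← map_mul, ← map_mul] at h1
      exact Matrix.SpecialLinearGroup.toGL_injective h1
    · intro h
      rw [Matrix.SpecialLinearGroup.mem_center_iff] at h
      obtain ⟨r, hr, hrA⟩ := h
      rw [Subgroup.mem_center_iff]
      intro B
      apply Units.ext
      show (B : Matrix (Fin 2) (Fin 2) F) * (A : Matrix (Fin 2) (Fin 2) F) = (A : Matrix (Fin 2) (Fin 2) F) * (B : Matrix (Fin 2) (Fin 2) F)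
      rw [← hrA]
      exact (Matrix.scalar_commute r (fun _ => mul_comm _ _) _).symm
  have hsurj : Function.Surjective φ := by
    intro x
    obtain ⟨g, rfl⟩ := QuotientGroup.mk'_surjective _ x
    obtain ⟨l, hl⟩ := hsq (Matrix.det (g : Matrix (Fin 2) (Fin 2) F)) (by
      have := (Matrix.isUnit_iff_isUnit_det _).1 g.isUnit
      exact this.ne_zero)
    have hdet : Matrix.det (g : Matrix (Fin 2) (Fin 2) F) ≠ 0 := by
      have := (Matrix.isUnit_iff_isUnit_det _).1 g.isUnit
      exact this.ne_zero
    have hl0 : l ≠ 0 := by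
      rintro rfl
      rw [mul_zero] at hl
      exact hdet hl.symm
    refine ⟨⟨l⁻¹ • (g : Matrix (Fin 2) (Fin 2) F), by
      rw [Matrix.det_smul, Fintype.card_fin, ← hl]; field_simp⟩, ?_⟩
    show (QuotientGroup.mk' (Subgroup.center (Matrix.GeneralLinearGroup (Fin 2) F))) _ = (QuotientGroup.mk' _) g
    rw [QuotientGroup.mk'_apply, QuotientGroup.mk'_apply, QuotientGroup.eq]
    rw [Subgroup.mem_center_iff]
    intro B
    set A : Matrix.SpecialLinearGroup (Fin 2) F := ⟨l⁻¹ • (g : Matrix (Fin 2) (Fin 2) F), by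
      rw [Matrix.det_smul, Fintype.card_fin, ← hl]; field_simp⟩ with hA
    let S : Matrix.GeneralLinearGroup (Fin 2) F := Units.map (Matrix.scalar (Fin 2)).toMonoidHom (Units.mk0 l hl0)
    have hS : (S : Matrix (Fin 2) (Fin 2) F) = Matrix.scalar (Fin 2) l := rfl
    have h1 : (Matrix.SpecialLinearGroup.toGL A : Matrix.GeneralLinearGroup (Fin 2) F) * S = g := by
      apply Units.ext
      show (A : Matrix (Fin 2) (Fin 2) F) * (S : Matrix (Fin 2) (Fin 2) F) = g
      rw [hS, hA]
      show (l⁻¹ • (g : Matrix (Fin 2) (Fin 2) F)) * Matrix.scalar (Fin 2) l = g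
      rw [Matrix.scalar_apply, ← Matrix.smul_one_eq_diagonal, Matrix.mul_smul, Matrix.mul_one, smul_smul, mul_inv_cancel₀ hl0, one_smul]
    have h2 : (Matrix.SpecialLinearGroup.toGL A : Matrix.GeneralLinearGroup (Fin 2) F)⁻¹ * g = S := by
      rw [← h1, inv_mul_cancel_left]
    rw [h2]
    apply Units.ext
    show (B : Matrix (Fin 2) (Fin 2) F) * (S : Matrix (Fin 2) (Fin 2) F) = (S : Matrix (Fin 2) (Fin 2) F) * (B : Matrix (Fin 2) (Fin 2) F)
    rw [hS]
    exact (Matrix.scalar_commute l (fun _ => mul_comm _ _) _).symm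
  exact ⟨(QuotientGroup.quotientMulEquivOfEq hker.symm).trans (QuotientGroup.quotientKerEquivOfSurjective φ hsurj)⟩

section
universe u v
variable {α : Type u} [Fintype α] [DecidableEq α] {G : Subgroup (Equiv.Perm α)}

theorem sharp3_K_comm (h3 : MulAction.IsMultiplyPretransitive G α 3)
    (hsharp : ∀ x : Fin 3 ↪ α, MulAction.stabilizer G x = ⊥) (h5 : 5 ≤ Nat.card α) (hZ : IsZassenhausGroup G α)
    (a : α) : ∀ x ∈ Zass.K hZ a, ∀ y ∈ Zass.K hZ a, x * y = y * x := by
  obtain ⟨b, hb⟩ : ∃ b, b ≠ a := by
    haveI : Nontrivial α := Finite.one_lt_card_iff_nontrivial.1 (by omega)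
    exact exists_ne a
  have h := sharp3_card_two h3 hsharp (Ne.symm hb) (by omega)
  exact (Zass.K_elementary hZ (Ne.symm hb) (by omega)).1

theorem K_comm_sub {G : Type*} [Group G] {Ω : Type*} [MulAction G Ω] [Finite Ω] (hZ : IsZassenhausGroup G Ω)
    (N : Subgroup G) (hZN : IsZassenhausGroup N Ω) (a : Ω) (hcomm : ∀ x ∈ Zass.K hZ a, ∀ y ∈ Zass.K hZ a, x * y = y * x) :
    ∀ x ∈ Zass.K hZN a, ∀ y ∈ Zass.K hZN a, x * y = y * x := by
  intro x hx y hy
  apply Subtype.ext
  apply hcomm
  · rw [Zass.mem_K] at hx ⊢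
    rcases hx with hx | hx
    · left; rw [hx]; rfl
    · exact Or.inr hx
  · rw [Zass.mem_K] at hy ⊢
    rcases hy with hy | hy
    · left; rw [hy]; rfl
    · exact Or.inr hy

/-- normal subgroups of a sharply 3-transitive group: everything, or `PSL(2,F)` of index 2 with `char F` odd -/
theorem sharp3_normal (h3 : MulAction.IsMultiplyPretransitive G α 3)
    (hsharp : ∀ x : Fin 3 ↪ α, MulAction.stabilizer G x = ⊥) (h5 : 5 ≤ Nat.card α) (N : Subgroup G) [hN : N.Normal]
    (hN0 : N ≠ ⊥) : N = ⊤ ∨ ∃ (F : Type) (_ : Field F) (_ : Fintype F), ringChar F ≠ 2 ∧ Fintype.card F + 1 = Nat.card α ∧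
      Nonempty (N ≃* Matrix.ProjectiveSpecialLinearGroup (Fin 2) F) := by
  have hZ := sharp3_zass h3 hsharp h5
  have hZN := Zass.normal_isZass hZ N hN0
  obtain ⟨a, b, hab⟩ := Zass.exists_ne_pts hZ
  have hcomm := sharp3_K_comm h3 hsharp h5 hZ a
  have hcommN := K_comm_sub hZ N hZN a hcomm
  rcases Zass.abelian_main hZN hcommN with ⟨h3N, hsN⟩ | h
  · left
    rw [← Subgroup.card_eq_iff_eq_top]
    rw [Zass.card_G hZN hab, Zass.card_G hZ hab]
    have e1 := Zass.card_K hZ a
    have e2 := Zass.card_K hZN a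
    have e3 := sharp3_card_two h3 hsharp hab (by omega)
    have e4 : Nat.card ↥(stabilizer N a ⊓ stabilizer N b) + 2 = Nat.card α := by
      -- transfer: N as subgroup acts sharply 3-transitively
      have hdvd := Zass.card_two_pt_normal hZ N (a := a) (b := b)
      have hle := Nat.le_of_dvd Nat.card_pos hdvd
      -- every element of G_{ab} comes from N
      obtain ⟨c, hca, hcb⟩ : ∃ c : α, c ≠ a ∧ c ≠ b := by
        by_contra hcon
        push Not at hcon
        have h1 : (Finset.univ : Finset α) ⊆ {a, b} := by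
          intro c _
          by_cases h : c = a
          · simp [h]
          · simp [hcon c h]
        have h2 := Finset.card_le_card h1
        have h3 : ({a, b} : Finset α).card ≤ 2 := Finset.card_le_two
        rw [Finset.card_univ, ← Nat.card_eq_fintype_card] at h2
        omega
      have hge : Nat.card ↥(stabilizer G a ⊓ stabilizer G b : Subgroup G) ≤ Nat.card ↥(stabilizer N a ⊓ stabilizer N b : Subgroup N) := by
        have hex : ∀ h : ↥(stabilizer G a ⊓ stabilizer G b : Subgroup G), ∃ n : ↥(stabilizer N a ⊓ stabilizer N b : Subgroup N), ((n : N) : G) = h := by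
          intro h
          have hha : (h : G) • a = a := h.2.1
          have hhb : (h : G) • b = b := h.2.2
          have n1 : (h : G) • c ≠ a := fun hh => hca (MulAction.injective (h : G) (hh.trans hha.symm))
          have n2 : (h : G) • c ≠ b := fun hh => hcb (MulAction.injective (h : G) (hh.trans hhb.symm))
          let x : Fin 3 ↪ α := ⟨![a, b, c], inj3 hab hca.symm hcb.symm⟩
          let y : Fin 3 ↪ α := ⟨![a, b, (h : G) • c], inj3 hab n1.symm n2.symm⟩
          obtain ⟨n, hn⟩ := h3N.exists_smul_eq x y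
          have hna : n • a = a := congrArg (fun z : Fin 3 ↪ α => z 0) hn
          have hnb : n • b = b := congrArg (fun z : Fin 3 ↪ α => z 1) hn
          have hnc : n • c = (h : G) • c := congrArg (fun z : Fin 3 ↪ α => z 2) hn
          refine ⟨⟨n, hna, hnb⟩, ?_⟩
          have h1 : (h : G)⁻¹ * (n : G) = 1 := by
            apply sharp3_eq_one hsharp hab hca.symm hcb.symm
            · rw [mul_smul, show (n : G) • a = a from hna, inv_smul_eq_iff]; exact hha.symm
            · rw [mul_smul, show (n : G) • b = b from hnb, inv_smul_eq_iff]; exact hhb.symm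
            · rw [mul_smul, show (n : G) • c = (h : G) • c from hnc, inv_smul_smul]
          rw [inv_mul_eq_one] at h1
          exact h1.symm
        choose f hf using hex
        refine Nat.card_le_card_of_injective f ?_
        intro h k hhk
        apply Subtype.ext
        rw [← hf h, ← hf k, hhk]
      omega
    have e5 : Nat.card (Zass.K hZN a) = Nat.card (Zass.K hZ a) := by omega
    have e6 : Nat.card ↥(stabilizer N a ⊓ stabilizer N b : Subgroup N) = Nat.card ↥(stabilizer G a ⊓ stabilizer G b : Subgroup G) := by omega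
    rw [e5, e6]
  · exact Or.inr h

end

end Cfsg.Agent.H10
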