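import Mathlib
import Cfsg.Agent.H10.Perm25

set_option autoImplicit false
set_option linter.all false
set_option maxHeartbeats 400000

/-!
# H10.Perm26: the case of degree 3
-/

namespace Cfsg.Agent.H10

open MulAction
open Cfsg.Agent.H20 Cfsg.Agent.H4 OnePoint

theorem zmod_two_cases (x : ZMod 2) : x = 0 ∨ x = 1 := by
  revert x; decide

theorem slPerm_two_top : (slPerm (ZMod 2)).range = ⊤ := by
  classical
  have h0 : ∀ σ : Equiv.Perm (OnePoint (ZMod 2)), σ ∞ = ∞ → σ ∈ (slPerm (ZMod 2)).range := by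
    intro σ hσ
    have hne : ∀ k : ZMod 2, σ (k : OnePoint (ZMod 2)) ≠ ∞ := by
      intro k h
      rw [← hσ] at h
      exact OnePoint.coe_ne_infty k (σ.injective h)
    obtain ⟨b, hb⟩ : ∃ b : ZMod 2, σ ((0 : ZMod 2) : OnePoint (ZMod 2)) = (b : OnePoint (ZMod 2)) := by
      obtain ⟨b, hb⟩ := OnePoint.ne_infty_iff_exists.1 (hne 0)
      exact ⟨b, hb.symm⟩
    obtain ⟨c, hc⟩ : ∃ c : ZMod 2, σ ((1 : ZMod 2) : OnePoint (ZMod 2)) = (c : OnePoint (ZMod 2)) := by
      obtain ⟨b, hb⟩ := OnePoint.ne_infty_iff_exists.1 (hne 1)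
      exact ⟨b, hb.symm⟩
    have hbc : b ≠ c := by
      rintro rfl
      rw [← hc] at hb
      have := OnePoint.coe_injective (σ.injective hb)
      exact zero_ne_one this
    apply slPerm_trans_mem b σ hσ
    intro k
    rcases zmod_two_cases k with rfl | rfl
    · rw [hb, add_zero]
    · rw [hc]
      congr 1
      have h2 : ∀ b c : ZMod 2, b ≠ c → c = b + 1 := by decide
      exact h2 b c hbc
  have ht : ∃ τ ∈ (slPerm (ZMod 2)).range, τ ((0 : ZMod 2) : OnePoint (ZMod 2)) = ∞ ∧ τ ∞ = ((0 : ZMod 2) : OnePoint (ZMod 2)) := by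
    refine ⟨Equiv.swap ∞ ((0 : ZMod 2) : OnePoint (ZMod 2)), ?_, Equiv.swap_apply_right _ _, Equiv.swap_apply_left _ _⟩
    apply slPerm_inv_mem _ (Equiv.swap_apply_left _ _) (Equiv.swap_apply_right _ _)
    intro k hk
    rcases zmod_two_cases k with rfl | rfl
    · exact absurd rfl hk
    · rw [Equiv.swap_apply_of_ne_of_ne (OnePoint.coe_ne_infty _) (fun h => one_ne_zero (OnePoint.coe_injective h))]
      congr 1
      rw [inv_one]; decide
  have hu : ∃ τ ∈ (slPerm (ZMod 2)).range, τ ((1 : ZMod 2) : OnePoint (ZMod 2)) = ((0 : ZMod 2) : OnePoint (ZMod 2)) := by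
    refine ⟨Equiv.swap ((0 : ZMod 2) : OnePoint (ZMod 2)) ((1 : ZMod 2) : OnePoint (ZMod 2)), ?_, Equiv.swap_apply_right _ _⟩
    apply h0
    exact Equiv.swap_apply_of_ne_of_ne (OnePoint.coe_ne_infty _).symm (OnePoint.coe_ne_infty _).symm
  rw [eq_top_iff]
  intro σ _
  obtain ⟨τ, hτ, hτ0, hτi⟩ := ht
  obtain ⟨υ, hυ, hυ1⟩ := hu
  have h1 : ∀ σ : Equiv.Perm (OnePoint (ZMod 2)), σ ∞ = ((0 : ZMod 2) : OnePoint (ZMod 2)) → σ ∈ (slPerm (ZMod 2)).range := by
    intro σ hσ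
    have h2 := h0 (τ * σ) (by rw [Equiv.Perm.mul_apply, hσ, hτ0])
    have h3 : σ = τ⁻¹ * (τ * σ) := by group
    rw [h3]; exact mul_mem (inv_mem hτ) h2
  by_cases hσ : σ ∞ = ∞
  · exact h0 σ hσ
  · obtain ⟨b, hb⟩ := OnePoint.ne_infty_iff_exists.1 hσ
    rcases zmod_two_cases b with rfl | rfl
    · exact h1 σ hb.symm
    · have h2 := h1 (υ * σ) (by rw [Equiv.Perm.mul_apply, ← hb, hυ1])
      have h3 : σ = υ⁻¹ * (υ * σ) := by group
      rw [h3]; exact mul_mem (inv_mem hυ) h2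

theorem perm_three_iso {α : Type*} [Fintype α] (hα : Fintype.card α = 3) :
    Nonempty (Equiv.Perm α ≃* Matrix.ProjGenLinGroup (Fin 2) (ZMod 2)) := by
  classical
  obtain ⟨e⟩ := pgl_of_psl (F := ZMod 2) (by
    intro x hx
    rcases zmod_two_cases x with rfl | rfl
    · exact absurd rfl hx
    · exact ⟨1, by decide⟩)
  have hcard : Fintype.card α = Fintype.card (OnePoint (ZMod 2)) := by
    rw [hα]
    show 3 = Fintype.card (Option (ZMod 2))
    rw [Fintype.card_option, ZMod.card]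
  have f := Fintype.equivOfCardEq hcard
  have g : Equiv.Perm α ≃* Equiv.Perm (OnePoint (ZMod 2)) := f.permCongrHom
  exact ⟨(((g.trans Subgroup.topEquiv.symm).trans (MulEquiv.subgroupCongr slPerm_two_top.symm)).trans (pslEquivRange (ZMod 2)).symm).trans e⟩

end Cfsg.Agent.H10
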