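import Mathlib
import Cfsg.Agent.H10.Perm25

set_option autoImplicit false
set_option linter.all false
set_option maxHeartbeats 400000

/-!
# H10.Perm27: sharply 3-transitive groups of even degree
-/

namespace Cfsg.Agent.H10

open MulAction
open Cfsg.Agent.H20

section
universe u v
variable {α : Type u} [Fintype α] [DecidableEq α] {G : Subgroup (Equiv.Perm α)}

/-- the two-point stabiliser inside a normal subgroup, as a subgroup of `G` -/
theorem card_inf_two {G : Type*} [Group G] {Ω : Type*} [MulAction G Ω] (N : Subgroup G) (a b : Ω) :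
    Nat.card ↥(stabilizer N a ⊓ stabilizer N b : Subgroup N) = Nat.card ↥(N ⊓ (stabilizer G a ⊓ stabilizer G b) : Subgroup G) :=
  Nat.card_congr ⟨fun x => ⟨x.1.1, x.1.2, x.2.1, x.2.2⟩, fun x => ⟨⟨x.1, x.2.1⟩, x.2.2.1, x.2.2.2⟩, fun x => rfl, fun x => rfl⟩

theorem sharp3_even' (h3 : MulAction.IsMultiplyPretransitive G α 3)
    (hsharp : ∀ x : Fin 3 ↪ α, MulAction.stabilizer G x = ⊥) (h5 : 5 ≤ Nat.card α) (heven : Even (Nat.card α)) :
    ∃ N : Subgroup G, N.Normal ∧ N.index = 2 ∧ IsZassenhausGroup N α ∧ ∀ a b : α, a ≠ b →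
      2 * Nat.card ↥(stabilizer N a ⊓ stabilizer N b : Subgroup N) + 2 = Nat.card α ∧ IsCyclic ↥(stabilizer N a ⊓ stabilizer N b : Subgroup N) ∧
      ∀ s : N, s • a = b → s • b = a → ∀ h ∈ (stabilizer N a ⊓ stabilizer N b : Subgroup N), s * h * s⁻¹ = h⁻¹ := by
  classical
  have hZ := sharp3_zass h3 hsharp h5
  obtain ⟨a, b, hab⟩ := Zass.exists_ne_pts hZ
  haveI : Nontrivial G := by
    obtain ⟨g, hg, _⟩ := hZ.2.2.2.1
    exact ⟨g, 1, hg⟩
  have hcard : ∀ a b : α, a ≠ b → Nat.card α = Nat.card ↥(stabilizer G a ⊓ stabilizer G b : Subgroup G) + 2 := fun a b hab =>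
    (sharp3_card_two h3 hsharp hab (by omega)).symm
  have hHeven : Even (Nat.card ↥(stabilizer G a ⊓ stabilizer G b : Subgroup G)) := by
    have := hcard a b hab
    rw [this] at heven
    exact (Nat.even_add.1 heven).2 even_two
  have hns : ¬ IsSimpleGroup G := fun hs => Zass.not_simple_of_sharp hZ hab (hcard a b hab) hHeven
  obtain ⟨N, hN1, hN2, hN3⟩ : ∃ N : Subgroup G, N.Normal ∧ N ≠ ⊥ ∧ N ≠ ⊤ := by
    by_contra hc
    push Not at hc
    exact hns ⟨fun N hN => by
      by_cases h : N = ⊥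
      · exact Or.inl h
      · exact Or.inr (hc N hN h)⟩
  haveI := hN1
  have hZN := Zass.normal_isZass hZ N hN2
  have hcardG := Zass.card_G hZ hab
  have hcardN := Zass.card_G hZN hab
  have e1 := Zass.card_K hZ a
  have e2 := Zass.card_K hZN a
  have hlt : Nat.card N < Nat.card G :=
    lt_of_le_of_ne (Subgroup.card_le_card_group N) fun hc => hN3 (Subgroup.card_eq_iff_eq_top N |>.mp hc)
  have hdvd := Zass.card_two_pt_normal hZ N (a := a) (b := b)
  have hle : Nat.card α - 2 ≤ 2 * Nat.card ↥(stabilizer N a ⊓ stabilizer N b : Subgroup N) := by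
    rcases Nat.even_or_odd (Nat.card ↥(stabilizer N a ⊓ stabilizer N b : Subgroup N)) with h | h
    · exact Zass.card_le_of_even hZN hab h
    · exact Zass.card_le_of_abelian_odd _ hZN le_rfl hab h (K_comm_sub hZ N hZN a (sharp3_K_comm h3 hsharp h5 hZ a))
  have hKeq : Nat.card (Zass.K hZN a) = Nat.card (Zass.K hZ a) := by omega
  have he := hcard a b hab
  -- e = 2 e_N
  have hhalf : Nat.card ↥(stabilizer G a ⊓ stabilizer G b : Subgroup G) = 2 * Nat.card ↥(stabilizer N a ⊓ stabilizer N b : Subgroup N) := by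
    obtain ⟨k, hk⟩ := hdvd
    have hpos : 0 < Nat.card ↥(stabilizer N a ⊓ stabilizer N b : Subgroup N) := Nat.card_pos
    have hk2 : k ≤ 2 := by
      by_contra hc
      have : Nat.card ↥(stabilizer N a ⊓ stabilizer N b : Subgroup N) * 3 ≤ Nat.card ↥(stabilizer N a ⊓ stabilizer N b : Subgroup N) * k :=
        Nat.mul_le_mul_left _ (by omega)
      omega
    interval_cases k
    · omega
    · exfalso
      rw [mul_one] at hk
      rw [hcardN, hcardG, hKeq, hk] at hlt
      exact lt_irrefl _ hlt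
    · omega
  have hindex : N.index = 2 := by
    have h1 := N.card_mul_index
    rw [hcardG, hhalf, ← hKeq, hcardN] at h1
    have hposN : 0 < Nat.card α * (Nat.card (Zass.K hZN a) * Nat.card ↥(stabilizer N a ⊓ stabilizer N b : Subgroup N)) := by
      rw [← hcardN]; exact Nat.card_pos
    have h2 : Nat.card α * (Nat.card (Zass.K hZN a) * Nat.card ↥(stabilizer N a ⊓ stabilizer N b : Subgroup N)) * N.index =
        Nat.card α * (Nat.card (Zass.K hZN a) * Nat.card ↥(stabilizer N a ⊓ stabilizer N b : Subgroup N)) * 2 := by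
      rw [h1]; ring
    exact Nat.eq_of_mul_eq_mul_left hposN h2
  refine ⟨N, hN1, hindex, hZN, ?_⟩
  intro c d hcd
  have hcardN' : Nat.card α = 2 * Nat.card ↥(stabilizer N c ⊓ stabilizer N d : Subgroup N) + 2 := by
    rw [Zass.card_two_pt_eq hZN hcd hab]
    omega
  refine ⟨hcardN'.symm, ?_⟩
  rcases Nat.even_or_odd (Nat.card ↥(stabilizer N c ⊓ stabilizer N d : Subgroup N)) with h | h
  · exact ⟨(Zass.even_struct hZN hcd h hcardN').2, fun s h1 h2 => ((Zass.even_struct hZN hcd h hcardN').1 s h1 h2).2⟩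
  · haveI : IsSimpleGroup N := Zass.simple_of_abelian_odd hZN hcd h (K_comm_sub hZ N hZN c (sharp3_K_comm h3 hsharp h5 hZ c)) hcardN'
    exact Zass.two_pt_cyclic hZN hcd h (Zass.simple_no_complement hZN (a := c) (b := d) h)

theorem sharp3_even (h3 : MulAction.IsMultiplyPretransitive G α 3)
    (hsharp : ∀ x : Fin 3 ↪ α, MulAction.stabilizer G x = ⊥) (h5 : 5 ≤ Nat.card α) (heven : Even (Nat.card α)) :
    ∃ N : Subgroup G, N.Normal ∧ N.index = 2 ∧ IsZassenhausGroup N α ∧ ∀ a b : α, a ≠ b →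
      2 * Nat.card ↥(stabilizer N a ⊓ stabilizer N b : Subgroup N) + 2 = Nat.card α ∧ IsCyclic ↥(stabilizer N a ⊓ stabilizer N b : Subgroup N) := by
  obtain ⟨N, h1, h2, h3, h4⟩ := sharp3_even' h3 hsharp h5 heven
  exact ⟨N, h1, h2, h3, fun a b hab => ⟨(h4 a b hab).1, (h4 a b hab).2.1⟩⟩

end

end Cfsg.Agent.H10
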