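import Mathlib
import Cfsg.Agent.H10.Perm27

set_option autoImplicit false
set_option linter.all false
set_option maxHeartbeats 400000

/-!
# H10.Perm28: recognition of PGL(2,F) on the projective line
-/

namespace Cfsg.Agent.H10

open MulAction
open Cfsg.Agent.H20 Cfsg.Agent.H4 OnePoint

section proj
variable {F : Type*} [Field F] [DecidableEq F]

/-- the action on the projective line -/
noncomputable def glPerm (F : Type*) [Field F] [DecidableEq F] :
    Matrix.GeneralLinearGroup (Fin 2) F →* Equiv.Perm (OnePoint F) :=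
  MulAction.toPermHom (Matrix.GeneralLinearGroup (Fin 2) F) (OnePoint F)

theorem glPerm_infty (A : Matrix.GeneralLinearGroup (Fin 2) F) :
    glPerm F A (∞ : OnePoint F) = if A 1 0 = 0 then ∞ else ((A 0 0 / A 1 0 : F) : OnePoint F) :=
  smul_infty_eq_ite A

theorem glPerm_some (A : Matrix.GeneralLinearGroup (Fin 2) F) (k : F) :
    glPerm F A (k : OnePoint F) = if A 1 0 * k + A 1 1 = 0 then ∞ else
      (((A 0 0 * k + A 0 1) / (A 1 0 * k + A 1 1) : F) : OnePoint F) :=
  smul_some_eq_ite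

theorem gl_det_ne (A : Matrix.GeneralLinearGroup (Fin 2) F) : A 0 0 * A 1 1 - A 0 1 * A 1 0 ≠ 0 := by
  have h := (Matrix.isUnit_iff_isUnit_det _).1 A.isUnit
  rw [Matrix.det_fin_two] at h
  exact h.ne_zero

theorem gl_scalar_of_fix (A : Matrix.GeneralLinearGroup (Fin 2) F) (h1 : glPerm F A ∞ = ∞)
    (h2 : glPerm F A ((0 : F) : OnePoint F) = ((0 : F) : OnePoint F))
    (h3 : glPerm F A ((1 : F) : OnePoint F) = ((1 : F) : OnePoint F)) :
    A 1 0 = 0 ∧ A 0 1 = 0 ∧ A 0 0 = A 1 1 := by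
  have hdet := gl_det_ne A
  have hc : A 1 0 = 0 := by
    by_contra hc
    rw [glPerm_infty, if_neg hc] at h1
    exact OnePoint.coe_ne_infty _ h1
  rw [hc, mul_zero, sub_zero] at hdet
  have hd : A 1 1 ≠ 0 := right_ne_zero_of_mul hdet
  have hb : A 0 1 = 0 := by
    rw [glPerm_some, hc, mul_zero, mul_zero, zero_add, zero_add, if_neg hd] at h2
    have := OnePoint.coe_injective h2
    rw [div_eq_zero_iff] at this
    exact this.resolve_right hd
  refine ⟨hc, hb, ?_⟩
  rw [glPerm_some, hc, hb, zero_mul, zero_add, add_zero, mul_one, if_neg hd] at h3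
  have := OnePoint.coe_injective h3
  rwa [div_eq_one_iff_eq hd] at this

theorem glPerm_of_scalar (A : Matrix.GeneralLinearGroup (Fin 2) F) (h : A 1 0 = 0 ∧ A 0 1 = 0 ∧ A 0 0 = A 1 1) :
    glPerm F A = 1 := by
  obtain ⟨hc, hb, hab⟩ := h
  have hdet := gl_det_ne A
  rw [hc, mul_zero, sub_zero] at hdet
  have hd : A 1 1 ≠ 0 := right_ne_zero_of_mul hdet
  ext x
  cases x with
  | infty => rw [glPerm_infty, if_pos hc]; rfl
  | coe k =>
    rw [glPerm_some, hc, hb, zero_mul, zero_add, add_zero, if_neg hd, hab]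
    have h1 : A 1 1 * k / A 1 1 = k := by field_simp
    rw [h1]; rfl

theorem glPerm_ker : (glPerm F).ker = Subgroup.center (Matrix.GeneralLinearGroup (Fin 2) F) := by
  ext A
  rw [MonoidHom.mem_ker, Matrix.GeneralLinearGroup.mem_center_iff_val_mem_range_scalar]
  constructor
  · intro h
    obtain ⟨hc, hb, hab⟩ := gl_scalar_of_fix A (by rw [h]; rfl) (by rw [h]; rfl) (by rw [h]; rfl)
    refine ⟨A 1 1, ?_⟩
    ext i j
    fin_cases i <;> fin_cases j
    · simp [hab]
    · simp [hb]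
    · simp [hc]
    · simp
  · rintro ⟨r, hr⟩
    apply glPerm_of_scalar
    have e : ∀ i j, A i j = (Matrix.scalar (Fin 2) r) i j := fun i j => by rw [hr]
    refine ⟨?_, ?_, ?_⟩
    · rw [e]; simp
    · rw [e]; simp
    · rw [e, e]; simp

noncomputable def pglEquivRange (F : Type*) [Field F] [DecidableEq F] :
    Matrix.ProjGenLinGroup (Fin 2) F ≃* (glPerm F).range :=
  (QuotientGroup.quotientMulEquivOfEq glPerm_ker.symm).trans (QuotientGroup.quotientKerEquivRange (glPerm F))

theorem pgl_recognition {G : Type*} [Group G] (ρ : G →* Equiv.Perm (OnePoint F)) (hinj : Function.Injective ρ)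
    (hrange : ∀ g, ρ g ∈ (glPerm F).range)
    (htrans : ∀ a b c : OnePoint F, a ≠ b → a ≠ c → b ≠ c →
      ∃ g : G, ρ g ∞ = a ∧ ρ g ((0 : F) : OnePoint F) = b ∧ ρ g ((1 : F) : OnePoint F) = c) :
    Nonempty (G ≃* Matrix.ProjGenLinGroup (Fin 2) F) := by
  have heq : ρ.range = (glPerm F).range := by
    apply le_antisymm
    · rintro _ ⟨g, rfl⟩; exact hrange g
    · rintro _ ⟨B, rfl⟩
      obtain ⟨g, h1, h2, h3⟩ := htrans (glPerm F B ∞) (glPerm F B ((0 : F) : OnePoint F)) (glPerm F B ((1 : F) : OnePoint F))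
        ((glPerm F B).injective.ne (OnePoint.coe_ne_infty _).symm)
        ((glPerm F B).injective.ne (OnePoint.coe_ne_infty _).symm)
        ((glPerm F B).injective.ne (fun h => zero_ne_one (OnePoint.coe_injective h)))
      obtain ⟨C, hC⟩ := hrange g
      refine ⟨g, ?_⟩
      have h4 : glPerm F (C⁻¹ * B) = 1 := by
        apply glPerm_of_scalar
        apply gl_scalar_of_fix
        · rw [map_mul, map_inv, hC, Equiv.Perm.mul_apply, ← h1, Equiv.Perm.inv_eq_iff_eq]
        · rw [map_mul, map_inv, hC, Equiv.Perm.mul_apply, ← h2, Equiv.Perm.inv_eq_iff_eq]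
        · rw [map_mul, map_inv, hC, Equiv.Perm.mul_apply, ← h3, Equiv.Perm.inv_eq_iff_eq]
      rw [map_mul, map_inv, inv_mul_eq_one, hC] at h4
      exact h4
  exact ⟨((MonoidHom.ofInjective hinj).trans (MulEquiv.subgroupCongr heq)).trans (pglEquivRange F).symm⟩

theorem glPerm_trans_mem (b : F) (σ : Equiv.Perm (OnePoint F)) (h1 : σ ∞ = ∞)
    (h2 : ∀ k : F, σ (k : OnePoint F) = ((b + k : F) : OnePoint F)) : σ ∈ (glPerm F).range := by
  obtain ⟨A, hA⟩ := slPerm_trans_mem b σ h1 h2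
  exact ⟨Matrix.SpecialLinearGroup.toGL A, hA⟩

theorem glPerm_inv_mem (σ : Equiv.Perm (OnePoint F))
    (h1 : σ ∞ = ((0 : F) : OnePoint F)) (h0 : σ ((0 : F) : OnePoint F) = ∞)
    (h2 : ∀ k : F, k ≠ 0 → σ (k : OnePoint F) = ((k⁻¹ : F) : OnePoint F)) :
    σ ∈ (glPerm F).range := by
  refine ⟨Matrix.GeneralLinearGroup.mkOfDetNeZero !![0, 1; 1, 0] (by rw [Matrix.det_fin_two_of]; simp), ?_⟩
  ext x
  cases x with
  | infty =>
    rw [glPerm_infty, h1, if_neg]
    · congr 1
      simp [Matrix.GeneralLinearGroup.mkOfDetNeZero]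
    · simp [Matrix.GeneralLinearGroup.mkOfDetNeZero]
  | coe k =>
    rw [glPerm_some]
    by_cases hk : k = 0
    · rw [hk, h0]; simp [Matrix.GeneralLinearGroup.mkOfDetNeZero]
    · rw [h2 k hk, if_neg]
      · congr 1
        simp [Matrix.GeneralLinearGroup.mkOfDetNeZero]
      · simp [Matrix.GeneralLinearGroup.mkOfDetNeZero, hk]

theorem glPerm_mul_mem (a : F) (ha : a ≠ 0) (σ : Equiv.Perm (OnePoint F)) (h1 : σ ∞ = ∞)
    (h2 : ∀ k : F, σ (k : OnePoint F) = ((a * k : F) : OnePoint F)) : σ ∈ (glPerm F).range := by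
  refine ⟨Matrix.GeneralLinearGroup.mkOfDetNeZero !![a, 0; 0, 1] (by rw [Matrix.det_fin_two_of]; simpa using ha), ?_⟩
  ext x
  cases x with
  | infty =>
    rw [glPerm_infty, h1, if_pos]
    simp [Matrix.GeneralLinearGroup.mkOfDetNeZero]
  | coe k =>
    rw [glPerm_some, h2 k, if_neg]
    · congr 1
      simp [Matrix.GeneralLinearGroup.mkOfDetNeZero]
    · simp [Matrix.GeneralLinearGroup.mkOfDetNeZero]

end proj

section coords
open Cfsg.Agent.H20.Zass
variable {G Ω : Type*} [Group G] [MulAction G Ω] [Finite Ω]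

/-- Recognition of `PGL(2, F)` from coordinates. -/
theorem pgl_of_coords (hZ : IsZassenhausGroup G Ω) {a b : Ω} (hab : a ≠ b) {F : Type} [Field F]
    {u : F → G} (hu : Coords hZ a b F u) {t : G} (hta : t • a = b) (htb : t • b = a)
    (hT : ∀ k : F, k ≠ 0 → t • (u k • b) = u (k⁻¹) • b)
    (h3 : ∀ x y z : Ω, x ≠ y → x ≠ z → y ≠ z → ∃ g : G, g • a = x ∧ g • b = y ∧ g • (u 1 • b) = z) :
    Nonempty (G ≃* Matrix.ProjGenLinGroup (Fin 2) F) := by
  classical
  have h0 : u 0 = 1 := by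
    have := hu.add 0 0
    rw [add_zero] at this
    exact (mul_left_cancel ((mul_one (u 0)).trans this)).symm
  let φ : OnePoint F → Ω := fun x => Option.elim x a (fun k => u k • b)
  have hφi : φ ∞ = a := rfl
  have hφc : ∀ k : F, φ (k : OnePoint F) = u k • b := fun k => rfl
  have hua : ∀ k, u k • a = a := fun k => K_le hZ a (hu.mem k)
  have hune : ∀ k, u k • b ≠ a := by
    intro k hc
    have := hua k
    exact hab (smul_left_cancel (u k) (this.trans hc.symm))
  have hφ : Function.Bijective φ := by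
    constructor
    · intro x y hxy
      cases x with
      | infty =>
        cases y with
        | infty => rfl
        | coe l => exact absurd hxy.symm (hune l)
      | coe k =>
        cases y with
        | infty => exact absurd hxy (hune k)
        | coe l =>
          congr 1
          exact hu.inj (K_inj hZ (Ne.symm hab) (hu.mem k) (hu.mem l) hxy)
    · intro y
      by_cases hy : y = a
      · exact ⟨∞, hy.symm⟩
      · obtain ⟨x, hx, hxy⟩ := exists_K hZ (Ne.symm hab) hy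
        obtain ⟨k, rfl⟩ := hu.surj x hx
        exact ⟨(k : OnePoint F), hxy⟩
  let e : OnePoint F ≃ Ω := Equiv.ofBijective φ hφ
  let ρ : G →* Equiv.Perm (OnePoint F) :=
    (e.symm.permCongrHom.toMonoidHom).comp (MulAction.toPermHom G Ω)
  have hρ : ∀ g x, φ (ρ g x) = g • φ x := by
    intro g x
    show e (e.symm (g • e x)) = g • e x
    rw [Equiv.apply_symm_apply]
  have hρ' : ∀ g x y, g • φ x = φ y → ρ g x = y := by
    intro g x y hxy
    apply hφ.1
    rw [hρ, hxy]
  have hinj : Function.Injective ρ := by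
    rw [injective_iff_map_eq_one]
    intro g hg
    apply faithful hZ
    intro y
    obtain ⟨x, rfl⟩ := hφ.2 y
    rw [← hρ, hg]; rfl
  have hu' : ∀ k, ρ (u k) ∈ (glPerm F).range := by
    intro k
    apply glPerm_trans_mem k
    · exact hρ' _ _ _ (hua k)
    · intro l
      apply hρ'
      rw [hφc, hφc, ← mul_smul, ← hu.add]
  have hh' : ∀ h ∈ (stabilizer G a ⊓ stabilizer G b : Subgroup G), ρ h ∈ (glPerm F).range := by
    intro h hh
    obtain ⟨s, hs0, hs⟩ := hu.act h hh
    have hhb : h • b = b := hh.2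
    apply glPerm_mul_mem s hs0
    · exact hρ' _ _ _ hh.1
    · intro k
      apply hρ'
      rw [hφc, hφc, ← hs k, mul_smul, mul_smul, inv_smul_eq_iff.mpr hhb.symm]
  have ht' : ρ t ∈ (glPerm F).range := by
    apply glPerm_inv_mem
    · apply hρ'
      rw [hφi, hφc, h0, one_smul, hta]
    · apply hρ'
      rw [hφi, hφc, h0, one_smul, htb]
    · intro k hk
      apply hρ'
      rw [hφc, hφc, hT k hk]
  have hB : ∀ g : G, g • a = a → ρ g ∈ (glPerm F).range := by
    intro g hg
    obtain ⟨x, hx, h, hha, hhb, rfl⟩ := exists_mul hZ hab hg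
    obtain ⟨k, rfl⟩ := hu.surj x hx
    rw [map_mul]
    exact mul_mem (hu' k) (hh' h ⟨hha, hhb⟩)
  apply pgl_recognition ρ hinj
  · intro g
    by_cases hg : g • a = a
    · exact hB g hg
    · obtain ⟨x, hx, hxg⟩ := exists_K hZ (Ne.symm hab) hg
      have h1 : (t⁻¹ * x⁻¹ * g) • a = a := by
        rw [mul_smul, mul_smul, ← hxg, inv_smul_smul, inv_smul_eq_iff, hta]
      have h2 : g = x * t * (t⁻¹ * x⁻¹ * g) := by group
      rw [h2, map_mul, map_mul]
      refine mul_mem (mul_mem (hB x (K_le hZ a hx)) ht') (hB _ h1)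
  · intro x y z hxy hxz hyz
    obtain ⟨g, hg1, hg2, hg3⟩ := h3 (φ x) (φ y) (φ z) (fun hc => hxy (hφ.1 hc)) (fun hc => hxz (hφ.1 hc)) (fun hc => hyz (hφ.1 hc))
    exact ⟨g, hρ' _ _ _ hg1, hρ' _ _ _ (by rw [hφc, h0, one_smul]; exact hg2), hρ' _ _ _ (by rw [hφc]; exact hg3)⟩

/-- general multiplication rule -/
theorem T_mul' (hZ : IsZassenhausGroup G Ω) {a b : Ω} (hab : a ≠ b) {F : Type} [Field F] {u : F → G} (hu : Coords hZ a b F u) {t : G} {T : F → F}
    (hT : ∀ k, k ≠ 0 → T k ≠ 0 ∧ t • (u k • b) = u (T k) • b) {h h' : G} (hth : t * h * t⁻¹ = h')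
    (hh : h ∈ (stabilizer G a ⊓ stabilizer G b : Subgroup G)) (hh' : h' ∈ (stabilizer G a ⊓ stabilizer G b : Subgroup G)) {s s' : F}
    (hs : ∀ k, h * u k * h⁻¹ = u (s * k)) (hs' : ∀ k, h' * u k * h'⁻¹ = u (s' * k)) {k : F} (hk : k ≠ 0) : T (s * k) = s' * T k := by
  have hs0 := hu.mul_ne_zero' hs
  have h1 := (hT (s * k) (mul_ne_zero hs0 hk)).2
  have h2 : t * h = h' * t := by rw [← hth]; group
  rw [← Coords.act_b hh hs k, ← mul_smul, h2, mul_smul, (hT k hk).2,
    Coords.act_b hh' hs'] at h1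
  exact (hu.u_b_inj hab h1).symm

end coords

/-- an involutive endomorphism of a finite field of odd degree is trivial -/
theorem field_invol {F : Type*} [Field F] [Fintype F] {p f : ℕ} (hp : p.Prime) (hf : Odd f) (hcard : Fintype.card F = p ^ f)
    (ψ : F →+* F) (hψ : ∀ x, ψ (ψ x) = x) : ∀ x, ψ x = x := by
  haveI : Fact p.Prime := ⟨hp⟩
  haveI : CharP F p := charP_of_card_eq_prime_pow hcard
  letI : Algebra (ZMod p) F := ZMod.algebra F p
  let e : F ≃+* F := { ψ with
    invFun := ψ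
    left_inv := hψ
    right_inv := hψ }
  let σ : F ≃ₐ[ZMod p] F := AlgEquiv.ofRingEquiv (f := e) (fun x => by
    have : (ψ.comp (algebraMap (ZMod p) F)) = algebraMap (ZMod p) F := RingHom.ext_zmod _ _
    exact RingHom.congr_fun this x)
  have h1 : Nat.card (F ≃ₐ[ZMod p] F) = f := by
    rw [IsGalois.card_aut_eq_finrank]
    have h2 := Module.card_eq_pow_finrank (K := ZMod p) (V := F)
    rw [ZMod.card, hcard] at h2
    exact (Nat.pow_right_injective hp.two_le h2).symm
  have h2 : orderOf σ ∣ f := by rw [← h1]; exact orderOf_dvd_natCard σ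
  have h3 : orderOf σ ∣ 2 := by
    apply orderOf_dvd_of_pow_eq_one
    rw [pow_two]
    ext x
    exact hψ x
  have h4 : orderOf σ = 1 := by
    rcases (Nat.dvd_prime Nat.prime_two).1 h3 with h | h
    · exact h
    · exfalso
      rw [h] at h2
      exact (Nat.not_even_iff_odd.2 hf) (even_iff_two_dvd.2 h2)
  rw [orderOf_eq_one_iff] at h4
  intro x
  exact congrArg (fun τ : F ≃ₐ[ZMod p] F => τ x) h4

end Cfsg.Agent.H10
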