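import Mathlib
import Cfsg.Agent.H10.Perm28

set_option autoImplicit false
set_option linter.all false
set_option maxHeartbeats 400000

/-!
# H10.Perm29: sharply 3-transitive groups of degree p^f+1, f odd
-/

namespace Cfsg.Agent.H10

open MulAction
open Cfsg.Agent.H20 Cfsg.Agent.H4 OnePoint
open Cfsg.Agent.H20.Zass

theorem exists_square_succ_nonsquare {F : Type*} [Field F] [Fintype F] (hF : ringChar F ≠ 2) :
    ∃ v : F, v ≠ 0 ∧ IsSquare v ∧ ¬ IsSquare (1 + v) := by
  obtain ⟨ν, hν⟩ := FiniteField.exists_nonsquare hF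
  obtain ⟨a, b, hab⟩ := FiniteField.exists_root_sum_quadratic (R := F) (f := Polynomial.X ^ 2) (g := Polynomial.X ^ 2 - Polynomial.C ν)
    (Polynomial.degree_X_pow 2) (Polynomial.degree_X_pow_sub_C (by decide) _) (by
      have := FiniteField.odd_card_of_char_ne_two hF
      exact this)
  simp only [Polynomial.eval_pow, Polynomial.eval_X, Polynomial.eval_sub, Polynomial.eval_C] at hab
  have h1 : ν = a ^ 2 + b ^ 2 := by linear_combination -hab
  by_cases ha : a = 0
  · exfalso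
    apply hν
    exact ⟨b, by rw [h1, ha]; ring⟩
  by_cases hb : b = 0
  · exfalso
    apply hν
    exact ⟨a, by rw [h1, hb]; ring⟩
  refine ⟨(b / a) ^ 2, pow_ne_zero _ (div_ne_zero hb ha), ⟨b / a, by ring⟩, ?_⟩
  rintro ⟨y, hy⟩
  apply hν
  refine ⟨a * y, ?_⟩
  have : a * y * (a * y) = a ^ 2 * (y * y) := by ring
  rw [this, ← hy, h1]
  field_simp

section
universe u
variable {α : Type u} [Fintype α] [DecidableEq α] {G : Subgroup (Equiv.Perm α)}

theorem sharp3_scalar {p f : ℕ} (hp : p.Prime) (hp2 : p ≠ 2) (hfo : Odd f) (hα : Nat.card α = p ^ f + 1)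
    (hZ : IsZassenhausGroup G α) (N : Subgroup G) (hN : N.Normal) (hidx : N.index = 2) (hZN : IsZassenhausGroup N α)
    {a b : α} (hab : a ≠ b)
    (hcard : Nat.card α = 2 * Nat.card ↥(stabilizer N a ⊓ stabilizer N b : Subgroup N) + 2)
    (hcommN : ∀ x ∈ (stabilizer N a ⊓ stabilizer N b : Subgroup N), ∀ y ∈ (stabilizer N a ⊓ stabilizer N b : Subgroup N), x * y = y * x) :
    ∀ x ∈ (stabilizer G a ⊓ stabilizer G b : Subgroup G), ∀ y ∈ (stabilizer G a ⊓ stabilizer G b : Subgroup G), x * y = y * x := by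
  classical
  haveI := hN
  obtain ⟨x₀, hx₀, hx₀1⟩ : ∃ x ∈ K hZN a, x ≠ 1 := (Subgroup.bot_or_exists_ne_one _).resolve_left
    (K_ne_bot hZN a)
  obtain ⟨F, hF1, hF2, u, hu, -⟩ := exists_coords hZN hab (by omega) hcommN hx₀ hx₀1
  have hcF := hu.card_F
  rw [Nat.card_eq_fintype_card] at hcF
  have hcF' : Fintype.card F = p ^ f := by omega
  -- conjugation
  have hconj : ∀ h ∈ (stabilizer G a ⊓ stabilizer G b : Subgroup G), ∀ k : F, ∃ l : F, h * (u k : G) * h⁻¹ = (u l : G) := by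
    intro h hh k
    have h1 : (⟨h * (u k : G) * h⁻¹, hN.conj_mem _ (u k).2 h⟩ : N) ∈ K hZN a := by
      have hk := hu.mem k
      have hha : h • a = a := hh.1
      rw [mem_K] at hk ⊢
      rcases hk with hk | ⟨hk1, hk2⟩
      · left
        apply Subtype.ext
        show h * (u k : G) * h⁻¹ = 1
        rw [hk]; simp
      · right
        refine ⟨?_, ?_⟩
        · show (h * (u k : G) * h⁻¹) • a = a
          rw [mul_smul, mul_smul, inv_smul_eq_iff.2 hha.symm, show (u k : G) • a = a from hk1, hha]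
        · intro c hc
          have hc : (h * (u k : G) * h⁻¹) • c = c := hc
          rw [mul_smul, mul_smul, ← eq_inv_smul_iff] at hc
          have := hk2 _ hc
          rw [inv_smul_eq_iff, hha] at this
          exact this
    obtain ⟨l, hl⟩ := hu.surj _ h1
    exact ⟨l, by rw [hl]⟩
  have hscal : ∀ h ∈ (stabilizer G a ⊓ stabilizer G b : Subgroup G), ∃ c : F, ∀ k, h * (u k : G) * h⁻¹ = (u (c * k) : G) := by
    intro h hh
    choose φ hφ using hconj h hh
    have hadd : ∀ k l, φ (k + l) = φ k + φ l := by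
      intro k l
      apply hu.inj
      apply Subtype.ext
      rw [← hφ, hu.add, hu.add]
      show h * ((u k : G) * (u l : G)) * h⁻¹ = (u (φ k) : G) * (u (φ l) : G)
      rw [← hφ, ← hφ]; group
    have hne : ∀ k, k ≠ 0 → φ k ≠ 0 := by
      intro k hk h0
      have h1 := hφ k
      rw [h0, hu.u_zero] at h1
      have h2 : (u k : G) = 1 := by
        have : (u k : G) = h⁻¹ * (h * (u k : G) * h⁻¹) * h := by group
        rw [this, h1]; simp
      exact hu.u_ne_one hk (Subtype.ext h2)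
    have hsqm : ∀ x : F, x ≠ 0 → ∃ s' : F, ∀ k, φ (x * x * k) = s' * φ k := by
      intro x hx
      obtain ⟨n, hn, hnx⟩ := hu.diag hab hcard hx
      have hn' : (⟨h * (n : G) * h⁻¹, hN.conj_mem _ n.2 h⟩ : N) ∈ (stabilizer N a ⊓ stabilizer N b : Subgroup N) := by
        have hha : h • a = a := hh.1
        have hhb : h • b = b := hh.2
        refine ⟨?_, ?_⟩
        · show (h * (n : G) * h⁻¹) • a = a
          rw [mul_smul, mul_smul, inv_smul_eq_iff.2 hha.symm, show (n : G) • a = a from hn.1, hha]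
        · show (h * (n : G) * h⁻¹) • b = b
          rw [mul_smul, mul_smul, inv_smul_eq_iff.2 hhb.symm, show (n : G) • b = b from hn.2, hhb]
      obtain ⟨s', -, hs'⟩ := hu.act _ hn'
      refine ⟨s', fun k => ?_⟩
      apply hu.inj
      apply Subtype.ext
      rw [← hφ, ← hs']
      show h * (u (x * x * k) : G) * h⁻¹ = (h * (n : G) * h⁻¹) * (u (φ k) : G) * (h * (n : G) * h⁻¹)⁻¹
      rw [← hφ, ← hnx]
      show h * ((n : G) * (u k : G) * (n : G)⁻¹) * h⁻¹ = _
      group
    have hc0 : φ 1 ≠ 0 := hne 1 one_ne_zero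
    have hsm : ∀ x k : F, φ 1 * φ (x * x * k) = φ (x * x) * φ k := by
      intro x k
      by_cases hx : x = 0
      · have hz : φ 0 = 0 := by
          have := hadd 0 0
          rw [add_zero] at this
          exact left_eq_add.1 this
        rw [hx]; simp [hz]
      · obtain ⟨s', hs'⟩ := hsqm x hx
        have h1 := hs' 1
        rw [mul_one] at h1
        rw [hs', h1]; ring
    have hsub : ∀ k l, φ (k - l) = φ k - φ l := by
      intro k l
      have := hadd (k - l) l
      rw [sub_add_cancel] at this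
      rw [this]; ring
    have h2F : (2 : F) ≠ 0 := by
      haveI : Fact p.Prime := ⟨hp⟩
      haveI : CharP F p := charP_of_card_eq_prime_pow hcF'
      intro h2
      have h3 : ((2 : ℕ) : F) = 0 := by exact_mod_cast h2
      rw [CharP.cast_eq_zero_iff F p] at h3
      exact hp2 ((Nat.prime_dvd_prime_iff_eq hp Nat.prime_two).1 h3)
    have hmul : ∀ x k : F, φ 1 * φ (x * k) = φ x * φ k := by
      intro x k
      have h1 := hsm ((x + 1) / 2) k
      have h2 := hsm ((x - 1) / 2) k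
      have h3 : (x + 1) / 2 * ((x + 1) / 2) - (x - 1) / 2 * ((x - 1) / 2) = x := by field_simp; ring
      have h4 : (x + 1) / 2 * ((x + 1) / 2) * k - (x - 1) / 2 * ((x - 1) / 2) * k = x * k := by
        rw [← sub_mul, h3]
      have h5 : φ x = φ ((x + 1) / 2 * ((x + 1) / 2)) - φ ((x - 1) / 2 * ((x - 1) / 2)) := by
        rw [← hsub, h3]
      have h6 : φ (x * k) = φ ((x + 1) / 2 * ((x + 1) / 2) * k) - φ ((x - 1) / 2 * ((x - 1) / 2) * k) := by
        rw [← hsub, h4]
      rw [h5, h6, mul_sub, h1, h2]; ring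
    let ψ : F →+* F :=
      { toFun := fun k => (φ 1)⁻¹ * φ k
        map_one' := inv_mul_cancel₀ hc0
        map_mul' := fun x k => by
          have := hmul x k
          have h1 : φ (x * k) = (φ 1)⁻¹ * (φ x * φ k) := by rw [← this, inv_mul_cancel_left₀ hc0]
          rw [h1]; ring
        map_zero' := by
          have := hadd 0 0
          rw [add_zero] at this
          rw [left_eq_add.1 this, mul_zero]
        map_add' := fun x y => by rw [hadd, mul_add] }
    have hψφ : ∀ k, φ k = φ 1 * ψ k := fun k => (mul_inv_cancel_left₀ hc0 _).symm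
    -- the square
    have hh2N : h * h ∈ N := Subgroup.mul_self_mem_of_index_two hidx h
    have hh2 : (⟨h * h, hh2N⟩ : N) ∈ (stabilizer N a ⊓ stabilizer N b : Subgroup N) := by
      have hha : h • a = a := hh.1
      have hhb : h • b = b := hh.2
      refine ⟨?_, ?_⟩
      · show (h * h) • a = a
        rw [mul_smul, hha, hha]
      · show (h * h) • b = b
        rw [mul_smul, hhb, hhb]
    obtain ⟨s, hs0, hs⟩ := hu.act _ hh2
    have hφφ : ∀ k, φ (φ k) = s * k := by
      intro k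
      apply hu.inj
      apply Subtype.ext
      rw [← hφ, ← hφ, ← hs]
      show h * (h * (u k : G) * h⁻¹) * h⁻¹ = (h * h) * (u k : G) * (h * h)⁻¹
      group
    have hψψ : ∀ k, ψ (ψ k) = k := by
      intro k
      have h1 := hφφ k
      have h2 := hφφ 1
      rw [hψφ (φ k), hψφ k, map_mul] at h1
      rw [hψφ (φ 1), mul_one] at h2
      have h3 : s * ψ (ψ k) = s * k := by rw [← h1, ← h2]; ring
      exact mul_left_cancel₀ hs0 h3
    have hψ1 := field_invol hp hfo hcF' ψ hψψ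
    refine ⟨φ 1, fun k => ?_⟩
    rw [hφ, hψφ k, hψ1]
  intro x hx y hy
  obtain ⟨c, hc⟩ := hscal x hx
  obtain ⟨d, hd⟩ := hscal y hy
  have hu1 : ((u 1 : N) : G) ∈ K hZ a := by
    have hk := hu.mem 1
    rw [mem_K] at hk ⊢
    rcases hk with hk | hk
    · left; rw [hk]; rfl
    · exact Or.inr hk
  have hu1' : ((u 1 : N) : G) ≠ 1 := fun h => hu.u_ne_one one_ne_zero (Subtype.ext h)
  have h1 : (x * y) * (u 1 : G) * (x * y)⁻¹ = (y * x) * (u 1 : G) * (y * x)⁻¹ := by
    have e1 : (x * y) * (u 1 : G) * (x * y)⁻¹ = x * (y * (u 1 : G) * y⁻¹) * x⁻¹ := by group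
    have e2 : (y * x) * (u 1 : G) * (y * x)⁻¹ = y * (x * (u 1 : G) * x⁻¹) * y⁻¹ := by group
    rw [e1, e2, hd, hc, hc, hd]
    congr 2; ring
  have h2 : ((y * x)⁻¹ * (x * y)) * (u 1 : G) = (u 1 : G) * ((y * x)⁻¹ * (x * y)) := by
    have : (x * y) * (u 1 : G) = (y * x) * (u 1 : G) * (y * x)⁻¹ * (x * y) := by rw [← h1]; group
    rw [mul_assoc, this]; group
  have h3 := mem_K_of_commute hZ hu1 hu1' h2
  have hxy : x * y ∈ (stabilizer G a ⊓ stabilizer G b : Subgroup G) := mul_mem hx hy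
  have hyx : y * x ∈ (stabilizer G a ⊓ stabilizer G b : Subgroup G) := mul_mem hy hx
  have h4 : ((y * x)⁻¹ * (x * y)) • b = b :=
    (mul_mem (inv_mem hyx) hxy : (y * x)⁻¹ * (x * y) ∈ (stabilizer G a ⊓ stabilizer G b : Subgroup G)).2
  have h5 := K_eq_one hZ h3 (Ne.symm hab) h4
  exact (inv_mul_eq_one.mp h5).symm

theorem sharp3_pgl (h3 : MulAction.IsMultiplyPretransitive G α 3)
    (hsharp : ∀ x : Fin 3 ↪ α, MulAction.stabilizer G x = ⊥)
    {p f : ℕ} (hp : p.Prime) (hp2 : p ≠ 2) (hfo : Odd f) (hα : Nat.card α = p ^ f + 1) (h5 : 5 ≤ Nat.card α) :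
    ∃ (F : Type) (_ : Field F) (_ : Fintype F), Fintype.card F = p ^ f ∧ Nonempty (G ≃* Matrix.ProjGenLinGroup (Fin 2) F) := by
  classical
  have heven : Even (Nat.card α) := by
    rw [hα]
    have : Odd (p ^ f) := (hp.odd_of_ne_two hp2).pow
    exact this.add_one
  obtain ⟨N, hN, hidx, hZN, hall⟩ := sharp3_even' h3 hsharp h5 heven
  have hZ := sharp3_zass h3 hsharp h5
  obtain ⟨a, b, hab⟩ := exists_ne_pts hZ
  obtain ⟨hcard, hcyc, hinvN⟩ := hall a b hab
  have hcommN : ∀ x ∈ (stabilizer N a ⊓ stabilizer N b : Subgroup N), ∀ y ∈ (stabilizer N a ⊓ stabilizer N b : Subgroup N), x * y = y * x := by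
    intro x hx y hy
    letI := hcyc.commGroup
    exact congrArg Subtype.val (mul_comm (⟨x, hx⟩ : ↥(stabilizer N a ⊓ stabilizer N b : Subgroup N)) ⟨y, hy⟩)
  have hcomm := sharp3_scalar hp hp2 hfo hα hZ N hN hidx hZN hab hcard.symm hcommN
  have hHcard := sharp3_card_two h3 hsharp hab (by omega)
  obtain ⟨x₀, hx₀, hx₀1⟩ : ∃ x ∈ K hZ a, x ≠ 1 := (Subgroup.bot_or_exists_ne_one _).resolve_left
    (K_ne_bot hZ a)
  obtain ⟨F, hF1, hF2, u, hu, -⟩ := exists_coords hZ hab (by omega) hcomm hx₀ hx₀1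
  have hcF := hu.card_F
  rw [Nat.card_eq_fintype_card] at hcF
  have hcF' : Fintype.card F = p ^ f := by omega
  haveI : Fact p.Prime := ⟨hp⟩
  haveI : CharP F p := charP_of_card_eq_prime_pow hcF'
  have hchar : ringChar F ≠ 2 := by
    rw [ringChar.eq F p]; exact hp2
  refine ⟨F, hF1, hF2, hcF', ?_⟩
  -- points
  have hne1 : a ≠ u 1 • b := (hu.u_b_ne hab 1).symm
  have hb1 : ∀ k, k ≠ 0 → b ≠ u k • b := by
    intro k hk h
    have h1 : u 0 • b = u k • b := by rw [hu.u_zero, one_smul]; exact h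
    exact hk (hu.u_b_inj hab h1).symm
  -- all scalars
  have hscal : ∀ x : F, x ≠ 0 → ∃ h ∈ (stabilizer G a ⊓ stabilizer G b : Subgroup G), ∀ k, h * u k * h⁻¹ = u (x * k) := by
    intro x hx
    obtain ⟨h, hha, hhb, hhc⟩ := sharp3_trans h3 hab hne1 (hb1 1 one_ne_zero) hab (hu.u_b_ne hab x).symm (hb1 x hx)
    obtain ⟨s, hs0, hs⟩ := hu.act h ⟨hha, hhb⟩
    have h1 := Coords.act_b (hh := (⟨hha, hhb⟩ : h ∈ (stabilizer G a ⊓ stabilizer G b : Subgroup G))) hs 1
    rw [hhc, mul_one] at h1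
    have h2 := hu.u_b_inj hab h1
    exact ⟨h, ⟨hha, hhb⟩, by rw [h2]; exact hs⟩
  obtain ⟨t, hta, htb, htc⟩ := sharp3_trans h3 hab hne1 (hb1 1 one_ne_zero) (Ne.symm hab) (hb1 1 one_ne_zero) hne1
  have ht2 : t * t = 1 := by
    apply sharp3_eq_one hsharp hab hne1 (hb1 1 one_ne_zero)
    · rw [mul_smul, hta, htb]
    · rw [mul_smul, htb, hta]
    · rw [mul_smul, htc, htc]
  obtain ⟨T, hT⟩ := hu.exists_T hab hta htb
  have hTT : ∀ k, k ≠ 0 → T (T k) = k := fun k hk => hu.T_T hab ht2 hT hk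
  have hT1 : T 1 = 1 := by
    have h1 := (hT 1 one_ne_zero).2
    rw [htc] at h1
    exact (hu.u_b_inj hab h1).symm
  have hconjH : ∀ h ∈ (stabilizer G a ⊓ stabilizer G b : Subgroup G), t * h * t⁻¹ ∈ (stabilizer G a ⊓ stabilizer G b : Subgroup G) := by
    intro h hh
    have hha : h • a = a := hh.1
    have hhb : h • b = b := hh.2
    have h1 : t⁻¹ • a = b := by rw [inv_smul_eq_iff]; exact htb.symm
    have h2 : t⁻¹ • b = a := by rw [inv_smul_eq_iff]; exact hta.symm
    refine ⟨?_, ?_⟩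
    · show (t * h * t⁻¹) • a = a
      rw [mul_smul, mul_smul, h1, hhb, htb]
    · show (t * h * t⁻¹) • b = b
      rw [mul_smul, mul_smul, h2, hha, hta]
  -- inversion on N
  have hinv : ∀ h ∈ (stabilizer G a ⊓ stabilizer G b : Subgroup G), h ∈ N → t * h * t⁻¹ = h⁻¹ := by
    intro h hh hhN
    obtain ⟨t₀, ht₀a, ht₀b⟩ := exists_smul hZN hab (Ne.symm hab)
    have h1 : (t₀ : G)⁻¹ * t ∈ (stabilizer G a ⊓ stabilizer G b : Subgroup G) := by
      refine ⟨?_, ?_⟩
      · show ((t₀ : G)⁻¹ * t) • a = a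
        rw [mul_smul, hta, inv_smul_eq_iff]; exact ht₀a.symm
      · show ((t₀ : G)⁻¹ * t) • b = b
        rw [mul_smul, htb, inv_smul_eq_iff]; exact ht₀b.symm
    have h2 := hcomm _ h1 h hh
    have h3 : (t₀ : G) * h * (t₀ : G)⁻¹ = h⁻¹ := congrArg Subtype.val (hinvN t₀ ht₀a ht₀b ⟨h, hhN⟩ ⟨hh.1, hh.2⟩)
    rw [← h3]
    calc t * h * t⁻¹ = (t₀ : G) * (((t₀ : G)⁻¹ * t) * h) * t⁻¹ := by group
      _ = (t₀ : G) * (h * ((t₀ : G)⁻¹ * t)) * t⁻¹ := by rw [h2]
      _ = _ := by group
  -- general multiplier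
  have hmul : ∀ x : F, x ≠ 0 → ∃ s : F, s * s = (x * x)⁻¹ ∧ ∀ k, k ≠ 0 → T (x * k) = s * T k := by
    intro x hx
    obtain ⟨h, hh, hhx⟩ := hscal x hx
    obtain ⟨s, hs0, hs⟩ := hu.act _ (hconjH h hh)
    refine ⟨s, ?_, fun k hk => T_mul' hZ hab hu hT rfl hh (hconjH h hh) hhx hs hk⟩
    have hh2 : h * h ∈ (stabilizer G a ⊓ stabilizer G b : Subgroup G) := mul_mem hh hh
    have h1 := hinv (h * h) hh2 (Subgroup.mul_self_mem_of_index_two hidx h)
    have h2 : ∀ k, (h * h)⁻¹ * u k * ((h * h)⁻¹)⁻¹ = u ((s * s) * k) := by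
      intro k
      rw [← h1, mul_assoc s s k, ← hs (s * k), ← hs k]
      group
    have h4 : ∀ k, (h * h) * u k * (h * h)⁻¹ = u ((x * x) * k) := by
      intro k
      rw [mul_assoc x x k, ← hhx (x * k), ← hhx k]
      group
    have h5 := h2 ((x * x) * 1)
    rw [← h4 1] at h5
    have h6 : (h * h)⁻¹ * ((h * h) * u 1 * (h * h)⁻¹) * ((h * h)⁻¹)⁻¹ = u 1 := by group
    rw [h6] at h5
    have h7 := hu.inj h5
    rw [mul_one] at h7
    exact eq_inv_of_mul_eq_one_left h7.symm
  have hTmul : ∀ x k : F, x ≠ 0 → k ≠ 0 → T (x * k) = T x * T k := by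
    intro x k hx hk
    obtain ⟨s, -, hs⟩ := hmul x hx
    have h1 := hs 1 one_ne_zero
    rw [mul_one, hT1, mul_one] at h1
    rw [hs k hk, h1]
  have hTsq : ∀ x : F, x ≠ 0 → T x * T x = (x * x)⁻¹ := by
    intro x hx
    obtain ⟨s, hs2, hs⟩ := hmul x hx
    have h1 := hs 1 one_ne_zero
    rw [mul_one, hT1, mul_one] at h1
    rw [h1, hs2]
  have hT0 : ∀ x, x ≠ 0 → T x ≠ 0 := fun x hx => (hT x hx).1
  have hTs : ∀ x : F, x ≠ 0 → IsSquare x → T x = x⁻¹ := by
    rintro x hx ⟨y, rfl⟩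
    have hy : y ≠ 0 := by rintro rfl; exact hx (mul_zero 0)
    rw [hTmul y y hy hy, hTsq y hy]
  have hTn1 : T (-1) = -1 := by
    have h1 : T (-1) * T (-1) = 1 := by
      rw [hTsq (-1) (neg_ne_zero.2 one_ne_zero)]; norm_num
    rcases mul_self_eq_one_iff.1 h1 with h | h
    · exfalso
      have h2 := hTT (-1) (neg_ne_zero.2 one_ne_zero)
      rw [h, hT1] at h2
      exact Ring.neg_one_ne_one_of_char_ne_two hchar h2.symm
    · exact h
  have hTn : ∀ k, k ≠ 0 → T (-k) = - T k := by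
    intro k hk
    rw [← neg_one_mul, hTmul (-1) k (neg_ne_zero.2 one_ne_zero) hk, hTn1, neg_one_mul]
  -- the structure equation
  have hstr : ∀ v : F, v ≠ 0 → 1 + v ≠ 0 → T (T (1 + v) - 1) = -(1 + T v) := by
    intro v hv hxv
    set g := t * u (-1) * t * u 1 * t with hg
    have hga : g • a = a := by
      rw [hg]
      simp only [mul_smul]
      have h0 : u (-1) • (u 1 • b) = b := by
        rw [← mul_smul, ← hu.add, neg_add_cancel, hu.u_zero, one_smul]
      rw [hta, htc, h0, htb]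
    obtain ⟨k, hk, h, hha, hhb, hgk⟩ := exists_mul hZ hab hga
    obtain ⟨z, rfl⟩ := hu.surj k hk
    obtain ⟨s, hs0, hs⟩ := hu.act h ⟨hha, hhb⟩
    have hgw : ∀ w, g • (u w • b) = u (z + s * w) • b := by
      intro w
      rw [hgk, mul_smul, Coords.act_b ⟨hha, hhb⟩ hs, ← mul_smul, ← hu.add]
    have e1 : z = -1 := by
      have h1 := hgw 0
      rw [hu.u_zero, one_smul, mul_zero, add_zero, hg] at h1
      simp only [mul_smul] at h1
      rw [htb, hu.u_fix, hta, (hT _ (neg_ne_zero.mpr one_ne_zero)).2, hTn1] at h1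
      exact (hu.u_b_inj hab h1).symm
    have e2 : s = -1 := by
      have h1 := hgw (-1)
      rw [hg] at h1
      simp only [mul_smul] at h1
      rw [(hT _ (neg_ne_zero.mpr one_ne_zero)).2, hTn1, ← mul_smul (u 1),
        ← hu.add, add_neg_cancel, hu.u_zero, one_smul, htb, hu.u_fix, hta] at h1
      have h2 : u 0 • b = u (z + s * (-1)) • b := by rw [hu.u_zero, one_smul]; exact h1
      have h3 := hu.u_b_inj hab h2
      rw [e1] at h3
      linear_combination h3
    have hne : T (1 + v) - 1 ≠ 0 := by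
      intro hc
      have h1 : T (1 + v) = 1 := sub_eq_zero.mp hc
      have h2 := hTT _ hxv
      rw [h1, hT1] at h2
      exact hv (by linear_combination -h2)
    have h1 := hgw (T v)
    rw [hg] at h1
    simp only [mul_smul] at h1
    have hadd : u (-1) • (u (T (1 + v)) • b) = u (T (1 + v) - 1) • b := by
      rw [← mul_smul, ← hu.add]
      congr 2
      ring
    rw [(hT _ (hT v hv).1).2, hTT v hv, ← mul_smul (u 1), ← hu.add, (hT _ hxv).2, hadd,
      (hT _ hne).2] at h1
    have h3 := hu.u_b_inj hab h1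
    rw [h3, e1, e2]
    ring
  -- T is inversion
  have hTinv : ∀ k, k ≠ 0 → T k = k⁻¹ := by
    by_contra hcon
    push Not at hcon
    obtain ⟨ν, hν0, hν⟩ := hcon
    have hTν : T ν = -ν⁻¹ := by
      have h1 := hTsq ν hν0
      have h2 : (T ν - ν⁻¹) * (T ν + ν⁻¹) = 0 := by
        rw [mul_inv] at h1
        linear_combination h1
      rcases mul_eq_zero.1 h2 with h | h
      · exact absurd (sub_eq_zero.1 h) hν
      · exact eq_neg_of_add_eq_zero_left h
    have hνsq : ¬ IsSquare ν := fun h => hν (hTs ν hν0 h)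
    have hns : ∀ μ, μ ≠ 0 → ¬ IsSquare μ → T μ = -μ⁻¹ := by
      intro μ hμ0 hμ
      have h1 : IsSquare (μ * ν) := by
        have h5 := FiniteField.isSquare_iff hchar (mul_ne_zero hμ0 hν0)
        rcases FiniteField.pow_dichotomy hchar hμ0 with h7 | h7
        · exact absurd ((FiniteField.isSquare_iff hchar hμ0).mpr h7) hμ
        · rcases FiniteField.pow_dichotomy hchar hν0 with h8 | h8
          · exact absurd ((FiniteField.isSquare_iff hchar hν0).mpr h8) hνsq
          · rw [h5, mul_pow, h7, h8]; ring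
      have h2 := hTs _ (mul_ne_zero hμ0 hν0) h1
      rw [hTmul μ ν hμ0 hν0, hTν] at h2
      rw [mul_inv] at h2
      have h3 : ν⁻¹ ≠ 0 := inv_ne_zero hν0
      have h4 : (T μ + μ⁻¹) * ν⁻¹ = 0 := by linear_combination -h2
      rcases mul_eq_zero.1 h4 with h | h
      · exact eq_neg_of_add_eq_zero_left h
      · exact absurd h h3
    obtain ⟨v, hv0, hvs, hvn⟩ := exists_square_succ_nonsquare hchar
    have h1v : 1 + v ≠ 0 := by
      intro h
      apply hvn
      rw [h]; exact ⟨0, by ring⟩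
    have h1 := hstr v hv0 h1v
    have h2 := congrArg T h1
    have hTv := hTs v hv0 hvs
    have hne : T (1 + v) - 1 ≠ 0 := by
      intro hc
      have h1 : T (1 + v) = 1 := sub_eq_zero.mp hc
      have h2 := hTT _ h1v
      rw [h1, hT1] at h2
      exact hv0 (by linear_combination -h2)
    have h5 : 1 + v⁻¹ ≠ 0 := by
      intro h
      apply h1v
      have : 1 + v = v * (1 + v⁻¹) := by field_simp; ring
      rw [this, h, mul_zero]
    rw [hTT _ hne, hTv, hTn _ h5, hns _ h1v hvn] at h2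
    -- T (1 + v⁻¹)
    have h6 : T (1 + v⁻¹) = -(v / (1 + v)) := by
      have h7 : 1 + v⁻¹ = (1 + v) * v⁻¹ := by field_simp; ring
      have h8 : T v⁻¹ = v := by
        rw [hTs _ (inv_ne_zero hv0) hvs.inv, inv_inv]
      rw [h7, hTmul _ _ h1v (inv_ne_zero hv0), hns _ h1v hvn, h8]
      field_simp
    rw [h6] at h2
    -- -(1+v)⁻¹ - 1 = v/(1+v)
    have h9 : (2 : F) * (1 + v) = 0 := by
      field_simp at h2
      linear_combination -h2
    rcases mul_eq_zero.1 h9 with h | h
    · exact Ring.two_ne_zero hchar h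
    · exact h1v h
  refine pgl_of_coords hZ hab hu hta htb (fun k hk => by rw [(hT k hk).2, hTinv k hk]) ?_
  intro x y z hxy hxz hyz
  exact sharp3_trans h3 hab hne1 (hb1 1 one_ne_zero) hxy hxz hyz

end

end Cfsg.Agent.H10
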