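import Mathlib
import Cfsg.Agent.H10.Perm29

set_option autoImplicit false
set_option linter.all false
set_option maxHeartbeats 400000

/-!
# H10.Perm30: the case of degree 4
-/

namespace Cfsg.Agent.H10

open MulAction
open Cfsg.Agent.H20 Cfsg.Agent.H4 OnePoint

theorem glPerm_three_top : (glPerm (ZMod 3)).range = ⊤ := by
  classical
  have h0 : ∀ σ : Equiv.Perm (OnePoint (ZMod 3)), σ ∞ = ∞ → σ ∈ (glPerm (ZMod 3)).range := by
    intro σ hσ
    have hne : ∀ k : ZMod 3, σ (k : OnePoint (ZMod 3)) ≠ ∞ := by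
      intro k h
      rw [← hσ] at h
      exact OnePoint.coe_ne_infty k (σ.injective h)
    have hex : ∀ k : ZMod 3, ∃ b : ZMod 3, σ (k : OnePoint (ZMod 3)) = (b : OnePoint (ZMod 3)) := by
      intro k
      obtain ⟨b, hb⟩ := OnePoint.ne_infty_iff_exists.1 (hne k)
      exact ⟨b, hb.symm⟩
    choose f hf using hex
    have hfinj : ∀ k l, k ≠ l → f k ≠ f l := by
      intro k l hkl h
      apply hkl
      apply OnePoint.coe_injective
      apply σ.injective
      rw [hf, hf, h]
    -- σ = trans ∘ mul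
    have haff : ∀ k, f k = f 0 + (f 1 - f 0) * k := by
      have key : ∀ x y z : ZMod 3, x ≠ y → x ≠ z → y ≠ z → z = x + (y - x) * 2 := by decide
      intro k
      have hk : k = 0 ∨ k = 1 ∨ k = 2 := by revert k; decide
      rcases hk with rfl | rfl | rfl
      · ring
      · ring
      · exact key _ _ _ (hfinj 0 1 (by decide)) (hfinj 0 2 (by decide)) (hfinj 1 2 (by decide))
    have ha : f 1 - f 0 ≠ 0 := sub_ne_zero.2 (hfinj 1 0 (by decide))
    refine ⟨Matrix.GeneralLinearGroup.mkOfDetNeZero !![f 1 - f 0, f 0; 0, 1] (by rw [Matrix.det_fin_two_of]; simpa using ha), ?_⟩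
    ext x
    cases x with
    | infty =>
      rw [glPerm_infty, hσ, if_pos]
      simp [Matrix.GeneralLinearGroup.mkOfDetNeZero]
    | coe k =>
      rw [glPerm_some, hf, haff k, if_neg]
      · congr 1
        simp [Matrix.GeneralLinearGroup.mkOfDetNeZero]
        ring
      · simp [Matrix.GeneralLinearGroup.mkOfDetNeZero]
  rw [eq_top_iff]
  intro σ _
  by_cases hσ : σ ∞ = ∞
  · exact h0 σ hσ
  · obtain ⟨b, hb⟩ := OnePoint.ne_infty_iff_exists.1 hσ
    let B : Matrix.GeneralLinearGroup (Fin 2) (ZMod 3) :=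
      Matrix.GeneralLinearGroup.mkOfDetNeZero !![0, 1; 1, -b] (by rw [Matrix.det_fin_two_of]; simp)
    have hB : glPerm (ZMod 3) B (b : OnePoint (ZMod 3)) = ∞ := by
      rw [glPerm_some, if_pos]
      simp [B, Matrix.GeneralLinearGroup.mkOfDetNeZero]
    have h2 := h0 (glPerm (ZMod 3) B * σ) (by rw [Equiv.Perm.mul_apply, ← hb, hB])
    have h3 : σ = (glPerm (ZMod 3) B)⁻¹ * (glPerm (ZMod 3) B * σ) := by group
    rw [h3]; exact mul_mem (inv_mem ⟨B, rfl⟩) h2

theorem perm_four_iso {α : Type*} [Fintype α] (hα : Fintype.card α = 4) :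
    Nonempty (Equiv.Perm α ≃* Matrix.ProjGenLinGroup (Fin 2) (ZMod 3)) := by
  classical
  have hcard : Fintype.card α = Fintype.card (OnePoint (ZMod 3)) := by
    rw [hα]
    show 4 = Fintype.card (Option (ZMod 3))
    rw [Fintype.card_option, ZMod.card]
  have f := Fintype.equivOfCardEq hcard
  have g : Equiv.Perm α ≃* Equiv.Perm (OnePoint (ZMod 3)) := f.permCongrHom
  exact ⟨((g.trans Subgroup.topEquiv.symm).trans (MulEquiv.subgroupCongr glPerm_three_top.symm)).trans (pglEquivRange (ZMod 3)).symm⟩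

end Cfsg.Agent.H10
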