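import Mathlib
import Cfsg.Agent.H10.TW3

set_option autoImplicit false
set_option linter.all false
open Cfsg

/-!
# H10.TW4: index of the second core
-/

open scoped commutatorElement Pointwise

namespace Cfsg.Agent.H10

theorem card_stab_perm {Y : Type*} [Finite Y] (y : Y) :
    Nat.card (MulAction.stabilizer (Equiv.Perm Y) y) = (Nat.card Y - 1).factorial := by
  classical
  haveI : Fintype Y := Fintype.ofFinite Y
  have h1 := MulAction.index_stabilizer_of_transitive (Equiv.Perm Y) y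
  have h2 := (MulAction.stabilizer (Equiv.Perm Y) y).card_mul_index
  rw [h1, Nat.card_perm] at h2
  haveI : Nonempty Y := ⟨y⟩
  obtain ⟨k, hk⟩ : ∃ k, Nat.card Y = k + 1 := ⟨Nat.card Y - 1, by have := Nat.card_pos (α := Y); omega⟩
  rw [hk, Nat.factorial_succ, mul_comm] at h2
  rw [hk, Nat.add_sub_cancel]
  exact Nat.eq_of_mul_eq_mul_left (Nat.succ_pos k) h2

theorem index_iInf_dvd {N ι : Type*} [Group N] [Fintype ι] (M : ι → Subgroup N) (hM : ∀ i, (M i).Normal) :
    (⨅ i, M i).index ∣ ∏ i, (M i).index := by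
  classical
  let φ : N →* (∀ i, N ⧸ M i) := MonoidHom.pi fun i => QuotientGroup.mk' (M i)
  have hk : φ.ker = ⨅ i, M i := by
    ext x
    rw [MonoidHom.mem_ker, Subgroup.mem_iInf, funext_iff]
    exact forall_congr' fun i => QuotientGroup.eq_one_iff x
  rw [← hk, Subgroup.index_ker]
  refine (Subgroup.card_subgroup_dvd_card _).trans ?_
  rw [Nat.card_pi]
  exact dvd_rfl

variable {G : Type*} [Group G] {A B : Subgroup G}

theorem subgroupOf_k1 : (k1 A B).subgroupOf A = ((A ⊓ B).subgroupOf A).normalCore :=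
  Subgroup.comap_map_eq_self_of_injective A.subtype_injective _

theorem k1_eq_comap : (k1 A B).subgroupOf A = (MulAction.toPermHom A (A ⧸ (A ⊓ B).subgroupOf A)).ker := by
  rw [subgroupOf_k1, Subgroup.normalCore_eq_ker]

variable [Finite G]

theorem relIndex_k1_dvd : (k1 A B).relIndex A ∣ ((A ⊓ B).relIndex A).factorial := by
  classical
  show ((k1 A B).subgroupOf A).index ∣ _
  rw [k1_eq_comap, Subgroup.index_ker]
  refine (Subgroup.card_subgroup_dvd_card _).trans ?_
  rw [Nat.card_perm]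
  exact dvd_rfl

theorem relIndex_kD_dvd : (kD A B).relIndex (k1 A B) ∣ ((A ⊓ B).relIndex B - 1).factorial := by
  classical
  have e0 : (kD A B).relIndex (k1 A B) = (k1 B A).relIndex (k1 A B) := Subgroup.inf_relIndex_left _ _
  rw [e0]
  have hle : k1 A B ≤ B := k1_le.trans inf_le_right
  let ψ : k1 A B →* Equiv.Perm (B ⧸ (B ⊓ A).subgroupOf B) :=
    (MulAction.toPermHom B (B ⧸ (B ⊓ A).subgroupOf B)).comp (Subgroup.inclusion hle)
  have hk : (k1 B A).subgroupOf (k1 A B) = ψ.ker := by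
    ext x
    rw [Subgroup.mem_subgroupOf, MonoidHom.mem_ker]
    show _ ↔ (MulAction.toPermHom B (B ⧸ (B ⊓ A).subgroupOf B)) (Subgroup.inclusion hle x) = 1
    rw [← MonoidHom.mem_ker, ← k1_eq_comap, Subgroup.mem_subgroupOf]
    rfl
  show ((k1 B A).subgroupOf (k1 A B)).index ∣ _
  rw [hk, Subgroup.index_ker]
  have h1 : ψ.range ≤ MulAction.stabilizer (Equiv.Perm (B ⧸ (B ⊓ A).subgroupOf B)) ((1 : B) : B ⧸ (B ⊓ A).subgroupOf B) := by
    rintro _ ⟨x, rfl⟩
    rw [MulAction.mem_stabilizer_iff]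
    show (((Subgroup.inclusion hle x) * 1 : B) : B ⧸ (B ⊓ A).subgroupOf B) = ((1 : B) : B ⧸ (B ⊓ A).subgroupOf B)
    rw [mul_one, QuotientGroup.eq, mul_one, Subgroup.mem_subgroupOf]
    have : (x : G) ∈ A ⊓ B := k1_le x.2
    exact inv_mem (Subgroup.mem_inf.2 ⟨this.2, this.1⟩)
  have h2 := Subgroup.card_dvd_of_le h1
  rw [card_stab_perm] at h2
  rw [inf_comm A B]
  exact h2

theorem relIndex_mul_card_eq {X Y : Subgroup G} (h : X ≤ Y) : X.relIndex Y * Nat.card X = Nat.card Y := by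
  have e5 := (X.subgroupOf Y).card_mul_index
  rw [card_subgroupOf, inf_eq_left.2 h] at e5
  rw [mul_comm]; exact e5

theorem index_k2_dvd {d : ℕ} (hd : (A ⊓ B).relIndex A = d) (hd' : (A ⊓ B).relIndex B = d) :
    (k2 A B).relIndex A ∣ d.factorial * ((d - 1).factorial) ^ d := by
  classical
  have hkN : k2 A B ≤ k1 A B := k2_le.trans inf_le_left
  have hNA : k1 A B ≤ A := k1_le.trans inf_le_left
  rw [← Subgroup.relIndex_mul_relIndex _ _ _ hkN hNA, mul_comm]
  apply mul_dvd_mul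
  · rw [← hd]; exact relIndex_k1_dvd
  · haveI : Fintype (A ⧸ (A ⊓ B).subgroupOf A) := Fintype.ofFinite _
    let g : (A ⧸ (A ⊓ B).subgroupOf A) → A := fun c => c.out
    let K : (A ⧸ (A ⊓ B).subgroupOf A) → Subgroup G := fun c => (kD A B).map (MulAut.conj (g c : G)).toMonoidHom
    have hKN : ∀ c, K c ≤ k1 A B := by
      rintro c _ ⟨x, hx, rfl⟩
      exact (Subgroup.mem_normalizer_iff.1 (le_normalizer_k1 (g c).2) x).1 ((inf_le_left : kD A B ≤ k1 A B) hx)
    have hHD : A ⊓ B ≤ Subgroup.normalizer (kD A B : Set G) :=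
      le_normalizer_inf (inf_le_left.trans le_normalizer_k1) (inf_le_right.trans le_normalizer_k1)
    have hKn : ∀ c, k1 A B ≤ Subgroup.normalizer (K c : Set G) := by
      intro c
      apply le_normalizer_of_conj_mem
      rintro n hn _ ⟨x, hx, rfl⟩
      have h1 : (g c : G)⁻¹ * n * (g c : G) ∈ k1 A B := by
        have := (Subgroup.mem_normalizer_iff.1 (le_normalizer_k1 (inv_mem (g c).2)) n).1 hn
        rwa [inv_inv] at this
      refine ⟨((g c : G)⁻¹ * n * (g c : G)) * x * ((g c : G)⁻¹ * n * (g c : G))⁻¹,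
        (Subgroup.mem_normalizer_iff.1 (hHD (k1_le h1)) x).1 hx, ?_⟩
      show (g c : G) * (((g c : G)⁻¹ * n * (g c : G)) * x * ((g c : G)⁻¹ * n * (g c : G))⁻¹) * (g c : G)⁻¹ =
        n * ((g c : G) * x * (g c : G)⁻¹) * n⁻¹
      group
    have hKi : ∀ c, ((K c).subgroupOf (k1 A B)).index = (kD A B).relIndex (k1 A B) := by
      intro c
      have h1 := relIndex_mul_card_eq (hKN c)
      have h2 := relIndex_mul_card_eq (inf_le_left : kD A B ≤ k1 A B)
      have h3 : Nat.card (K c) = Nat.card (kD A B) := card_map_equiv _ _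
      rw [h3] at h1
      exact Nat.eq_of_mul_eq_mul_right Nat.card_pos (h1.trans h2.symm)
    have hinf : (⨅ c, (K c).subgroupOf (k1 A B)) ≤ (k2 A B).subgroupOf (k1 A B) := by
      intro x hx
      rw [Subgroup.mem_iInf] at hx
      rw [Subgroup.mem_subgroupOf, k2, mem_coreIn]
      refine ⟨hNA x.2, fun a ha => ?_⟩
      set c : A ⧸ (A ⊓ B).subgroupOf A := ((⟨a, ha⟩⁻¹ : A) : A ⧸ (A ⊓ B).subgroupOf A) with hc
      have h1 : (g c)⁻¹ * (⟨a, ha⟩⁻¹ : A) ∈ (A ⊓ B).subgroupOf A := by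
        rw [← QuotientGroup.eq]
        exact QuotientGroup.out_eq' c
      rw [Subgroup.mem_subgroupOf] at h1
      have h2 : (g c : G)⁻¹ * a⁻¹ ∈ A ⊓ B := h1
      obtain ⟨y, hy, hyx⟩ := hx c
      have hyx' : (g c : G) * y * (g c : G)⁻¹ = x := hyx
      have h3 := (Subgroup.mem_normalizer_iff.1 (hHD (inv_mem h2)) y).1 hy
      have e : ((g c : G)⁻¹ * a⁻¹)⁻¹ * y * (((g c : G)⁻¹ * a⁻¹)⁻¹)⁻¹ = a * ((g c : G) * y * (g c : G)⁻¹) * a⁻¹ := by group
      rw [e, hyx'] at h3
      exact h3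
    have h1 := index_iInf_dvd (fun c => (K c).subgroupOf (k1 A B)) (fun c => normal_subgroupOf_of_le (hKn c))
    have h2 : (k2 A B).relIndex (k1 A B) ∣ (⨅ c, (K c).subgroupOf (k1 A B)).index := Subgroup.index_dvd_of_le hinf
    refine h2.trans (h1.trans ?_)
    rw [Finset.prod_congr rfl (fun c _ => hKi c), Finset.prod_const, Finset.card_univ, ← Nat.card_eq_fintype_card]
    have h3 : Nat.card (A ⧸ (A ⊓ B).subgroupOf A) = d := hd
    rw [h3]
    apply pow_dvd_pow_of_dvd
    rw [← hd']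
    exact relIndex_kD_dvd

end Cfsg.Agent.H10
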