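import Mathlib
import Cfsg.Agent.H10.TW4

set_option autoImplicit false
set_option linter.all false
open Cfsg

/-!
# H10.TW5: the Thompson-Wielandt theorem for primitive groups
-/

open scoped commutatorElement Pointwise

namespace Cfsg.Agent.H10

open MulAction

variable {G Ω : Type*} [Group G] [Finite G] [MulAction G Ω] [FaithfulSMul G Ω] [Finite Ω]

theorem tws_of_prim (hprim : IsPreprimitive G Ω) {a b : Ω} {d : ℕ}
    (hd : Nat.card (orbit (stabilizer G a) b) = d) (h2 : 2 ≤ d) :
    TWS (stabilizer G a) (stabilizer G b) ∧ (stabilizer G a ⊓ stabilizer G b).relIndex (stabilizer G a) = d ∧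
      (stabilizer G a ⊓ stabilizer G b).relIndex (stabilizer G b) = d ∧
      Nat.card (stabilizer G b) = Nat.card (stabilizer G a) := by
  haveI : Nontrivial (orbit (stabilizer G a) b) := by
    rw [← Finite.one_lt_card_iff_nontrivial]; omega
  obtain ⟨⟨x, hx⟩, ⟨y, hy⟩, hxy⟩ := exists_pair_ne (orbit (stabilizer G a) b)
  haveI : Nontrivial Ω := ⟨x, y, fun e => hxy (Subtype.ext e)⟩
  have hmax : IsCoatom (stabilizer G a) := IsPreprimitive.isCoatom_stabilizer_of_isPreprimitive G a
  have hcore : (stabilizer G a).normalCore = ⊥ := by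
    rw [eq_bot_iff]
    intro g hg
    rw [Subgroup.mem_bot]
    apply FaithfulSMul.eq_of_smul_eq_smul (α := Ω)
    intro z
    obtain ⟨k, rfl⟩ := hprim.toIsPretransitive.exists_smul_eq a z
    have h1 := hg k⁻¹
    rw [inv_inv, mem_stabilizer_iff, mul_smul, mul_smul, inv_smul_eq_iff] at h1
    rw [h1, one_smul]
  obtain ⟨g, hg⟩ := hprim.toIsPretransitive.exists_smul_eq a b
  have hB : stabilizer G b = (stabilizer G a).map (MulAut.conj g).toMonoidHom := by
    rw [← hg]; exact stabilizer_smul_eq_stabilizer_map_conj g a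
  have hne : stabilizer G a ≠ stabilizer G b := by
    intro e
    have h1 : ∀ z ∈ orbit (stabilizer G a) b, z = b := by
      rintro _ ⟨k, rfl⟩
      have : (k : G) ∈ stabilizer G b := e ▸ k.2
      exact this
    exact hxy (Subtype.ext ((h1 x hx).trans (h1 y hy).symm))
  have hcard : Nat.card (stabilizer G b) = Nat.card (stabilizer G a) := by
    rw [hB]; exact card_map_equiv _ _
  have hr1 : (stabilizer G a ⊓ stabilizer G b).relIndex (stabilizer G a) = d := by
    rw [Subgroup.inf_relIndex_left]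
    have h1 : (stabilizer G b).subgroupOf (stabilizer G a) = stabilizer (stabilizer G a) b := rfl
    show ((stabilizer G b).subgroupOf (stabilizer G a)).index = d
    rw [h1, index_stabilizer, ← hd]
    rfl
  refine ⟨TWS.of_conj hmax hcore hB hne, hr1, ?_, hcard⟩
  have h1 := relIndex_mul_card_eq (inf_le_left : stabilizer G a ⊓ stabilizer G b ≤ stabilizer G a)
  have h2 := relIndex_mul_card_eq (inf_le_right : stabilizer G a ⊓ stabilizer G b ≤ stabilizer G b)
  rw [hcard, ← h1, hr1] at h2
  exact Nat.eq_of_mul_eq_mul_right Nat.card_pos h2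

/-- if one of the second cores is trivial then the order of the stabilizer is bounded -/
theorem card_dvd_of_k2 {A B : Subgroup G} {d : ℕ} (hA : (A ⊓ B).relIndex A = d) (hB : (A ⊓ B).relIndex B = d)
    (hc : Nat.card B = Nat.card A) (h : k2 A B = ⊥ ∨ k2 B A = ⊥) :
    Nat.card A ∣ d.factorial * ((d - 1).factorial) ^ d := by
  rcases h with h | h
  · have := index_k2_dvd hA hB
    rwa [h, Subgroup.relIndex_bot_left] at this
  · have hA' : (B ⊓ A).relIndex A = d := by rw [inf_comm]; exact hA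
    have hB' : (B ⊓ A).relIndex B = d := by rw [inf_comm]; exact hB
    have := index_k2_dvd (A := B) (B := A) hB' hA'
    rwa [h, Subgroup.relIndex_bot_left, hc] at this

theorem ker_le_k1 {a b : Ω} {x : G} (hx : x ∈ stabilizer G a)
    (h : (toPermHom (stabilizer G a) (orbit (stabilizer G a) b)) ⟨x, hx⟩ = 1) : x ∈ k1 (stabilizer G a) (stabilizer G b) := by
  rw [k1, mem_coreIn]
  refine ⟨hx, fun c hc => Subgroup.mem_inf.2 ⟨mul_mem (mul_mem hc hx) (inv_mem hc), ?_⟩⟩
  have h1 : (toPermHom (stabilizer G a) (orbit (stabilizer G a) b)) ⟨x, hx⟩ ⟨c⁻¹ • b, ⟨⟨c⁻¹, inv_mem hc⟩, rfl⟩⟩ = ⟨c⁻¹ • b, ⟨⟨c⁻¹, inv_mem hc⟩, rfl⟩⟩ := by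
    rw [h]; rfl
  have h2 : x • (c⁻¹ • b) = c⁻¹ • b := congrArg Subtype.val h1
  rw [mem_stabilizer_iff, mul_smul, mul_smul, h2, smul_inv_smul]

end Cfsg.Agent.H10
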